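import Mathlib
import Cfsg.Agent.Lib.TwoGroups.RankOne

/-!
Groups in which any two abelian subgroups of the same order are conjugate: basic facts on their
`p`-subgroups.
-/

namespace CfsgLib.HallClasses

open Subgroup

variable {G : Type*} [Group G] [Finite G]

/-- The conjugacy hypothesis: abelian subgroups of the same order are conjugate. -/
def AbelianSameOrderConj (G : Type*) [Group G] : Prop :=
  ∀ A B : Subgroup G, IsMulCommutative ↥A → IsMulCommutative ↥B → Nat.card ↥A = Nat.card ↥B →
    ∃ g : G, B = A.map (MulAut.conj g).toMonoidHom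

/-- An element of order `p ^ 2` forces every `p`-subgroup to have one subgroup of order `p`. -/
theorem AbelianSameOrderConj.uniqueOrderP (hB : AbelianSameOrderConj G) {p : ℕ} [Fact p.Prime]
    {x : G} (hx : orderOf x = p ^ 2) {S : Subgroup G} (hS : IsPGroup p S) :
    CfsgLib.TwoGroups.UniqueOrderP p S := by
  classical
  have hp : p.Prime := Fact.out
  intro a b ha hb
  haveI : Nontrivial S := ⟨⟨a, 1, fun h => by rw [h, orderOf_one] at ha; exact hp.ne_one ha.symm⟩⟩
  haveI := hS.center_nontrivial
  obtain ⟨j, hj⟩ := IsPGroup.iff_card.1 (hS.to_subgroup (center S))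
  have hpZ : p ∣ Nat.card (center S) := by
    rw [hj]
    refine dvd_pow_self p fun h => ?_
    rw [h, pow_zero] at hj
    exact (Finite.one_lt_card (α := center S)).ne' hj
  obtain ⟨z, hz⟩ := exists_prime_orderOf_dvd_card' p hpZ
  have hzo : orderOf (z : S) = p := by rw [orderOf_coe, hz]
  haveI hzn : (zpowers (z : S)).Normal := ⟨fun n hn g => by
    obtain ⟨i, rfl⟩ := mem_zpowers_iff.1 hn
    rw [mem_center_iff.1 ((center S).zpow_mem z.2 i) g, mul_inv_cancel_right]
    exact zpow_mem (mem_zpowers _) i⟩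
  -- every element of order `p` lies in `⟨z⟩`
  have key : ∀ c : S, orderOf c = p → zpowers c = zpowers (z : S) := by
    intro c hc
    suffices h : c ∈ zpowers (z : S) from
      Subgroup.eq_of_le_of_card_ge (zpowers_le.2 h) (by rw [Nat.card_zpowers, Nat.card_zpowers, hzo, hc])
    by_contra hcz
    let E : Subgroup S := zpowers (z : S) ⊔ zpowers c
    have hcommzc : Commute (z : S) c := (mem_center_iff.1 z.2 c).symm
    have hEmem : ∀ e ∈ E, ∃ i j : ℤ, (z : S) ^ i * c ^ j = e := by
      intro e he
      obtain ⟨u, hu, v, hv, rfl⟩ := mem_sup_of_normal_left.1 he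
      obtain ⟨i, rfl⟩ := mem_zpowers_iff.1 hu
      obtain ⟨j, rfl⟩ := mem_zpowers_iff.1 hv
      exact ⟨i, j, rfl⟩
    have hEc : IsMulCommutative E := by
      refine ⟨⟨fun u v => Subtype.ext ?_⟩⟩
      obtain ⟨i, j, hu⟩ := hEmem u u.2
      obtain ⟨k, l, hv⟩ := hEmem v v.2
      show (u : S) * v = v * u
      rw [← hu, ← hv]
      exact ((((Commute.refl (z : S)).zpow_zpow i k).mul_right (hcommzc.zpow_zpow i l)).mul_left
        ((hcommzc.zpow_zpow k j).symm.mul_right ((Commute.refl c).zpow_zpow j l))).eq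
    have hEexp : ∀ e ∈ E, e ^ p = 1 := by
      intro e he
      obtain ⟨i, j, rfl⟩ := hEmem e he
      rw [(hcommzc.zpow_zpow i j).mul_pow, ← zpow_natCast, ← zpow_natCast, ← zpow_mul, ← zpow_mul,
        mul_comm i, mul_comm j, zpow_mul, zpow_mul, zpow_natCast, zpow_natCast,
        show (z : S) ^ p = 1 by rw [← hzo]; exact pow_orderOf_eq_one _,
        show c ^ p = 1 by rw [← hc]; exact pow_orderOf_eq_one _, one_zpow, one_zpow, one_mul]
    have hEcard : Nat.card E = p ^ 2 := by
      have h1 : (zpowers (z : S)).relIndex (zpowers c) = p := by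
        have h2 : zpowers (z : S) ⊓ zpowers c = ⊥ := by
          have h3 : Nat.card (zpowers (z : S) ⊓ zpowers c : Subgroup S) ∣ p := by
            rw [← hc, ← Nat.card_zpowers]
            exact card_dvd_of_le inf_le_right
          rcases (Nat.dvd_prime hp).1 h3 with h | h
          · exact card_eq_one.1 h
          · exfalso
            have h4 : zpowers (z : S) ⊓ zpowers c = zpowers c :=
              Subgroup.eq_of_le_of_card_ge inf_le_right (by rw [h, Nat.card_zpowers, hc])
            exact hcz ((h4.ge.trans inf_le_left) (mem_zpowers c))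
        rw [← inf_relIndex_right, h2, relIndex_bot_left, Nat.card_zpowers, hc]
      rw [← relIndex_sup_left] at h1
      rw [← relIndex_bot_left, ← relIndex_mul_relIndex ⊥ (zpowers (z : S)) E bot_le le_sup_left,
        relIndex_bot_left, h1, Nat.card_zpowers, hzo, pow_two]
    haveI := hEc
    obtain ⟨g, hg⟩ := hB (E.map S.subtype) (zpowers x) inferInstance inferInstance
      (by rw [card_map_of_injective S.subtype_injective, hEcard, Nat.card_zpowers, hx])
    have hxm : x ∈ (E.map S.subtype).map (MulAut.conj g).toMonoidHom := hg ▸ mem_zpowers x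
    obtain ⟨_, ⟨e, he, rfl⟩, rfl⟩ := hxm
    have h1 : orderOf ((MulAut.conj g).toMonoidHom (S.subtype e)) ∣ p := by
      refine orderOf_dvd_of_pow_eq_one ?_
      rw [← map_pow, ← map_pow, hEexp e he, map_one, map_one]
    rw [hx] at h1
    have := Nat.le_of_dvd hp.pos h1
    nlinarith [hp.two_le]
  rw [key a ha, ← key b hb]
  exact mem_zpowers b

/-- If some element has order `p ^ 2` then `p`-subgroups are cyclic, `p` being odd. -/
theorem AbelianSameOrderConj.isCyclic (hB : AbelianSameOrderConj G) {p : ℕ} [Fact p.Prime]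
    (hp2 : p ≠ 2) {x : G} (hx : orderOf x = p ^ 2) {S : Subgroup G} (hS : IsPGroup p S) :
    IsCyclic S :=
  (CfsgLib.TwoGroups.isCyclic_or_quaternion hS (hB.uniqueOrderP hx hS)).resolve_right
    fun h => hp2 h.1

/-- If some `p`-element is not killed by `p` then some element has order `p ^ 2`. -/
theorem exists_orderOf_eq_sq {p : ℕ} [Fact p.Prime] {S : Subgroup G} (hS : IsPGroup p S) {y : G}
    (hy : y ∈ S) (hyp : y ^ p ≠ 1) : ∃ x : G, orderOf x = p ^ 2 := by
  have hp : p.Prime := Fact.out
  obtain ⟨k, hk⟩ := IsPGroup.iff_orderOf.1 hS ⟨y, hy⟩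
  rw [Subgroup.orderOf_mk] at hk
  have h2 : 2 ≤ k := by
    by_contra h
    exact hyp (orderOf_dvd_iff_pow_eq_one.1 (hk ▸ (pow_dvd_pow p (show k ≤ 1 by omega)).trans
      (pow_one p).dvd))
  refine ⟨y ^ p ^ (k - 2), ?_⟩
  rw [orderOf_pow, hk, Nat.gcd_eq_right (pow_dvd_pow p (Nat.sub_le k 2)),
    Nat.pow_div (Nat.sub_le k 2) hp.pos]
  congr 1
  omega

end CfsgLib.HallClasses
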