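import Mathlib
import Cfsg.Agent.Lib.NormalPComplement.Replacement

/-!
A group with the class sizes (with multiplicity) of a nilpotent group is nilpotent.
-/

set_option autoImplicit false
set_option linter.style.haveILetI false
set_option linter.unusedSectionVars false

namespace CfsgLib.HallClasses.ClassMultiset

open Subgroup

variable {G : Type*} [Group G] [Finite G] {p : ℕ} [Fact p.Prime]

/-- The elements whose class has order prime to `p`. -/
def primeToSet (p : ℕ) (G : Type*) [Group G] : Set G :=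
  {x | ¬ p ∣ Nat.card (ConjClasses.mk x).carrier}

theorem index_centralizer (x : G) :
    (centralizer ({x} : Set G)).index = Nat.card (ConjClasses.mk x).carrier := by
  rw [centralizer_eq_comap_stabilizer]
  refine (Subgroup.index_comap_of_surjective (MulAction.stabilizer (ConjAct G) x)
    (f := (ConjAct.toConjAct : G ≃* ConjAct G).toMonoidHom)
    (ConjAct.toConjAct : G ≃* ConjAct G).surjective).trans ?_
  rw [MulAction.index_stabilizer, ← Nat.card_coe_set_eq]
  refine congrArg (fun s : Set G => Nat.card s) ?_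
  ext y
  rw [ConjAct.mem_orbit_conjAct, ConjClasses.mem_carrier_iff_mk_eq, ConjClasses.mk_eq_mk_iff_isConj]

theorem mem_primeToSet_iff {x : G} :
    x ∈ primeToSet p G ↔ ∃ P : Sylow p G, (P : Subgroup G) ≤ centralizer ({x} : Set G) := by
  have hp : p.Prime := Fact.out
  rw [primeToSet, Set.mem_ofPred_eq, ← index_centralizer]
  constructor
  · intro h
    obtain ⟨Q⟩ := (inferInstance : Nonempty (Sylow p (centralizer ({x} : Set G))))
    have hQ : ¬ p ∣ ((Q : Subgroup _).map (centralizer ({x} : Set G)).subtype).index := by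
      rw [index_map_subtype]
      exact hp.not_dvd_mul Q.not_dvd_index h
    exact ⟨(Q.2.map _).toSylow hQ, map_subtype_le _⟩
  · rintro ⟨P, hP⟩ hd
    exact P.not_dvd_index (hd.trans (index_dvd_of_le hP))

theorem ncard_primeToSet (p : ℕ) (G : Type*) [Group G] [Finite G] {N : ℕ}
    (hN : Nat.card G ≤ N) :
    (primeToSet p G).ncard =
      ∑ k ∈ (Finset.range (N + 1)).filter (fun k => ¬ p ∣ k),
        Nat.card {C : ConjClasses G // Nat.card C.carrier = k} * k := by
  classical
  haveI := Fintype.ofFinite G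
  have h1 : (primeToSet p G).ncard =
      ∑ C : ConjClasses G, if ¬ p ∣ Nat.card C.carrier then Nat.card C.carrier else 0 := by
    rw [Set.ncard_eq_toFinset_card']
    rw [← Finset.sum_fiberwise (primeToSet p G).toFinset ConjClasses.mk (fun _ => 1) |>.trans
      (Finset.card_eq_sum_ones _).symm]
    refine Finset.sum_congr rfl fun C _ => ?_
    rw [← Finset.card_eq_sum_ones]
    split_ifs with hC
    · rw [Finset.card_eq_zero, Finset.filter_eq_empty_iff]
      intro y hy he
      have hy' : ¬ p ∣ Nat.card (ConjClasses.mk y).carrier := Set.mem_toFinset.1 hy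
      exact hy' (he ▸ hC)
    · rw [Nat.card_eq_card_toFinset]
      congr 1
      ext y
      simp only [Finset.mem_filter, Set.mem_toFinset, ConjClasses.mem_carrier_iff_mk_eq]
      exact ⟨fun h => h.2,
        fun h => ⟨show ¬ p ∣ Nat.card (ConjClasses.mk y).carrier by rw [h]; exact hC, h⟩⟩
  rw [h1, ← Finset.sum_filter]
  rw [← Finset.sum_fiberwise_of_maps_to (t := (Finset.range (N + 1)).filter (fun k => ¬ p ∣ k))
    (g := fun C : ConjClasses G => Nat.card C.carrier)]
  · refine Finset.sum_congr rfl fun k hk => ?_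
    rw [Finset.mem_filter] at hk
    rw [Finset.sum_congr rfl (g := fun _ => k) fun C hC => (Finset.mem_filter.1 hC).2,
      Finset.sum_const, smul_eq_mul, Nat.card_eq_fintype_card, Fintype.card_subtype,
      Finset.filter_filter]
    congr 2
    ext C
    simp only [Finset.mem_filter, Finset.mem_univ, true_and]
    exact ⟨fun h => h.2, fun h => ⟨h ▸ hk.2, h⟩⟩
  · intro C hC
    simp only [Finset.mem_filter, Finset.mem_univ, true_and, Finset.mem_range] at hC ⊢
    refine ⟨Nat.lt_succ_of_le (le_trans ?_ hN), hC⟩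
    exact Nat.card_le_card_of_injective _ Subtype.val_injective

theorem card_center_eq (G : Type*) [Group G] [Finite G] :
    Nat.card (center G) = Nat.card {C : ConjClasses G // Nat.card C.carrier = 1} := by
  refine Nat.card_congr (Equiv.ofBijective (fun z => ⟨ConjClasses.mk (z : G), ?_⟩) ⟨?_, ?_⟩)
  · rw [← index_centralizer, index_eq_one, eq_top_iff]
    exact fun g _ => mem_centralizer_singleton_iff.2 (mem_center_iff.1 z.2 g)
  · intro a b hab
    obtain ⟨g, hg⟩ := isConj_iff.1 (ConjClasses.mk_eq_mk_iff_isConj.1 (congrArg Subtype.val hab))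
    refine Subtype.ext ?_
    rw [← hg, mem_center_iff.1 a.2 g, mul_inv_cancel_right]
  · rintro ⟨C, hC⟩
    obtain ⟨x, rfl⟩ := ConjClasses.exists_rep C
    rw [← index_centralizer, index_eq_one] at hC
    exact ⟨⟨x, mem_center_iff.2 fun g => mem_centralizer_singleton_iff.1 (hC.ge (mem_top g))⟩, rfl⟩

/-- The Sylow `p`-subgroup of the centre. -/
abbrev cen (P : Sylow p G) : Subgroup G := (P : Subgroup G) ⊓ center G

theorem card_cen (P : Sylow p G) :
    Nat.card (cen P) = p ^ (Nat.card (center G)).factorization p := by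
  obtain ⟨T⟩ := (inferInstance : Nonempty (Sylow p (center G)))
  rw [← T.card_eq_multiplicity, ← card_map_of_injective (center G).subtype_injective (K := (T : Subgroup (center G)))]
  have hle : cen P = (T : Subgroup (center G)).map (center G).subtype := by
    refine le_antisymm ?_ ?_
    · intro x hx
      refine ⟨⟨x, hx.2⟩, ?_, rfl⟩
      haveI : (T : Subgroup (center G)).Normal :=
        ⟨fun a ha g => by
          rwa [show g * a * g⁻¹ = a from Subtype.ext (by
            push_cast
            rw [← mem_center_iff.1 g.2 (a : G), mul_inv_cancel_right])]⟩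
      obtain ⟨j, hj⟩ := P.2 ⟨x, hx.1⟩
      have hz : IsPGroup p (zpowers (⟨x, hx.2⟩ : center G)) := by
        rintro ⟨y, hy⟩
        obtain ⟨i, rfl⟩ := mem_zpowers_iff.1 hy
        refine ⟨j, Subtype.ext (Subtype.ext ?_)⟩
        simp only [SubgroupClass.coe_zpow, SubmonoidClass.coe_pow, OneMemClass.coe_one]
        rw [← zpow_natCast, ← zpow_mul, mul_comm, zpow_mul, zpow_natCast,
          show x ^ p ^ j = 1 from congrArg Subtype.val hj, one_zpow]
      exact (sup_eq_right.1 (T.is_maximal' (hz.to_sup_of_normal_right T.2) le_sup_right))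
        (mem_zpowers _)
    · rintro _ ⟨⟨x, hx⟩, hxT, rfl⟩
      refine ⟨?_, hx⟩
      haveI hn : ((T : Subgroup (center G)).map (center G).subtype).Normal := by
        refine ⟨fun a ha g => ?_⟩
        rwa [mem_center_iff.1 (map_subtype_le _ ha) g, mul_inv_cancel_right]
      exact (sup_eq_left.1 (P.is_maximal' (P.2.to_sup_of_normal_right (T.2.map _)) le_sup_left))
        ⟨⟨x, hx⟩, hxT, rfl⟩
  rw [hle]

theorem conj_in_normalizer (P : Sylow p G) {x y : G}
    (hx : x ∈ centralizer ((P : Subgroup G) : Set G)) (hy : y ∈ centralizer ((P : Subgroup G) : Set G))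
    {g : G} (hg : g * x * g⁻¹ = y) :
    ∃ n ∈ normalizer ((P : Subgroup G) : Set G), n * x * n⁻¹ = y := by
  set C := centralizer ({y} : Set G)
  have hP : (P : Subgroup G) ≤ C := fun s hs =>
    mem_centralizer_singleton_iff.2 (mem_centralizer_iff.1 hy s hs)
  have hgP : ((g • P : Sylow p G) : Subgroup G) ≤ C := by
    rw [Sylow.coe_subgroup_smul]
    rintro _ ⟨s, hs, rfl⟩
    refine mem_centralizer_singleton_iff.2 ?_
    show g * s * g⁻¹ * y = y * (g * s * g⁻¹)
    rw [← hg]
    calc g * s * g⁻¹ * (g * x * g⁻¹) = g * (s * x) * g⁻¹ := by group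
      _ = g * (x * s) * g⁻¹ := by rw [mem_centralizer_iff.1 hx s hs]
      _ = g * x * g⁻¹ * (g * s * g⁻¹) := by group
  obtain ⟨c, hc⟩ := MulAction.exists_smul_eq C ((g • P).subtype hgP) (P.subtype hP)
  rw [Sylow.smul_subtype] at hc
  have h1 : ((c : G) * g) • P = P := by
    rw [mul_smul]
    exact Sylow.subtype_injective hc
  refine ⟨(c : G) * g, Sylow.smul_eq_iff_mem_normalizer.1 h1, ?_⟩
  calc (c : G) * g * x * ((c : G) * g)⁻¹ = (c : G) * (g * x * g⁻¹) * (c : G)⁻¹ := by group
    _ = y := by
      rw [hg, mem_centralizer_singleton_iff.1 c.2, mul_inv_cancel_right]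

/-- If only `|P ∩ Z(G)| · [G : P]` elements have class size prime to `p`, then `P` is normal. -/
theorem normal_of_ncard_eq (P : Sylow p G)
    (hA : (primeToSet p G).ncard = Nat.card (cen P) * (P : Subgroup G).index) :
    (P : Subgroup G).Normal := by
  classical
  have hp : p.Prime := Fact.out
  set W := cen P
  haveI hWn : W.Normal := ⟨fun a ha g => by rwa [mem_center_iff.1 ha.2 g, mul_inv_cancel_right]⟩
  set π := QuotientGroup.mk' W
  set A := primeToSet p G with hAdef
  have hWle : ∀ Q : Sylow p G, W ≤ (Q : Subgroup G) := fun Q =>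
    sup_eq_left.1 (Q.is_maximal' (Q.2.to_sup_of_normal_right (P.2.to_le inf_le_left)) le_sup_left)
  have hAW : ∀ x ∈ A, ∀ w ∈ W, x * w ∈ A := by
    intro x hx w hw
    obtain ⟨Q, hQ⟩ := mem_primeToSet_iff.1 hx
    refine mem_primeToSet_iff.2 ⟨Q, fun s hs => mem_centralizer_singleton_iff.2 ?_⟩
    rw [← mul_assoc, mem_centralizer_singleton_iff.1 (hQ hs), mul_assoc, mem_center_iff.1 hw.2 s,
      mul_assoc]
  -- the image of `A`
  set Ab := π '' A with hAb
  have hcardA : A.ncard = Ab.ncard * Nat.card W := by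
    rw [← Nat.card_coe_set_eq, ← Nat.card_coe_set_eq, ← Nat.card_prod]
    refine Nat.card_congr (Equiv.ofBijective
      (fun x : A => ((⟨π x, x, x.2, rfl⟩ : Ab),
        (⟨(π x).out⁻¹ * x, QuotientGroup.eq.1 (QuotientGroup.out_eq' _)⟩ : W))) ⟨?_, ?_⟩)
    · intro a b hab
      have h1 : π a = π b := congrArg (fun t : Ab × W => (t.1 : G ⧸ W)) hab
      have h2 : (π a).out⁻¹ * (a : G) = (π b).out⁻¹ * b := congrArg (fun t : Ab × W => (t.2 : G)) hab
      rw [h1] at h2
      exact Subtype.ext (mul_left_cancel h2)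
    · rintro ⟨⟨_, x, hx, rfl⟩, w⟩
      have hw' : x⁻¹ * ((π x).out * w) ∈ W := by
        rw [← mul_assoc]
        exact mul_mem (QuotientGroup.eq.1 (QuotientGroup.out_eq' (π x)).symm) w.2
      have hmem : (π x).out * (w : G) ∈ A := by
        have := hAW x hx _ hw'
        rwa [mul_inv_cancel_left] at this
      refine ⟨⟨_, hmem⟩, ?_⟩
      have he : π ((π x).out * (w : G)) = π x := by
        rw [map_mul, show π (w : G) = 1 from (QuotientGroup.eq_one_iff _).2 w.2, mul_one]
        exact QuotientGroup.out_eq' _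
      refine Prod.ext (Subtype.ext he) (Subtype.ext ?_)
      show (π ((π x).out * (w : G))).out⁻¹ * ((π x).out * w) = w
      rw [he, inv_mul_cancel_left]
  have hAbp : Ab.ncard = (P : Subgroup G).index := by
    rw [hA] at hcardA
    exact Nat.eq_of_mul_eq_mul_right Nat.card_pos (by rw [← hcardA]; ring)
  set C := centralizer ((P : Subgroup G) : Set G) with hCdef
  have hWC : W ≤ C := fun w hw => mem_centralizer_iff.2 fun s _ => mem_center_iff.1 hw.2 s
  -- `Z(P)` is central in `G`
  have hZ : (P : Subgroup G) ⊓ C ≤ center G := by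
    have hinv : ∀ (s : P) (t : G ⧸ W), t ∈ Ab → π s * t * (π s)⁻¹ ∈ Ab := by
      rintro s _ ⟨x, hx, rfl⟩
      refine ⟨(s : G) * x * (s : G)⁻¹, ?_, by simp only [map_mul, map_inv]⟩
      rw [hAdef, primeToSet, Set.mem_ofPred_eq,
        ← ConjClasses.mk_eq_mk_iff_isConj.2 (isConj_iff.2 ⟨(s : G), rfl⟩)]
      exact hx
    letI act : MulAction P Ab :=
      { smul := fun s t => ⟨π s * t * (π s)⁻¹, hinv s t t.2⟩
        one_smul := fun t => Subtype.ext (by
          show π ((1 : P) : G) * (t : G ⧸ W) * (π ((1 : P) : G))⁻¹ = t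
          simp)
        mul_smul := fun s s' t => Subtype.ext (by
          show π ((s * s' : P) : G) * (t : G ⧸ W) * (π ((s * s' : P) : G))⁻¹ =
            π (s : G) * (π (s' : G) * t * (π (s' : G))⁻¹) * (π (s : G))⁻¹
          rw [Subgroup.coe_mul, map_mul]
          group) }
    have hfix : Nat.card (MulAction.fixedPoints P Ab) = Nat.card (C.map π) := by
      refine Nat.card_congr ⟨fun t => ⟨t.1.1, ?_⟩, fun t => ⟨⟨t.1, ?_⟩, fun s => Subtype.ext ?_⟩,
        fun _ => rfl, fun _ => rfl⟩
      · obtain ⟨x, hx, hxe⟩ := t.1.2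
        refine ⟨x, mem_centralizer_iff.2 fun s hs => ?_, hxe⟩
        have h1 : π s * π x * (π s)⁻¹ = π x := by
          rw [hxe]
          exact congrArg Subtype.val (t.2 ⟨s, hs⟩)
        rw [← map_inv, ← map_mul, ← map_mul] at h1
        have hζ : x⁻¹ * (s * x * s⁻¹) ∈ W := QuotientGroup.eq.1 h1.symm
        set ζ := x⁻¹ * (s * x * s⁻¹)
        obtain ⟨Q, hQ⟩ := mem_primeToSet_iff.1 hx
        have hxQ : x ∈ centralizer ((Q : Subgroup G) : Set G) :=
          mem_centralizer_iff.2 fun u hu => mem_centralizer_singleton_iff.1 (hQ hu)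
        have hyQ : x * ζ ∈ centralizer ((Q : Subgroup G) : Set G) :=
          mul_mem hxQ (mem_centralizer_iff.2 fun u _ => mem_center_iff.1 hζ.2 u)
        obtain ⟨n, hn, hne⟩ := conj_in_normalizer Q hxQ hyQ (g := s) (by simp [ζ])
        have hpow : ∀ i : ℕ, n ^ i * x * (n ^ i)⁻¹ = x * ζ ^ i := by
          intro i
          induction i with
          | zero => simp
          | succ i ih =>
            calc n ^ (i + 1) * x * (n ^ (i + 1))⁻¹ = n * (n ^ i * x * (n ^ i)⁻¹) * n⁻¹ := by
                  rw [pow_succ']; group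
              _ = n * (x * ζ ^ i) * n⁻¹ := by rw [ih]
              _ = (n * x * n⁻¹) * ζ ^ i := by
                  rw [mul_assoc n, mul_assoc x, ← mem_center_iff.1 (pow_mem hζ.2 i) n⁻¹]
                  group
              _ = x * ζ ^ (i + 1) := by rw [hne, pow_succ', mul_assoc]
        set m := ((Q : Subgroup G).subgroupOf (normalizer ((Q : Subgroup G) : Set G))).index
        have hnm : n ^ m ∈ (Q : Subgroup G) := by
          haveI : ((Q : Subgroup G).subgroupOf (normalizer ((Q : Subgroup G) : Set G))).Normal :=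
            normal_in_normalizer
          exact mem_subgroupOf.1 (((Q : Subgroup G).subgroupOf
            (normalizer ((Q : Subgroup G) : Set G))).pow_index_mem ⟨n, hn⟩)
        have h2 : ζ ^ m = 1 := by
          have h3 := hpow m
          rw [mem_centralizer_iff.1 hxQ _ hnm, mul_inv_cancel_right] at h3
          exact mul_eq_left.1 h3.symm
        have hm : ¬ p ∣ m := fun hd => Q.not_dvd_index
          (hd.trans (relIndex_dvd_index_of_le le_normalizer))
        obtain ⟨e, he⟩ := IsPGroup.iff_orderOf.1 (P.2.to_le inf_le_left) ⟨ζ, hζ⟩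
        rw [Subgroup.orderOf_mk] at he
        have hζ1 : ζ = 1 := orderOf_eq_one_iff.1 (Nat.eq_one_of_dvd_coprimes
          ((hp.coprime_iff_not_dvd.2 hm).pow_left e) he.dvd (orderOf_dvd_of_pow_eq_one h2))
        have h4 : s * x * s⁻¹ = x := (inv_mul_eq_one.1 hζ1).symm
        exact mul_inv_eq_iff_eq_mul.1 h4
      · obtain ⟨x, hx, hxe⟩ := t.2
        exact ⟨x, mem_primeToSet_iff.2 ⟨P, fun s hs =>
          mem_centralizer_singleton_iff.2 (mem_centralizer_iff.1 hx s hs)⟩, hxe⟩
      · show π (s : G) * t.1 * (π (s : G))⁻¹ = t.1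
        obtain ⟨x, hx, hxe⟩ := t.2
        rw [← hxe, ← map_inv, ← map_mul, ← map_mul, mem_centralizer_iff.1 hx (s : G) s.2,
          mul_inv_cancel_right]
    have hmod := P.2.card_modEq_card_fixedPoints Ab
    rw [hfix, Nat.card_coe_set_eq, hAbp] at hmod
    by_contra hle
    obtain ⟨u, hu, huc⟩ := SetLike.not_le_iff_exists.1 hle
    refine P.not_dvd_index ((Nat.modEq_zero_iff_dvd).1 (hmod.trans ((Nat.modEq_zero_iff_dvd).2 ?_)))
    obtain ⟨e, he⟩ := IsPGroup.iff_orderOf.1 P.2 ⟨u, hu.1⟩
    rw [Subgroup.orderOf_mk] at he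
    obtain ⟨i, -, hi⟩ := (Nat.dvd_prime_pow hp).1 (he ▸ orderOf_map_dvd π u)
    rcases i with _ | i
    · rw [pow_zero] at hi
      exact absurd ((QuotientGroup.eq_one_iff u).1 (orderOf_eq_one_iff.1 hi)).2 huc
    · exact (dvd_pow_self p i.succ_ne_zero).trans
        (hi ▸ Subgroup.orderOf_dvd_natCard (C.map π) (mem_map_of_mem π hu.2))
  -- counting conjugates of `C(P)`
  have hPC : (P : Subgroup G) ⊓ C = W := le_antisymm (le_inf inf_le_left hZ) (le_inf inf_le_left hWC)
  set Nr := normalizer ((P : Subgroup G) : Set G)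
  have hCN : C ≤ Nr := centralizer_le_normalizer _
  have hcard : Nat.card ↥((P : Subgroup G) ⊔ C) * Nat.card W = Nat.card (P : Subgroup G) * Nat.card C := by
    have h1 := CfsgLib.NormalPComplement.card_sup_mul_card_inf (A := C) (B := (P : Subgroup G)) hCN
    rw [sup_comm, inf_comm, hPC] at h1
    rw [h1, mul_comm]
  have hsub : A ⊆ ↑W ∪ ⋃ q : G ⧸ Nr,
      (fun c => q.out * c * q.out⁻¹) '' ((C : Set G) \ (W : Set G)) := by
    intro x hx
    obtain ⟨Q, hQ⟩ := mem_primeToSet_iff.1 hx
    obtain ⟨g, hg⟩ := MulAction.exists_smul_eq G P Q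
    obtain ⟨⟨n, hn⟩, hn'⟩ := QuotientGroup.mk_out_eq_mul Nr g
    by_cases hxW : x ∈ W
    · exact Or.inl hxW
    refine Or.inr (Set.mem_iUnion.2 ⟨QuotientGroup.mk g, ?_⟩)
    have hPn : ((QuotientGroup.mk g : G ⧸ Nr).out) • P = Q := by
      rw [hn', mul_smul, Sylow.smul_eq_iff_mem_normalizer.2 hn, hg]
    set g' := (QuotientGroup.mk g : G ⧸ Nr).out
    refine ⟨g'⁻¹ * x * g', ⟨mem_centralizer_iff.2 fun s hs => ?_, fun hc => hxW ?_⟩,
      by show g' * (g'⁻¹ * x * g') * g'⁻¹ = x; group⟩
    · have h1 : g' * s * g'⁻¹ ∈ (Q : Subgroup G) := by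
        rw [← hPn, Sylow.coe_subgroup_smul]
        exact ⟨s, hs, rfl⟩
      have h2 := mem_centralizer_singleton_iff.1 (hQ h1)
      calc s * (g'⁻¹ * x * g') = g'⁻¹ * ((g' * s * g'⁻¹) * x) * g' := by group
        _ = g'⁻¹ * (x * (g' * s * g'⁻¹)) * g' := by rw [h2]
        _ = g'⁻¹ * x * g' * s := by group
    · have := hWn.conj_mem _ hc g'
      rwa [show g' * (g'⁻¹ * x * g') * g'⁻¹ = x by group] at this
  haveI := Fintype.ofFinite (G ⧸ Nr)
  have hle : A.ncard ≤ Nat.card W + Nr.index * (Nat.card C - Nat.card W) := by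
    refine (Set.ncard_le_ncard hsub (Set.toFinite _)).trans ((Set.ncard_union_le _ _).trans ?_)
    refine Nat.add_le_add (Nat.card_coe_set_eq _).symm.le ?_
    refine (Set.ncard_iUnion_le_of_fintype _).trans ?_
    refine (Finset.sum_le_card_nsmul _ _ (Nat.card C - Nat.card W) fun q _ => ?_).trans ?_
    · refine (Set.ncard_image_le (Set.toFinite _)).trans ?_
      rw [Set.ncard_sdiff' hWC]
      exact le_of_eq (by rw [← Nat.card_coe_set_eq, ← Nat.card_coe_set_eq]; rfl)
    · rw [smul_eq_mul, Finset.card_univ, ← Nat.card_eq_fintype_card, ← index_eq_card]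
  rw [hA] at hle
  -- the index of the normaliser is one
  rw [← normalizer_eq_top_iff, ← index_eq_one]
  have hrel : (P : Subgroup G).index = (P : Subgroup G).relIndex Nr * Nr.index :=
    (relIndex_mul_index le_normalizer).symm
  have hup : Nat.card C ≤ Nat.card W * (P : Subgroup G).relIndex Nr := by
    have h1 : Nat.card ↥((P : Subgroup G) ⊔ C) ≤ Nat.card Nr :=
      Nat.le_of_dvd Nat.card_pos (card_dvd_of_le (sup_le le_normalizer hCN))
    have h2 : Nat.card (P : Subgroup G) * (P : Subgroup G).relIndex Nr = Nat.card Nr := by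
      rw [← Nat.card_congr (subgroupOfEquivOfLe (le_normalizer (H := (P : Subgroup G)))).toEquiv]
      exact card_mul_index _
    refine Nat.le_of_mul_le_mul_left ?_ (Nat.card_pos (α := (P : Subgroup G)))
    calc Nat.card (P : Subgroup G) * Nat.card C
        = Nat.card ↥((P : Subgroup G) ⊔ C) * Nat.card W := hcard.symm
      _ ≤ Nat.card Nr * Nat.card W := Nat.mul_le_mul_right _ h1
      _ = Nat.card (P : Subgroup G) * (Nat.card W * (P : Subgroup G).relIndex Nr) := by rw [← h2]; ring
  have hWCcard : Nat.card W ≤ Nat.card C := Nat.le_of_dvd Nat.card_pos (card_dvd_of_le hWC)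
  obtain ⟨d, hd⟩ := Nat.exists_eq_add_of_le hWCcard
  rw [hd, Nat.add_sub_cancel_left, hrel] at hle
  rw [hd] at hup
  have hn1 : 1 ≤ Nr.index := Nat.one_le_iff_ne_zero.2 Nr.index_ne_zero_of_finite
  have hW1 : 0 < Nat.card W := Nat.card_pos
  by_contra hne
  nlinarith [Nat.mul_le_mul_right Nr.index hup, Nat.mul_le_mul_left (Nat.card W) (show 2 ≤ Nr.index from (Nat.lt_or_eq_of_le hn1).resolve_right (fun e => hne e.symm))]

/-- The count in a nilpotent group. -/
theorem ncard_primeToSet_of_nilpotent (hG : Group.IsNilpotent G) (P : Sylow p G) :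
    (primeToSet p G).ncard = Nat.card (cen P) * (P : Subgroup G).index := by
  have hp : p.Prime := Fact.out
  haveI := hG
  have hn : (P : Subgroup G).Normal :=
    Sylow.normal_of_normalizerCondition Group.normalizerCondition_of_isNilpotent P
  set C := centralizer ((P : Subgroup G) : Set G)
  have hAC : primeToSet p G = (C : Set G) := by
    ext x
    rw [mem_primeToSet_iff, SetLike.mem_coe]
    constructor
    · rintro ⟨Q, hQ⟩
      haveI := hn
      have hle : (P : Subgroup G) ≤ Q :=
        sup_eq_left.1 (Q.is_maximal' (Q.2.to_sup_of_normal_right P.2) le_sup_left)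
      obtain rfl : Q = P := Sylow.ext (P.is_maximal' Q.2 hle)
      exact mem_centralizer_iff.2 fun s hs => mem_centralizer_singleton_iff.1 (hQ hs)
    · exact fun hx => ⟨P, fun s hs => mem_centralizer_singleton_iff.2 (mem_centralizer_iff.1 hx s hs)⟩
  have hcomm : ∀ (q : ℕ), q.Prime → q ≠ p → ∀ (R : Sylow q G), (R : Subgroup G) ≤ C := by
    intro q hq hne R r hr
    haveI := Fact.mk hq
    exact mem_centralizer_iff.2 fun s hs => commute_of_normal_of_disjoint _ _ hn
      (Sylow.normal_of_normalizerCondition Group.normalizerCondition_of_isNilpotent R)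
      (IsPGroup.disjoint_of_ne p q hne.symm _ _ P.2 R.2) s r hs hr
  have htop : (P : Subgroup G) ⊔ C = ⊤ := by
    refine eq_top_of_card_eq _ (Nat.dvd_antisymm (card_subgroup_dvd_card _) ?_)
    refine (Nat.dvd_iff_prime_pow_dvd_dvd _ _).2 fun q i hq hi => ?_
    haveI := Fact.mk hq
    obtain ⟨R⟩ := (inferInstance : Nonempty (Sylow q G))
    have hR : (R : Subgroup G) ≤ (P : Subgroup G) ⊔ C := by
      by_cases hqp : q = p
      · subst hqp
        haveI := hn
        exact le_trans (sup_eq_right.1 (P.is_maximal' (R.2.to_sup_of_normal_right P.2) le_sup_right)) le_sup_left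
      · exact (hcomm q hq hqp R).trans le_sup_right
    refine dvd_trans ?_ (card_dvd_of_le hR)
    rw [R.card_eq_multiplicity]
    exact pow_dvd_pow q ((hq.pow_dvd_iff_le_factorization Nat.card_pos.ne').1 hi)
  have hinf : (P : Subgroup G) ⊓ C = cen P := by
    refine le_antisymm (fun u hu => ⟨hu.1, ?_⟩) fun u hu =>
      ⟨hu.1, mem_centralizer_iff.2 fun s _ => mem_center_iff.1 hu.2 s⟩
    have hle : (P : Subgroup G) ⊔ C ≤ centralizer ({u} : Set G) := sup_le
      (fun s hs => mem_centralizer_singleton_iff.2 (mem_centralizer_iff.1 hu.2 s hs))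
      (fun c hc => mem_centralizer_singleton_iff.2 (mem_centralizer_iff.1 hc u hu.1).symm)
    exact mem_center_iff.2 fun g => mem_centralizer_singleton_iff.1 (hle (htop ▸ mem_top g))
  have h1 := CfsgLib.NormalPComplement.card_sup_mul_card_inf (A := C) (B := (P : Subgroup G))
    (centralizer_le_normalizer _)
  rw [sup_comm, htop, card_top, inf_comm, hinf, ← (P : Subgroup G).card_mul_index] at h1
  rw [hAC, ← Nat.card_coe_set_eq]
  exact Nat.eq_of_mul_eq_mul_left (Nat.card_pos (α := (P : Subgroup G))) (by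
    rw [mul_comm (Nat.card (P : Subgroup G))]
    exact h1.symm.trans (by ring))

theorem sum_classes (G : Type*) [Group G] [Finite G] {N : ℕ} (hN : Nat.card G ≤ N) :
    Nat.card G = ∑ k ∈ Finset.range (N + 1),
      Nat.card {C : ConjClasses G // Nat.card C.carrier = k} * k := by
  classical
  haveI := Fintype.ofFinite G
  calc Nat.card G = ∑ C : ConjClasses G, Nat.card C.carrier := by
        rw [← Group.sum_card_conj_classes_eq_card G]
        simp [finsum_eq_sum_of_fintype]
    _ = _ := by
      rw [← Finset.sum_fiberwise_of_maps_to (t := Finset.range (N + 1))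
        (g := fun C : ConjClasses G => Nat.card C.carrier)]
      · refine Finset.sum_congr rfl fun k _ => ?_
        rw [Finset.sum_congr rfl (g := fun _ => k) fun C hC => (Finset.mem_filter.1 hC).2,
          Finset.sum_const, smul_eq_mul, Nat.card_eq_fintype_card, Fintype.card_subtype]
      · intro C _
        exact Finset.mem_range.2 (Nat.lt_succ_of_le
          ((Nat.card_le_card_of_injective _ Subtype.val_injective).trans hN))

theorem isNilpotent_of_classes {G H : Type*} [Group G] [Finite G] [Group H] [Finite H]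
    (hH : Group.IsNilpotent H)
    (h : ∀ k : ℕ, Nat.card {C : ConjClasses G // Nat.card C.carrier = k} =
      Nat.card {C : ConjClasses H // Nat.card C.carrier = k}) :
    Group.IsNilpotent G := by
  have hcard : Nat.card G = Nat.card H := by
    refine (sum_classes G (le_max_left (Nat.card G) (Nat.card H))).trans (Eq.trans ?_
      (sum_classes H (le_max_right (Nat.card G) (Nat.card H))).symm)
    simp only [h]
  refine (Group.isNilpotent_of_finite_tfae.out 0 3).2 fun {p} hp P => ?_
  haveI := hp
  refine normal_of_ncard_eq P ?_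
  obtain ⟨Q⟩ := (inferInstance : Nonempty (Sylow p H))
  have h1 : (primeToSet p G).ncard = (primeToSet p H).ncard := by
    rw [ncard_primeToSet p G le_rfl, ncard_primeToSet p H hcard.ge]
    simp only [h]
  have h2 : (P : Subgroup G).index = (Q : Subgroup H).index := by
    refine Nat.eq_of_mul_eq_mul_left (Nat.card_pos (α := (P : Subgroup G))) ?_
    rw [card_mul_index, hcard, P.card_eq_multiplicity, hcard, ← Q.card_eq_multiplicity, card_mul_index]
  rw [h1, ncard_primeToSet_of_nilpotent hH Q, card_cen, card_cen, h2, card_center_eq G, card_center_eq H, h]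

end CfsgLib.HallClasses.ClassMultiset
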