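import Cfsg.Agent.Lib.HallClasses.GammaHomes
import Cfsg.Agent.Lib.NormalPComplement.Replacement

/-!
Counting: no element of the value core of a maximal subgroup commutes with a prime-power element
of that maximal subgroup for a prime without values there.
-/

set_option autoImplicit false
set_option linter.style.haveILetI false
set_option linter.unusedSectionVars false

namespace CfsgLib.HallClasses.Gamma

open Subgroup

variable {X : Type*} [Group X]

/-- The union of the conjugates of a subset. -/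
def conjSet (T : Set X) : Set X := {y | ∃ g : X, ∃ t ∈ T, g * t * g⁻¹ = y}

theorem ncard_conjSet [Finite X] {T : Set X} {H : Subgroup X}
    (hinv : ∀ h ∈ H, ∀ t ∈ T, h * t * h⁻¹ ∈ T)
    (hfus : ∀ g : X, ∀ t ∈ T, g * t * g⁻¹ ∈ T → g ∈ H) :
    (conjSet T).ncard * Nat.card H = Nat.card X * T.ncard := by
  let f : (X ⧸ H) × T → conjSet T := fun a =>
    ⟨a.1.out * a.2 * a.1.out⁻¹, a.1.out, a.2, a.2.2, rfl⟩
  have hf : Function.Bijective f := by
    constructor
    · rintro ⟨a, t⟩ ⟨a', t'⟩ he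
      have he' : a.out * (t : X) * a.out⁻¹ = a'.out * t' * a'.out⁻¹ := congrArg Subtype.val he
      have h1 : (a'.out⁻¹ * a.out) * t * (a'.out⁻¹ * a.out)⁻¹ = t' := by
        calc (a'.out⁻¹ * a.out) * t * (a'.out⁻¹ * a.out)⁻¹
            = a'.out⁻¹ * (a.out * t * a.out⁻¹) * a'.out := by group
          _ = t' := by rw [he']; group
      have hH := hfus _ t t.2 (h1.symm ▸ t'.2)
      obtain rfl : a' = a := by
        rw [← QuotientGroup.out_eq' a, ← QuotientGroup.out_eq' a']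
        exact QuotientGroup.eq.2 hH
      simp only [inv_mul_cancel, one_mul, inv_one, mul_one] at h1
      rw [Subtype.ext h1]
    · rintro ⟨y, g, t, ht, rfl⟩
      obtain ⟨h, hh⟩ := QuotientGroup.mk_out_eq_mul H g
      refine ⟨⟨QuotientGroup.mk g, ⟨(h : X)⁻¹ * t * h, by
        simpa using hinv _ (inv_mem h.2) t ht⟩⟩, Subtype.ext ?_⟩
      show (QuotientGroup.mk g : X ⧸ H).out * ((h : X)⁻¹ * t * h) * _⁻¹ = g * t * g⁻¹
      rw [hh]
      group
  rw [← Nat.card_coe_set_eq, ← Nat.card_congr (Equiv.ofBijective f hf), Nat.card_prod,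
    Nat.card_coe_set_eq, ← Subgroup.index_eq_card, ← H.card_mul_index]
  ring

namespace ValueSystem

variable [Finite X] {k : ℕ} {V : ℕ → Set X} (hV : ValueSystem k V)
variable [IsSimpleGroup X] (hnc : ¬ IsMulCommutative X)

include hV hnc in
/-- A nilpotent supplement of the core inside the home of one of its elements. -/
theorem le_core_sup_inf {M M2 : Subgroup X} (hM : IsCoatom M) {r : ℕ} {b : X} (hb : PP r b)
    (hbM : b ∈ M) (hs : ¬ Sigma' V M r) (h2 : Home b M2) : M ≤ core V M ⊔ (M ⊓ M2) := by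
  haveI := Fact.mk hb.1
  haveI hKn := core_normal hV (M := M)
  set Km := (core V M).subgroupOf M with hKm
  have hKcard : Nat.card Km = Nat.card (core V M) :=
    Nat.card_congr (subgroupOfEquivOfLe (core_le hV)).toEquiv
  obtain ⟨E, hE⟩ := exists_right_complement'_of_coprime (N := Km) (by
    rw [hKcard]; exact core_coprime_index hV hnc hM)
  obtain ⟨R⟩ := (inferInstance : Nonempty (Sylow r E))
  -- `b` has a conjugate in the complement
  have hrK : ¬ r ∣ Nat.card Km := by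
    rw [hKcard]
    exact fun hd => hs (sigma_of_dvd hV hM.1 hd)
  have hidx : ¬ r ∣ ((R : Subgroup E).map E.subtype).index := by
    rw [index_map_subtype, hE.index_eq_card]
    exact hb.1.not_dvd_mul R.not_dvd_index hrK
  let RM : Sylow r M := (R.2.map E.subtype).toSylow hidx
  obtain ⟨j, hj⟩ := hb.2.2
  obtain ⟨T, hT⟩ := (IsPGroup.of_card (G := zpowers (⟨b, hbM⟩ : M)) (p := r) (n := j)
    (by rw [Nat.card_zpowers, Subgroup.orderOf_mk, hj])).exists_le_sylow
  obtain ⟨m, hm⟩ := MulAction.exists_smul_eq M T RM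
  have hb' : m * ⟨b, hbM⟩ * m⁻¹ ∈ E := by
    have h1 : m * ⟨b, hbM⟩ * m⁻¹ ∈ (RM : Subgroup M) := by
      rw [← hm, Sylow.coe_subgroup_smul]
      exact ⟨⟨b, hbM⟩, hT (mem_zpowers _), rfl⟩
    exact map_subtype_le _ h1
  set b' : X := (m : X) * b * (m : X)⁻¹ with hb'def
  have hEn : Group.IsNilpotent E := by
    haveI := quotient_core_nilpotent hV hM.1
    exact Group.nilpotent_of_mulEquiv (hE.symm.QuotientMulEquiv)
  set Ex := E.map M.subtype
  have hExn : Group.IsNilpotent Ex :=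
    Group.nilpotent_of_mulEquiv (E.equivMapOfInjective M.subtype M.subtype_injective)
  have hb'E : b' ∈ Ex := ⟨_, hb', rfl⟩
  obtain ⟨M2', h2'⟩ : ∃ M2', Home b' M2' := ⟨_, h2.conj (m : X)⟩
  have hle := nilpotent_le_home hV hnc hExn (hb.conj (m : X)) hb'E h2'
  have hM2 : M2' = M2.map (MulAut.conj (m : X)).toMonoidHom :=
    home_unique hV hnc (hb.conj (m : X)) h2' (h2.conj (m : X))
  intro y hy
  -- conjugate back
  have hy' : (m : X) * y * (m : X)⁻¹ ∈ core V M ⊔ Ex := by
    have h1 : (⟨_, mul_mem (mul_mem m.2 hy) (inv_mem m.2)⟩ : M) ∈ Km ⊔ E :=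
      hE.sup_eq_top.ge (mem_top _)
    have h2 := mem_map_of_mem M.subtype h1
    rw [Subgroup.map_sup, hKm, map_subgroupOf_eq_of_le (core_le hV)] at h2
    exact h2
  have hsup : core V M ⊔ Ex ≤ (core V M ⊔ (M ⊓ M2)).map (MulAut.conj (m : X)).toMonoidHom := by
    rw [Subgroup.map_sup]
    refine sup_le_sup (fun c hc => ⟨(m : X)⁻¹ * c * m, ?_, by simp [mul_assoc]⟩) fun e he => ?_
    · simpa using core_conj_mem hV (inv_mem m.2) hc
    · obtain ⟨e2, he2, he3⟩ := (hM2 ▸ hle he : e ∈ M2.map (MulAut.conj (m : X)).toMonoidHom)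
      refine ⟨e2, ⟨?_, he2⟩, he3⟩
      have h3 : (m : X) * e2 * (m : X)⁻¹ ∈ M := by
        rw [show (m : X) * e2 * (m : X)⁻¹ = e from he3]
        exact map_subtype_le _ he
      have := mul_mem (mul_mem (inv_mem m.2) h3) m.2
      simpa [mul_assoc] using this
  obtain ⟨z, hz, hze⟩ := hsup hy'
  rwa [← (MulAut.conj (m : X)).injective (hze : MulAut.conj (m : X) z = MulAut.conj (m : X) y)]

include hV hnc in
/-- No mixed pairs. -/
theorem no_mixed {M : Subgroup X} (hM : IsCoatom M) {p r : ℕ} {a b : X} (ha : PP p a)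
    (haK : a ∈ core V M) (hb : PP r b) (hbM : b ∈ M) (hs : ¬ Sigma' V M r)
    (hc : Commute a b) : False := by
  classical
  haveI := Fintype.ofFinite X
  obtain ⟨M2, h2⟩ := exists_home hnc hb.2.1
  have hM2ne : M ≠ M2 := fun e => hs (e ▸ (home_sigma hV hnc hb h2).1)
  set I := M ⊓ M2 with hI
  have haI : a ∈ I := ⟨core_le hV haK, h2.2 (mem_centralizer_singleton_iff.2 hc.eq)⟩
  have hbI : b ∈ I := ⟨hbM, h2.mem⟩
  have hIn : Group.IsNilpotent I := nilpotent_inf hV hnc hM h2.1 hM2ne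
  have haM : Home a M := (home_of_mem_core hV hnc hM ha haK).1
  let L : Finset (Subgroup X) :=
    (Finset.univ : Finset (Subgroup X)).filter fun N => ∃ (q : ℕ) (c : X), c ∈ I ∧ PP q c ∧ Home c N
  have hmemL : ∀ N, N ∈ L ↔ ∃ (q : ℕ) (c : X), c ∈ I ∧ PP q c ∧ Home c N := fun N => by simp [L]
  have hIle : ∀ N ∈ L, I ≤ N := fun N hN => by
    obtain ⟨q, c, hcI, hc', hcN⟩ := (hmemL N).1 hN
    exact nilpotent_le_home hV hnc hIn hc' hcI hcN
  have hcoatom : ∀ N ∈ L, IsCoatom N := fun N hN => by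
    obtain ⟨q, c, hcI, hc', hcN⟩ := (hmemL N).1 hN
    exact hcN.1
  have hinf : ∀ N ∈ L, ∀ N' ∈ L, N ≠ N' → N ⊓ N' = I := by
    intro N hN N' hN' hne
    refine le_antisymm ?_ (le_inf (hIle N hN) (hIle N' hN'))
    have hJ := nilpotent_inf hV hnc (hcoatom N hN) (hcoatom N' hN') hne
    exact le_inf
      (nilpotent_le_home hV hnc hJ ha ⟨hIle N hN haI, hIle N' hN' haI⟩ haM)
      (nilpotent_le_home hV hnc hJ hb ⟨hIle N hN hbI, hIle N' hN' hbI⟩ h2)
  have hML : M ∈ L := (hmemL M).2 ⟨p, a, haI, ha, haM⟩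
  have hM2L : M2 ∈ L := (hmemL M2).2 ⟨r, b, hbI, hb, h2⟩
  have hother : ∀ N ∈ L, ∃ N' ∈ L, N' ≠ N := fun N hN => by
    by_cases hNM : N = M
    · exact ⟨M2, hM2L, hNM ▸ hM2ne.symm⟩
    · exact ⟨M, hML, Ne.symm hNM⟩
  -- the card of each member
  have hcardN : ∀ N ∈ L, Nat.card N * Nat.card ↥(I ⊓ core V N) =
      Nat.card (core V N) * Nat.card I ∧ 2 * Nat.card ↥(I ⊓ core V N) ≤ Nat.card (core V N) := by
    intro N hN
    obtain ⟨N', hN', hne⟩ := hother N hN
    obtain ⟨q, c, hcI, hc', hcN'⟩ := (hmemL N').1 hN'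
    have hsq : ¬ Sigma' V N q := fun h => hne (home_unique hV hnc hc' hcN'
      (home_of_mem_core hV hnc (hcoatom N hN) hc'
        (mem_core_of_sigma hV hnc (hcoatom N hN) hc' (hIle N hN hcI) h)).1)
    have hle := le_core_sup_inf hV hnc (hcoatom N hN) hc' (hIle N hN hcI) hsq hcN'
    rw [hinf N hN N' hN' hne.symm] at hle
    have heq : I ⊔ core V N = N :=
      le_antisymm (sup_le (hIle N hN) (core_le hV)) (sup_comm (core V N) I ▸ hle)
    have hnorm : I ≤ normalizer (core V N : Set X) := fun i hi =>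
      CfsgLib.CoprimeAction.mem_normalizer_of_conj_mem fun t ht =>
        core_conj_mem hV (hIle N hN hi) ht
    have h1 := CfsgLib.NormalPComplement.card_sup_mul_card_inf hnorm
    rw [heq] at h1
    refine ⟨by rw [h1, mul_comm], ?_⟩
    have hlt : I ⊓ core V N ≠ core V N := fun e => by
      obtain ⟨q', c', hc'I, hc'', hc'N⟩ := (hmemL N).1 hN
      obtain ⟨v, hv, hv1, hvN⟩ := (home_sigma hV hnc hc'' hc'N).1
      have hvI : v ∈ I := (e.ge (subset_closure ⟨hvN, q', hc''.1, hv⟩)).1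
      haveI := Fact.mk hc''.1
      exact hne (eq_of_value_mem hV hnc (hcoatom N' hN') (hcoatom N hN) hv hv1 (hIle N' hN' hvI) hvN)
    obtain ⟨d, hd⟩ := card_dvd_of_le (inf_le_right : I ⊓ core V N ≤ core V N)
    rcases Nat.lt_or_ge d 2 with hd2 | hd2
    · exfalso
      refine hlt (eq_of_le_of_card_ge inf_le_right ?_)
      rw [hd]
      calc Nat.card ↥(I ⊓ core V N) * d ≤ Nat.card ↥(I ⊓ core V N) * 1 :=
            Nat.mul_le_mul_left _ (by omega)
        _ = _ := mul_one _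
    · rw [hd, mul_comm]
      exact Nat.mul_le_mul_left _ hd2
  -- the pieces
  let P : Subgroup X → Set X := fun N => conjSet ((core V N : Set X) \ {1})
  let Ih : Set X := {y | y ∈ I ∧ y ≠ 1 ∧ ∀ N ∈ L, y ∉ core V N}
  have hcoreHome : ∀ N ∈ L, ∀ y ∈ core V N, ∀ (q : ℕ) (c : X), PP q c → c ∈ zpowers y → Home c N :=
    fun N hN y hy q c hc' hcz => (home_of_mem_core hV hnc (hcoatom N hN) hc' ((zpowers_le.2 hy) hcz)).1
  have hzconj : ∀ (g y c : X), c ∈ zpowers y → g * c * g⁻¹ ∈ zpowers (g * y * g⁻¹) := by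
    intro g y c hcz
    obtain ⟨i, rfl⟩ := mem_zpowers_iff.1 hcz
    exact mem_zpowers_iff.2 ⟨i, conj_zpow⟩
  -- an element of `Ih` has two parts with different homes
  have htwo : ∀ y ∈ Ih, ∃ (q q' : ℕ) (c c' : X) (N1 N2 : Subgroup X), PP q c ∧ PP q' c' ∧
      c ∈ zpowers y ∧ c' ∈ zpowers y ∧ N1 ∈ L ∧ N2 ∈ L ∧ Home c N1 ∧ Home c' N2 ∧ N1 ≠ N2 := by
    rintro y ⟨hyI, hy1, hyN⟩
    obtain ⟨q, c, hc', hcz, -, -⟩ := exists_PP (U := (⊥ : Subgroup X)) (x := y) (by simpa using hy1)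
    obtain ⟨N1, hN1⟩ := exists_home hnc hc'.2.1
    have hN1L : N1 ∈ L := (hmemL N1).2 ⟨q, c, (zpowers_le.2 hyI) hcz, hc', hN1⟩
    obtain ⟨q', c', hc'', hcz', hcn, -⟩ := exists_PP (hyN N1 hN1L)
    obtain ⟨N2, hN2⟩ := exists_home hnc hc''.2.1
    refine ⟨q, q', c, c', N1, N2, hc', hc'', hcz, hcz', hN1L,
      (hmemL N2).2 ⟨q', c', (zpowers_le.2 hyI) hcz', hc'', hN2⟩, hN1, hN2, fun e => hcn ?_⟩
    rw [e]
    exact (home_sigma hV hnc hc'' hN2).2
  have hIh : (conjSet Ih).ncard * Nat.card I = Nat.card X * Ih.ncard := by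
    refine ncard_conjSet (fun g hg y hy => ⟨mul_mem (mul_mem hg hy.1) (inv_mem hg),
      fun e => hy.2.1 (conj_eq_one_iff.1 e), fun N hN hgy => hy.2.2 N hN ?_⟩) fun g y hy hgy => ?_
    · simpa [mul_assoc] using core_conj_mem hV (inv_mem (hIle N hN hg)) hgy
    obtain ⟨q, q', c, c', N1, N2, hc', hc'', hcz, hcz', hN1L, hN2L, hN1, hN2, hne⟩ := htwo y hy
    have hmove : ∀ (q : ℕ) (c : X) (N : Subgroup X), PP q c → c ∈ zpowers y → Home c N → g ∈ N := by
      intro q c N hc' hcz hN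
      have h1 : c ∈ I := (zpowers_le.2 hy.1) hcz
      have h2 : g * c * g⁻¹ ∈ I := (zpowers_le.2 hgy.1) (hzconj g y c hcz)
      exact mem_of_map_conj_eq hnc hN.1 (home_unique hV hnc (hc'.conj g) (hN.conj g)
        (home_of_nilpotent hV hnc hIn hc' (hc'.conj g) h1 h2 hN))
    rw [← hinf N1 hN1L N2 hN2L hne]
    exact ⟨hmove q c N1 hc' hcz hN1, hmove q' c' N2 hc'' hcz' hN2⟩
  have hP : ∀ N ∈ L, (P N).ncard * Nat.card N =
      Nat.card X * ((core V N : Set X) \ {1}).ncard := by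
    intro N hN
    refine ncard_conjSet (fun g hg y hy => ⟨core_conj_mem hV hg hy.1, fun e =>
      hy.2 (conj_eq_one_iff.1 e)⟩) fun g y hy hgy => ?_
    obtain ⟨q, c, hc', hcz, -, -⟩ := exists_PP (U := (⊥ : Subgroup X)) (x := y)
      (fun e => hy.2 (mem_bot.1 e))
    exact mem_of_map_conj_eq hnc (hcoatom N hN) (home_unique hV hnc (hc'.conj g)
      ((hcoreHome N hN y hy.1 q c hc' hcz).conj g)
      (hcoreHome N hN _ hgy.1 q _ (hc'.conj g) (hzconj g y c hcz)))
  -- disjointness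
  have hdisQ : ∀ N ∈ L, Disjoint (conjSet Ih) (P N) := by
    intro N hN
    rw [Set.disjoint_left]
    rintro _ ⟨g, y, hy, rfl⟩ ⟨g', t, ht, he⟩
    obtain ⟨q, q', c, c', N1, N2, hc', hc'', hcz, hcz', hN1L, hN2L, hN1, hN2, hne⟩ := htwo y hy
    have hall : ∀ (q : ℕ) (c : X) (N1 : Subgroup X), PP q c → c ∈ zpowers y → Home c N1 →
        N1.map (MulAut.conj (g'⁻¹ * g)).toMonoidHom = N := by
      intro q c N1 hc' hcz hN1
      have hty : (g'⁻¹ * g) * y * (g'⁻¹ * g)⁻¹ = t := by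
        calc (g'⁻¹ * g) * y * (g'⁻¹ * g)⁻¹ = g'⁻¹ * (g * y * g⁻¹) * g' := by group
          _ = t := by rw [← he]; group
      exact home_unique hV hnc (hc'.conj _) (hN1.conj _)
        (hcoreHome N hN t ht.1 q _ (hc'.conj _) (hty ▸ hzconj _ y c hcz))
    exact hne (map_injective (MulAut.conj (g'⁻¹ * g)).injective
      ((hall q c N1 hc' hcz hN1).trans (hall q' c' N2 hc'' hcz' hN2).symm))
  have hdisP : ∀ N ∈ L, ∀ N' ∈ L, N ≠ N' → Disjoint (P N) (P N') := by
    intro N hN N' hN' hne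
    rw [Set.disjoint_left]
    rintro _ ⟨g, y, hy, rfl⟩ ⟨g', t, ht, he⟩
    have hty : (g'⁻¹ * g) * y * (g'⁻¹ * g)⁻¹ = t := by
      calc (g'⁻¹ * g) * y * (g'⁻¹ * g)⁻¹ = g'⁻¹ * (g * y * g⁻¹) * g' := by group
        _ = t := by rw [← he]; group
    obtain ⟨q, c, hc', hcz, -, -⟩ := exists_PP (U := (⊥ : Subgroup X)) (x := y)
      (fun e => hy.2 (mem_bot.1 e))
    have hconj : N.map (MulAut.conj (g'⁻¹ * g)).toMonoidHom = N' := home_unique hV hnc (hc'.conj _)
      ((hcoreHome N hN y hy.1 q c hc' hcz).conj _)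
      (hcoreHome N' hN' t ht.1 q _ (hc'.conj _) (hty ▸ hzconj _ y c hcz))
    obtain ⟨s, d, hdI, hd, hdN'⟩ := (hmemL N').1 hN'
    obtain ⟨v, hv, hv1, hvN'⟩ := (home_sigma hV hnc hd hdN').1
    obtain ⟨u, hu, hue⟩ := (hconj ▸ hvN' : v ∈ N.map (MulAut.conj (g'⁻¹ * g)).toMonoidHom)
    have huV : u ∈ V s := by
      have h1 := hV.conj_mem s v hv (g'⁻¹ * g)⁻¹
      rw [← hue] at h1
      simpa [mul_assoc] using h1
    have hs' : Sigma' V N s :=
      ⟨u, huV, fun e => hv1 (by rw [← hue, e]; simp), hu⟩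
    exact hne (home_unique hV hnc hd (home_of_mem_core hV hnc (hcoatom N hN) hd
      (mem_core_of_sigma hV hnc (hcoatom N hN) hd (hIle N hN hdI) hs')).1 hdN')
  -- the union
  have hone : ∀ T : Set X, (∀ t ∈ T, t ≠ 1) → (1 : X) ∉ conjSet T := fun T hT ⟨g, t, ht, he⟩ =>
    hT t ht (conj_eq_one_iff.1 he)
  have hunion : 1 + (conjSet Ih).ncard + ∑ N ∈ L, (P N).ncard ≤ Nat.card X := by
    have hpw : Set.PairwiseDisjoint (↑L : Set (Subgroup X)) fun N => (P N).toFinset :=
      fun N hN N' hN' hne => Set.disjoint_toFinset.2 (hdisP N hN N' hN' hne)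
    have h1 : (insert (1 : X) ((conjSet Ih).toFinset ∪ L.biUnion fun N => (P N).toFinset)).card =
        1 + (conjSet Ih).ncard + ∑ N ∈ L, (P N).ncard := by
      rw [Finset.card_insert_of_notMem, Finset.card_union_of_disjoint, Finset.card_biUnion hpw]
      · simp only [Set.ncard_eq_toFinset_card']
        omega
      · rw [Finset.disjoint_biUnion_right]
        exact fun N hN => Set.disjoint_toFinset.2 (hdisQ N hN)
      · simp only [Finset.mem_union, Set.mem_toFinset, Finset.mem_biUnion, not_or, not_exists, not_and]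
        exact ⟨hone _ fun t ht => ht.2.1, fun N _ => hone _ fun t ht => ht.2⟩
    rw [← h1, Nat.card_eq_fintype_card]
    exact Finset.card_le_univ _
  have hIcount : Nat.card I + L.card ≤
      1 + Ih.ncard + ∑ N ∈ L, Nat.card ↥(I ⊓ core V N) := by
    have hsub : (I : Set X).toFinset ⊆ insert (1 : X)
        (Ih.toFinset ∪ L.biUnion fun N => ((I ⊓ core V N : Subgroup X) : Set X).toFinset.erase 1) := by
      intro y hy
      simp only [Set.mem_toFinset, SetLike.mem_coe] at hy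
      by_cases hy1 : y = 1
      · simp [hy1]
      by_cases hyN : ∀ N ∈ L, y ∉ core V N
      · exact Finset.mem_insert_of_mem
          (Finset.mem_union_left _ (Set.mem_toFinset.2 ⟨hy, hy1, hyN⟩))
      · push Not at hyN
        obtain ⟨N, hN, hyc⟩ := hyN
        exact Finset.mem_insert_of_mem (Finset.mem_union_right _ (Finset.mem_biUnion.2
          ⟨N, hN, Finset.mem_erase.2 ⟨hy1, Set.mem_toFinset.2 ⟨hy, hyc⟩⟩⟩))
    have h1 := (Finset.card_le_card hsub).trans ((Finset.card_insert_le _ _).trans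
      (Nat.add_le_add_right ((Finset.card_union_le _ _).trans
        (Nat.add_le_add_left Finset.card_biUnion_le _)) 1))
    have h2 : ∀ N ∈ L, (((I ⊓ core V N : Subgroup X) : Set X).toFinset.erase 1).card + 1 =
        Nat.card ↥(I ⊓ core V N) := fun N _ => by
      rw [Finset.card_erase_add_one (Set.mem_toFinset.2 (one_mem (I ⊓ core V N)))]
      exact (Set.ncard_eq_toFinset_card' _).symm.trans (Nat.card_coe_set_eq _).symm
    have h3 := Finset.sum_congr (rfl : L = L) h2
    rw [Finset.sum_add_distrib, Finset.sum_const, smul_eq_mul, mul_one] at h3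
    have h4 : (I : Set X).toFinset.card = Nat.card I :=
      (Set.ncard_eq_toFinset_card' _).symm.trans (Nat.card_coe_set_eq _).symm
    rw [h4, ← Set.ncard_eq_toFinset_card'] at h1
    omega
  -- the inequality for each `N`
  have hPlow : ∀ N ∈ L, 2 * (Nat.card X * Nat.card ↥(I ⊓ core V N)) ≤
      2 * ((P N).ncard * Nat.card I) + Nat.card X := by
    intro N hN
    obtain ⟨e1, e2⟩ := hcardN N hN
    have e3 := hP N hN
    have h4 : ((core V N : Set X) \ {1}).ncard + 1 = Nat.card (core V N) := by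
      rw [Set.ncard_sdiff_singleton_add_one (one_mem (core V N)) (Set.toFinite _)]
      exact (Nat.card_coe_set_eq _).symm
    have h5 : (P N).ncard * Nat.card I * Nat.card (core V N) + Nat.card X * Nat.card ↥(I ⊓ core V N)
        = Nat.card X * Nat.card ↥(I ⊓ core V N) * Nat.card (core V N) := by
      calc (P N).ncard * Nat.card I * Nat.card (core V N) + Nat.card X * Nat.card ↥(I ⊓ core V N)
          = (P N).ncard * Nat.card N * Nat.card ↥(I ⊓ core V N) +
              Nat.card X * Nat.card ↥(I ⊓ core V N) := by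
            rw [mul_assoc ((P N).ncard) (Nat.card I), mul_comm (Nat.card I), ← e1, mul_assoc]
        _ = _ := by rw [e3, ← h4]; ring
    refine Nat.le_of_mul_le_mul_right ?_ (Nat.card_pos (α := core V N))
    calc 2 * (Nat.card X * Nat.card ↥(I ⊓ core V N)) * Nat.card (core V N)
        = 2 * ((P N).ncard * Nat.card I * Nat.card (core V N)) +
            Nat.card X * (2 * Nat.card ↥(I ⊓ core V N)) := by
          rw [mul_assoc 2, ← h5]; ring
      _ ≤ 2 * ((P N).ncard * Nat.card I * Nat.card (core V N)) +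
            Nat.card X * Nat.card (core V N) := by gcongr
      _ = _ := by ring
  have hL2 : 2 ≤ L.card := Finset.one_lt_card.2 ⟨M, hML, M2, hM2L, hM2ne⟩
  have hsum := Finset.sum_le_sum hPlow
  rw [← Finset.mul_sum, ← Finset.mul_sum, Finset.sum_add_distrib, Finset.sum_const, smul_eq_mul,
    ← Finset.mul_sum, ← Finset.sum_mul] at hsum
  have hIpos : 0 < Nat.card I := Nat.card_pos
  nlinarith [Nat.mul_le_mul_left (2 * Nat.card X) hIcount,
    Nat.mul_le_mul_right (2 * Nat.card I) hunion, hIh, hsum, Nat.mul_le_mul_left (Nat.card X) hL2,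
    (Nat.card_pos : 0 < Nat.card X)]

end ValueSystem

end CfsgLib.HallClasses.Gamma
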