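import Cfsg.Agent.Lib.HallClasses.GammaSystem
import Cfsg.Agent.Lib.Transfer.Fusion
import Cfsg.Agent.Lib.Cores.Fitting

/-!
The maximal subgroup attached to a prime-power element, and the nilpotent Hall subgroup of each
maximal subgroup generated by its values.
-/

set_option autoImplicit false
set_option linter.style.haveILetI false
set_option linter.unusedSectionVars false

namespace CfsgLib.HallClasses.Gamma

open Subgroup
open scoped commutatorElement

variable {X : Type*} [Group X]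

/-- `M` is a maximal subgroup over the centraliser of `x`. -/
def Home (x : X) (M : Subgroup X) : Prop := IsCoatom M ∧ centralizer ({x} : Set X) ≤ M

/-- A nontrivial element of `p`-power order. -/
def PP (p : ℕ) (x : X) : Prop := p.Prime ∧ x ≠ 1 ∧ ∃ j, orderOf x = p ^ j

/-- The values of all primes in `M`. -/
def valuesIn (V : ℕ → Set X) (M : Subgroup X) : Set X :=
  {v | v ∈ M ∧ ∃ p : ℕ, p.Prime ∧ v ∈ V p}

/-- The subgroup generated by the values in `M`. -/
def core (V : ℕ → Set X) (M : Subgroup X) : Subgroup X := closure (valuesIn V M)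

/-- `M` contains a nontrivial `p`-value. -/
def Sigma' (V : ℕ → Set X) (M : Subgroup X) (p : ℕ) : Prop := ∃ v ∈ V p, v ≠ 1 ∧ v ∈ M

theorem Home.mem {x : X} {M : Subgroup X} (h : Home x M) : x ∈ M :=
  h.2 (mem_centralizer_singleton_iff.2 rfl)

theorem PP.conj {p : ℕ} {x : X} (h : PP p x) (g : X) : PP p (g * x * g⁻¹) :=
  ⟨h.1, fun e => h.2.1 (conj_eq_one_iff.1 e), by
    rw [← MulAut.conj_apply, MulEquiv.orderOf_eq]; exact h.2.2⟩

theorem Home.conj {x : X} {M : Subgroup X} (h : Home x M) (g : X) :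
    Home (g * x * g⁻¹) (M.map (MulAut.conj g).toMonoidHom) := by
  refine ⟨(MulEquiv.mapSubgroup (MulAut.conj g)).isCoatom_iff _ |>.2 h.1, fun c hc => ?_⟩
  refine ⟨g⁻¹ * c * g, h.2 (mem_centralizer_singleton_iff.2 ?_), by simp [mul_assoc]⟩
  have h1 := mem_centralizer_singleton_iff.1 hc
  calc g⁻¹ * c * g * x = g⁻¹ * (c * (g * x * g⁻¹)) * g := by group
    _ = g⁻¹ * ((g * x * g⁻¹) * c) * g := by rw [h1]
    _ = x * (g⁻¹ * c * g) := by group

/-- A nontrivial primary part. -/
theorem exists_PP [Finite X] {U : Subgroup X} {x : X} (hx : x ∉ U) :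
    ∃ (r : ℕ) (z : X), PP r z ∧ z ∈ zpowers x ∧ z ∉ U ∧ r ∣ orderOf x := by
  obtain ⟨r, j, z, hr, hz, hzo, hzn, hrd⟩ :=
    CfsgLib.HallClasses.MaxCent.exists_primePart_notMem hx
  exact ⟨r, z, ⟨hr, fun e => hzn (e ▸ one_mem U), j, hzo⟩, hz, hzn, hrd⟩

theorem zpowers_isPGroup {p : ℕ} {x : X} (h : PP p x) : IsPGroup p (zpowers x) := by
  obtain ⟨j, hj⟩ := h.2.2
  exact IsPGroup.of_card (n := j) (by rw [Nat.card_zpowers, hj])

/-- In a nilpotent subgroup, elements of coprime prime-power orders commute and those for one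
prime lie in a common Sylow subgroup. -/
theorem nilpotent_facts [Finite X] {H : Subgroup X} (hH : Group.IsNilpotent H) {p : ℕ}
    [hp : Fact p.Prime] : ∃ S : Sylow p X, ∀ a ∈ H, PP p a → a ∈ (S : Subgroup X) ∧
      ∀ (r : ℕ) (b : X), b ∈ H → PP r b → r ≠ p → Commute a b := by
  obtain ⟨T⟩ := (inferInstance : Nonempty (Sylow p H))
  haveI := hH
  have hTn : (T : Subgroup H).Normal :=
    Sylow.normal_of_normalizerCondition Group.normalizerCondition_of_isNilpotent T
  obtain ⟨S, hS⟩ := (T.2.map H.subtype).exists_le_sylow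
  refine ⟨S, fun a ha hap => ?_⟩
  have haT : (⟨a, ha⟩ : H) ∈ (T : Subgroup H) := by
    haveI := hTn
    obtain ⟨j, hj⟩ := hap.2.2
    have hz : IsPGroup p (zpowers (⟨a, ha⟩ : H)) := IsPGroup.of_card (n := j)
      (by rw [Nat.card_zpowers, Subgroup.orderOf_mk, hj])
    exact (sup_eq_right.1 (T.is_maximal' (hz.to_sup_of_normal_right T.2) le_sup_right))
      (mem_zpowers _)
  refine ⟨hS ⟨⟨a, ha⟩, haT, rfl⟩, fun r b hb hbr hne => ?_⟩
  haveI := Fact.mk hbr.1
  obtain ⟨j, hj⟩ := hbr.2.2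
  obtain ⟨R, hR⟩ := (IsPGroup.of_card (G := zpowers (⟨b, hb⟩ : H)) (p := r) (n := j)
    (by rw [Nat.card_zpowers, Subgroup.orderOf_mk, hj])).exists_le_sylow
  exact congrArg Subtype.val (Subgroup.commute_of_normal_of_disjoint _ _ hTn
    (Sylow.normal_of_normalizerCondition Group.normalizerCondition_of_isNilpotent R)
    (IsPGroup.disjoint_of_ne p r hne.symm _ _ T.2 R.2) _ _ haT (hR (mem_zpowers _))).eq

namespace ValueSystem

variable [Finite X] {k : ℕ} {V : ℕ → Set X} (hV : ValueSystem k V)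
variable [IsSimpleGroup X] (hnc : ¬ IsMulCommutative X)

include hnc in
theorem coatom_ne_bot {M : Subgroup X} (hM : IsCoatom M) : M ≠ ⊥ := by
  rintro rfl
  obtain ⟨x, hx⟩ := exists_ne (1 : X)
  have h1 : zpowers x = ⊤ := hM.2 _ (bot_lt_iff_ne_bot.2 fun e => hx (zpowers_eq_bot.1 e))
  refine hnc ⟨⟨fun a b => ?_⟩⟩
  obtain ⟨i, rfl⟩ := mem_zpowers_iff.1 (h1.ge (mem_top a))
  obtain ⟨j, rfl⟩ := mem_zpowers_iff.1 (h1.ge (mem_top b))
  exact zpow_mul_comm x i j

include hnc in
theorem mem_of_map_conj_eq {M : Subgroup X} (hM : IsCoatom M) {g : X}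
    (h : M.map (MulAut.conj g).toMonoidHom = M) : g ∈ M := by
  have h1 : normalizer (M : Set X) = M := (hM.le_iff.1 le_normalizer).resolve_left
    (normalizer_ne_top hnc (coatom_ne_bot hnc hM) hM.1)
  exact h1.le (mem_normalizer_of_map_eq h)

include hnc in
theorem exists_home {x : X} (hx : x ≠ 1) : ∃ M, Home x M := by
  rcases eq_top_or_exists_le_coatom (centralizer ({x} : Set X)) with h | ⟨M, hM, hle⟩
  · exfalso
    have hc : x ∈ center X := mem_center_iff.2 fun g =>
      mem_centralizer_singleton_iff.1 (h.ge (mem_top g))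
    rcases (inferInstance : (center X).Normal).eq_bot_or_eq_top with hz | hz
    · exact hx (mem_bot.1 (hz ▸ hc))
    · exact hnc ⟨⟨fun a b => mem_center_iff.1 (hz.ge (mem_top b)) a⟩⟩
  · exact ⟨M, hM, hle⟩

include hV hnc in
theorem home_unique {p : ℕ} {x : X} (hx : PP p x) {M M' : Subgroup X} (h : Home x M)
    (h' : Home x M') : M = M' := by
  haveI := Fact.mk hx.1
  obtain ⟨S, hS⟩ := (zpowers_isPGroup hx).exists_le_sylow
  have hd : p ∣ Nat.card X := by
    obtain ⟨j, hj⟩ := hx.2.2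
    refine (dvd_pow_self p fun h0 => hx.2.1 ?_).trans (hj ▸ orderOf_dvd_natCard x)
    rw [← orderOf_eq_one_iff, hj, h0, pow_zero]
  obtain ⟨z, hzS, hz, hz1, hzc⟩ := exists_central_value hV hnc hd S
  have hzC : z ∈ centralizer ({x} : Set X) :=
    mem_centralizer_singleton_iff.2 (hzc x (hS (mem_zpowers x))).eq
  exact eq_of_value_mem hV hnc h.1 h'.1 hz hz1 (h.2 hzC) (h'.2 hzC)

include hV hnc in
/-- The home of an element of a Sylow subgroup contains that subgroup and a value. -/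
theorem sylow_le_home {p : ℕ} [Fact p.Prime] {x : X} (hx : PP p x) {S : Sylow p X}
    (hxS : x ∈ (S : Subgroup X)) {M : Subgroup X} (h : Home x M) :
    (S : Subgroup X) ≤ M ∧ Sigma' V M p := by
  have hd : p ∣ Nat.card X := by
    obtain ⟨j, hj⟩ := hx.2.2
    refine (dvd_pow_self p fun h0 => hx.2.1 ?_).trans (hj ▸ orderOf_dvd_natCard x)
    rw [← orderOf_eq_one_iff, hj, h0, pow_zero]
  obtain ⟨z, hzS, hz, hz1, hzc⟩ := exists_central_value hV hnc hd S
  have hzM : z ∈ M := h.2 (mem_centralizer_singleton_iff.2 (hzc x hxS).eq)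
  obtain ⟨M', hM', hle⟩ := exists_home hnc hz1
  obtain rfl := eq_of_value_mem hV hnc h.1 hM' hz hz1 hzM
    (hle (mem_centralizer_singleton_iff.2 rfl))
  exact ⟨fun s hs => hle (mem_centralizer_singleton_iff.2 (hzc s hs).symm.eq), z, hz, hz1, hzM⟩

include hV hnc in
theorem home_of_sylow {p : ℕ} [Fact p.Prime] {x : X} (hx : PP p x) {S : Sylow p X}
    (hxS : x ∈ (S : Subgroup X)) {M : Subgroup X} (hM : IsCoatom M) (hSM : (S : Subgroup X) ≤ M) :
    Home x M := by
  obtain ⟨M', h'⟩ := exists_home hnc hx.2.1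
  obtain ⟨hSM', -⟩ := sylow_le_home hV hnc hx hxS h'
  have hd : p ∣ Nat.card X := by
    obtain ⟨j, hj⟩ := hx.2.2
    refine (dvd_pow_self p fun h0 => hx.2.1 ?_).trans (hj ▸ orderOf_dvd_natCard x)
    rw [← orderOf_eq_one_iff, hj, h0, pow_zero]
  obtain ⟨z, hzS, hz, hz1, -⟩ := exists_central_value hV hnc hd S
  rwa [eq_of_value_mem hV hnc hM h'.1 hz hz1 (hSM hzS) (hSM' hzS)]

include hV hnc in
/-- Elements of one prime in a nilpotent subgroup have the same home. -/
theorem home_of_nilpotent {H : Subgroup X} (hH : Group.IsNilpotent H) {p : ℕ} {a b : X}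
    (ha : PP p a) (hb : PP p b) (haH : a ∈ H) (hbH : b ∈ H) {M : Subgroup X} (h : Home a M) :
    Home b M := by
  haveI := Fact.mk ha.1
  obtain ⟨S, hS⟩ := nilpotent_facts hH (p := p)
  exact home_of_sylow hV hnc hb (hS b hbH hb).1 h.1
    (sylow_le_home hV hnc ha (hS a haH ha).1 h).1

include hV hnc in
/-- A nilpotent subgroup lies in the home of each of its prime-power elements. -/
theorem nilpotent_le_home {H : Subgroup X} (hH : Group.IsNilpotent H) {p : ℕ} {a : X}
    (ha : PP p a) (haH : a ∈ H) {M : Subgroup X} (h : Home a M) : H ≤ M := by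
  intro y hy
  by_contra hyM
  obtain ⟨r, z, hz, hzy, hzM, -⟩ := exists_PP hyM
  have hzH : z ∈ H := (zpowers_le.2 hy) hzy
  haveI := Fact.mk ha.1
  by_cases hrp : r = p
  · subst hrp
    exact hzM (home_of_nilpotent hV hnc hH ha hz haH hzH h).mem
  · obtain ⟨S, hS⟩ := nilpotent_facts hH (p := p)
    exact hzM (h.2 (mem_centralizer_singleton_iff.2 ((hS a haH ha).2 r z hzH hz hrp).symm.eq))

include hV in
theorem core_le {M : Subgroup X} : core V M ≤ M := (closure_le _).2 fun _ hv => hv.1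

include hV in
theorem core_conj_mem {M : Subgroup X} {m c : X} (hm : m ∈ M) (hc : c ∈ core V M) :
    m * c * m⁻¹ ∈ core V M := by
  have hle : core V M ≤ (core V M).comap (MulAut.conj m).toMonoidHom := (closure_le _).2 fun v hv =>
    subset_closure ⟨mul_mem (mul_mem hm hv.1) (inv_mem hm), hv.2.elim fun p hp =>
      ⟨p, hp.1, hV.conj_mem p v hp.2 m⟩⟩
  exact hle hc

include hV in
theorem core_normal {M : Subgroup X} : ((core V M).subgroupOf M).Normal :=
  ⟨fun _ hc m => mem_subgroupOf.2 (core_conj_mem hV m.2 (mem_subgroupOf.1 hc))⟩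

include hV in
theorem core_le_fitting {M : Subgroup X} (hM : M ≠ ⊤) :
    core V M ≤ (Cfsg.fittingSubgroup M).map M.subtype := by
  refine (closure_le _).2 ?_
  rintro v ⟨hvM, p, hp, hv⟩
  haveI := Fact.mk hp
  exact ⟨⟨v, hvM⟩, CfsgLib.Cores.pCore_le_fittingSubgroup p (mem_pCore hV hM hvM hv), rfl⟩

include hV in
theorem core_nilpotent {M : Subgroup X} (hM : M ≠ ⊤) : Group.IsNilpotent (core V M) := by
  haveI := CfsgLib.Cores.isNilpotent_fittingSubgroup (G := M)
  have h : Group.IsNilpotent ((Cfsg.fittingSubgroup M).map M.subtype) :=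
    Group.nilpotent_of_mulEquiv (Subgroup.equivMapOfInjective _ M.subtype M.subtype_injective)
  exact CfsgLib.Cores.isNilpotent_of_le h (core_le_fitting hV hM)

include hV in
theorem sigma_of_dvd {M : Subgroup X} (hM : M ≠ ⊤) {r : ℕ} [hr : Fact r.Prime]
    (hd : r ∣ Nat.card (core V M)) : Sigma' V M r := by
  by_contra hno
  haveI := core_nilpotent hV hM
  obtain ⟨e⟩ := (Group.isNilpotent_of_finite_tfae.out 0 4).1 (core_nilpotent hV hM)
  obtain ⟨R⟩ := (inferInstance : Nonempty (Sylow r (core V M)))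
  let φ : core V M →* R := ((Pi.evalMonoidHom _ R).comp
    (Pi.evalMonoidHom _ (⟨r, Nat.mem_primeFactors.2 ⟨hr.out, hd, Nat.card_pos.ne'⟩⟩ :
      (Nat.card (core V M)).primeFactors))).comp e.symm.toMonoidHom
  have hφ : Function.Surjective φ :=
    (Function.surjective_eval R).comp ((Function.surjective_eval _).comp e.symm.surjective)
  have hker : φ.ker = ⊤ := by
    refine top_le_iff.1 ?_
    refine le_of_eq_of_le (closure_closure_coe_preimage (k := valuesIn V M)).symm ((closure_le _).2 ?_)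
    rintro ⟨v, hv'⟩ hvv
    obtain ⟨hvM, p, hp, hv⟩ := (hvv : v ∈ valuesIn V M)
    by_cases hv1 : v = 1
    · subst hv1
      exact one_mem φ.ker
    obtain ⟨j, hj⟩ := hV.pElem p v hv
    obtain ⟨i, hi⟩ := IsPGroup.iff_orderOf.1 R.2 (φ ⟨v, hv'⟩)
    have h1 : orderOf (φ ⟨v, hv'⟩) ∣ p ^ j := by
      refine (orderOf_map_dvd φ _).trans ?_
      exact ((orderOf_coe (⟨v, hv'⟩ : core V M)).symm.trans hj).dvd
    have hpr : r ≠ p := by
      rintro rfl
      exact hno ⟨v, hv, hv1, hvM⟩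
    refine MonoidHom.mem_ker.2 (orderOf_eq_one_iff.1
      (Nat.eq_one_of_dvd_coprimes (Nat.Coprime.pow i j ((Nat.coprime_primes hr.out hp).2 hpr))
        hi.dvd h1))
  refine R.ne_bot_of_dvd_card hd ((Subgroup.eq_bot_iff_forall _).2 fun y hy => ?_)
  obtain ⟨c, hc⟩ := hφ ⟨y, hy⟩
  have : φ c = 1 := MonoidHom.mem_ker.1 (hker.ge (mem_top c))
  exact congrArg Subtype.val (hc.symm.trans this)

include hV in
theorem quotient_core_nilpotent {M : Subgroup X} (hM : M ≠ ⊤) [((core V M).subgroupOf M).Normal] :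
    Group.IsNilpotent (M ⧸ (core V M).subgroupOf M) := by
  refine Subgroup.nilpotent_iff_lowerCentralSeries.2 ⟨k, ?_⟩
  rw [← map_top_of_surjective _ (QuotientGroup.mk'_surjective ((core V M).subgroupOf M)),
    ← map_lowerCentralSeries, Subgroup.map_eq_bot_iff, QuotientGroup.ker_mk']
  intro c hc
  exact mem_subgroupOf.2 (hV.term_le M hM
    (top_subtype_lowerCentralSeries M k ▸ mem_map_of_mem M.subtype hc))

include hV hnc in
/-- A Sylow subgroup in `M` for a prime of a value lies in the core. -/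
theorem sylow_le_core {M : Subgroup X} (hM : IsCoatom M) {p : ℕ} [hp : Fact p.Prime]
    (_hs : Sigma' V M p) {S : Sylow p X} (hSM : (S : Subgroup X) ≤ M) :
    (S : Subgroup X) ≤ core V M := by
  have hcomm : _root_.commutator X = ⊤ := by
    rcases (inferInstance : (_root_.commutator X).Normal).eq_bot_or_eq_top with h | h
    · exfalso
      refine hnc ⟨⟨fun a b => commutatorElement_eq_one_iff_mul_comm.1 ?_⟩⟩
      exact mem_bot.1 (h ▸ commutator_mem_commutator (mem_top a) (mem_top b))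
    · exact h
  have hfoc : (S : Subgroup X) ≤ ⁅M, M⁆ := by
    have h := CfsgLib.Transfer.commutator_inf_eq_of_control S hSM (fun x hx u hu => by
      by_cases hx1 : x = 1
      · exact ⟨1, one_mem M, by simp [hx1]⟩
      refine ⟨u, ?_, rfl⟩
      obtain ⟨j, hj⟩ := IsPGroup.iff_orderOf.1 S.2 ⟨x, hx⟩
      rw [Subgroup.orderOf_mk] at hj
      have hxp : PP p x := ⟨hp.out, hx1, j, hj⟩
      have h1 := home_of_sylow hV hnc hxp hx hM hSM
      exact mem_of_map_conj_eq hnc hM (home_unique hV hnc (hxp.conj u) (h1.conj u)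
        (home_of_sylow hV hnc (hxp.conj u) hu hM hSM)))
    rw [hcomm, top_inf_eq] at h
    exact h.le.trans inf_le_left
  haveI := core_normal hV (M := M)
  set π := QuotientGroup.mk' ((core V M).subgroupOf M)
  haveI hQ := quotient_core_nilpotent hV hM.1
  have hnd : ¬ p ∣ Nat.card (M ⧸ (core V M).subgroupOf M) := by
    intro hd
    obtain ⟨e⟩ := (Group.isNilpotent_of_finite_tfae.out 0 4).1 hQ
    obtain ⟨R⟩ := (inferInstance : Nonempty (Sylow p (M ⧸ (core V M).subgroupOf M)))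
    let φ : (M ⧸ (core V M).subgroupOf M) →* R := ((Pi.evalMonoidHom _ R).comp
      (Pi.evalMonoidHom _ (⟨p, Nat.mem_primeFactors.2 ⟨hp.out, hd, Nat.card_pos.ne'⟩⟩ :
        (Nat.card (M ⧸ (core V M).subgroupOf M)).primeFactors))).comp e.symm.toMonoidHom
    let ψ : M →* R := φ.comp π
    have hφ : Function.Surjective φ :=
      (Function.surjective_eval R).comp ((Function.surjective_eval _).comp e.symm.surjective)
    have hψ : Function.Surjective ψ := hφ.comp (QuotientGroup.mk'_surjective _)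
    let S' : Sylow p M := S.subtype hSM
    have hS' : (S' : Subgroup M).map ψ = ⊤ :=
      ((S'.mapSurjective hψ).is_maximal' (R.2.to_subgroup ⊤) le_top).symm
    have hle : (S' : Subgroup M).map ψ ≤ (_root_.commutator M).map ψ := by
      refine map_mono fun s hs' => ?_
      have h1 : (s : X) ∈ ⁅M, M⁆ := hfoc hs'
      rw [← map_subtype_commutator] at h1
      obtain ⟨t, ht, hte⟩ := h1
      rwa [← M.subtype_injective hte]
    rw [hS', top_le_iff, _root_.commutator_def, map_commutator,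
      map_top_of_surjective _ hψ, ← _root_.commutator_def] at hle
    haveI : Nontrivial R := (Subgroup.nontrivial_iff_ne_bot (R : Subgroup (M ⧸ (core V M).subgroupOf M))).2
      (R.ne_bot_of_dvd_card hd)
    haveI : Group.IsNilpotent R := R.2.isNilpotent
    exact (Group.IsSolvable.commutator_lt_top_of_nontrivial (G := R)).ne hle
  intro s hs'
  obtain ⟨j, hj⟩ := IsPGroup.iff_orderOf.1 S.2 ⟨s, hs'⟩
  rw [Subgroup.orderOf_mk] at hj
  have h1 : π ⟨s, hSM hs'⟩ = 1 := by
    refine orderOf_eq_one_iff.1 (Nat.eq_one_of_dvd_coprimes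
      ((hp.out.coprime_iff_not_dvd.2 hnd).pow_left j) ?_ (orderOf_dvd_natCard _))
    refine (orderOf_map_dvd π _).trans ?_
    rw [Subgroup.orderOf_mk, hj]
  exact mem_subgroupOf.1 ((QuotientGroup.eq_one_iff _).1 h1)

include hV hnc in
theorem sigma_iff_dvd {M : Subgroup X} (hM : IsCoatom M) {p : ℕ} [Fact p.Prime] :
    Sigma' V M p ↔ p ∣ Nat.card (core V M) := by
  refine ⟨?_, sigma_of_dvd hV hM.1⟩
  rintro ⟨v, hv, hv1, hvM⟩
  obtain ⟨j, hj⟩ := hV.pElem p v hv
  have hj0 : j ≠ 0 := by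
    rintro rfl
    exact hv1 (orderOf_eq_one_iff.1 (by rw [hj, pow_zero]))
  refine (dvd_pow_self p hj0).trans (hj ▸ ?_)
  exact Subgroup.orderOf_dvd_natCard _ (subset_closure ⟨hvM, p, Fact.out, hv⟩)

include hV hnc in
theorem core_coprime_index {M : Subgroup X} (hM : IsCoatom M) :
    (Nat.card (core V M)).Coprime ((core V M).relIndex M) := by
  refine Nat.coprime_of_dvd fun p hp hpk hpi => ?_
  haveI := Fact.mk hp
  obtain ⟨v, hv, hv1, hvM⟩ := (sigma_iff_dvd hV hnc hM).2 hpk
  obtain ⟨S, hSM, -, -⟩ := exists_sylow_of_value hV hnc hM hvM hv hv1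
  have hSK := sylow_le_core hV hnc hM ⟨v, hv, hv1, hvM⟩ hSM
  refine S.not_dvd_index (hpi.trans ?_)
  exact (relIndex_dvd_of_le_left M hSK).trans (relIndex_dvd_index_of_le hSM)

include hV hnc in
theorem mem_core_of_sigma {M : Subgroup X} (hM : IsCoatom M) {p : ℕ} {y : X} (hy : PP p y)
    (hyM : y ∈ M) (hs : Sigma' V M p) : y ∈ core V M := by
  haveI := Fact.mk hy.1
  haveI := core_normal hV (M := M)
  obtain ⟨j, hj⟩ := hy.2.2
  have hcop : ((core V M).relIndex M).Coprime (orderOf (⟨y, hyM⟩ : M)) := by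
    rw [Subgroup.orderOf_mk, hj]
    refine (Nat.Coprime.coprime_dvd_left ?_ (core_coprime_index hV hnc hM)).symm.pow_right j
    exact (sigma_iff_dvd hV hnc hM).1 hs
  exact mem_subgroupOf.1 ((zpowers_le.2 (((core V M).subgroupOf M).pow_index_mem ⟨y, hyM⟩))
    (mem_zpowers_pow_iff.2 hcop))

include hV hnc in
theorem home_of_mem_core {M : Subgroup X} (hM : IsCoatom M) {p : ℕ} {y : X} (hy : PP p y)
    (hyK : y ∈ core V M) : Home y M ∧ Sigma' V M p := by
  haveI := Fact.mk hy.1
  obtain ⟨j, hj⟩ := hy.2.2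
  have hj0 : j ≠ 0 := by
    rintro rfl
    exact hy.2.1 (orderOf_eq_one_iff.1 (by rw [hj, pow_zero]))
  have hs : Sigma' V M p := sigma_of_dvd hV hM.1
    ((dvd_pow_self p hj0).trans (hj ▸ Subgroup.orderOf_dvd_natCard _ hyK))
  refine ⟨?_, hs⟩
  obtain ⟨v, hv, hv1, hvM⟩ := hs
  obtain ⟨S, hSM, hiff, -⟩ := exists_sylow_of_value hV hnc hM hvM hv hv1
  have hvK : v ∈ core V M := subset_closure ⟨hvM, p, hy.1, hv⟩
  obtain ⟨i, hi⟩ := hV.pElem p v hv
  have hvp : PP p v := ⟨hy.1, hv1, i, hi⟩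
  exact home_of_nilpotent hV hnc (core_nilpotent hV hM.1) hvp hy hvK hyK
    (home_of_sylow hV hnc hvp ((hiff v hv).1 hvM) hM hSM)

include hV hnc in
theorem home_sigma {M : Subgroup X} {p : ℕ} {y : X} (hy : PP p y) (h : Home y M) :
    Sigma' V M p ∧ y ∈ core V M := by
  haveI := Fact.mk hy.1
  obtain ⟨S, hS⟩ := (zpowers_isPGroup hy).exists_le_sylow
  have hs := (sylow_le_home hV hnc hy (hS (mem_zpowers y)) h).2
  exact ⟨hs, mem_core_of_sigma hV hnc h.1 hy h.mem hs⟩

include hV hnc in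
theorem nilpotent_inf {M M' : Subgroup X} (hM : IsCoatom M) (hM' : IsCoatom M') (hne : M ≠ M') :
    Group.IsNilpotent (M ⊓ M' : Subgroup X) := by
  refine (Subgroup.isNilpotent_iff_lowerCentralSeries _).2 ⟨k, le_bot_iff.1 ?_⟩
  refine (hV.term_le _ fun e => hM.1 (top_le_iff.1 (e ▸ inf_le_left))).trans ((closure_le _).2 ?_)
  rintro v ⟨hvI, p, hp, hv⟩
  haveI := Fact.mk hp
  by_contra hv1
  exact hne (eq_of_value_mem hV hnc hM hM' hv hv1 hvI.1 hvI.2)

end ValueSystem

end CfsgLib.HallClasses.Gamma
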