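import Cfsg.Agent.Lib.HallClasses.GammaCounting
import Cfsg.Agent.S0183
import Cfsg.Agent.Lib.Subnormal.BaerSuzuki
import Cfsg.Agent.Lib.Involutions.Isolated
import Cfsg.Agent.Lib.Frobenius.Kernel

/-!
A simple group has no system of values, and so the condition on values forces solvability.
-/

set_option autoImplicit false
set_option linter.style.haveILetI false
set_option linter.unusedSectionVars false

namespace CfsgLib.HallClasses.Gamma

open Subgroup
open scoped commutatorElement

universe u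

variable {X : Type u} [Group X]

namespace ValueSystem

variable [Finite X] {k : ℕ} {V : ℕ → Set X} (hV : ValueSystem k V)
variable [IsSimpleGroup X] (hnc : ¬ IsMulCommutative X)

include hV hnc in
theorem isCNGroup : Cfsg.IsCNGroup X := by
  intro g hg
  obtain ⟨p, a, ha, hag, -, -⟩ := exists_PP (U := (⊥ : Subgroup X)) (x := g) (by simpa using hg)
  obtain ⟨M, hM⟩ := exists_home hnc ha.2.1
  obtain ⟨i, rfl⟩ := mem_zpowers_iff.1 hag
  refine CfsgLib.Cores.isNilpotent_of_le (core_nilpotent hV hM.1.1) fun y hy => ?_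
  have hya : Commute (g ^ i) y :=
    Commute.zpow_left (show Commute g y from (mem_centralizer_singleton_iff.1 hy).symm) i
  by_contra hyK
  obtain ⟨r, z, hz, hzy, hzK, -⟩ := exists_PP hyK
  have hza : Commute (g ^ i) z := by
    obtain ⟨e, rfl⟩ := mem_zpowers_iff.1 hzy
    exact hya.zpow_right e
  have hzM : z ∈ M := hM.2 (mem_centralizer_singleton_iff.2 hza.symm.eq)
  exact no_mixed hV hnc hM.1 ha (home_sigma hV hnc ha hM).2 hz hzM
    (fun hs => hzK (mem_core_of_sigma hV hnc hM.1 hz hzM hs)) hza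

include hV hnc in
/-- A simple group of even order has an involution value. -/
theorem exists_involution_value (heven : 2 ∣ Nat.card X) :
    ∃ v ∈ V 2, v ≠ 1 ∧ v * v = 1 := by
  haveI := Fact.mk Nat.prime_two
  obtain ⟨S0⟩ := (inferInstance : Nonempty (Sylow 2 X))
  obtain ⟨v0, -, hv0, hv01⟩ := exists_value hV hnc heven S0
  obtain ⟨M, hM, hle⟩ := exists_home hnc hv01
  have hv0M : v0 ∈ M := hle (mem_centralizer_singleton_iff.2 rfl)
  obtain ⟨S, hSM, hiff, -⟩ := exists_sylow_of_value hV hnc hM hv0M hv0 hv01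
  have hSK : (S : Subgroup X) ≤ core V M := sylow_le_core hV hnc hM ⟨v0, hv0, hv01, hv0M⟩ hSM
  have hKn := core_nilpotent hV hM.1
  by_cases hall : ∀ (r : ℕ) (h : X), PP r h → h ∈ M → Sigma' V M r
  · -- `M` would be a Frobenius complement
    exfalso
    have hMne := coatom_ne_bot hnc hM
    have hMK : M = core V M := le_antisymm (fun y hy => by
      by_contra hyK
      obtain ⟨r, z, hz, hzy, hzK, -⟩ := exists_PP hyK
      exact hzK (mem_core_of_sigma hV hnc hM hz ((zpowers_le.2 hy) hzy)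
        (hall r z hz ((zpowers_le.2 hy) hzy)))) (core_le hV)
    have hF : Cfsg.IsFrobeniusComplement M := by
      refine ⟨hMne, hM.1, fun g hg => (eq_bot_iff_forall _).2 fun y hy => by_contra fun hy1 => ?_⟩
      obtain ⟨hy, hy'⟩ := mem_inf.1 hy
      rw [CfsgLib.Frobenius.mem_conj_smul] at hy'
      obtain ⟨r, c, hc, hcy, -, -⟩ := exists_PP (U := (⊥ : Subgroup X)) (x := y) (by simpa using hy1)
      have h1 := (home_of_mem_core hV hnc hM hc (hMK.le ((zpowers_le.2 hy) hcy))).1
      have hcy' : g⁻¹ * c * g ∈ zpowers (g⁻¹ * y * g) := by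
        obtain ⟨i, rfl⟩ := mem_zpowers_iff.1 hcy
        exact mem_zpowers_iff.2 ⟨i, by simpa using (conj_zpow (a := g⁻¹) (b := y) (i := i))⟩
      have hc' : PP r (g⁻¹ * c * g) := by simpa using hc.conj g⁻¹
      have h2 := (home_of_mem_core hV hnc hM hc' (hMK.le ((zpowers_le.2 hy') hcy'))).1
      have h1' : Home (g⁻¹ * c * g) (M.map (MulAut.conj g⁻¹).toMonoidHom) := by
        have h := h1.conj g⁻¹
        rwa [inv_inv] at h
      have h3 := home_unique hV hnc hc' h1' h2
      exact hg ((inv_mem_iff).1 (mem_of_map_conj_eq hnc hM h3))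
    obtain ⟨K, -, hK, hc⟩ := CfsgLib.Frobenius.exists_kernel hF
    rcases hK.eq_bot_or_eq_top with rfl | rfl
    · exact hM.1 (isComplement'_bot_left.1 hc)
    · exact hMne (isComplement'_top_left.1 hc)
  · push Not at hall
    obtain ⟨r, h, hh, hhM, hns⟩ := hall
    -- the central involutions of the core
    obtain ⟨S', hS'⟩ := nilpotent_facts hKn (p := 2)
    have hSS' : (S' : Subgroup X) = S := by
      refine S.is_maximal' S'.2 fun s hs => ?_
      by_cases hs1 : s = 1
      · rw [hs1]; exact one_mem _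
      obtain ⟨j, hj⟩ := IsPGroup.iff_orderOf.1 S.2 ⟨s, hs⟩
      rw [Subgroup.orderOf_mk] at hj
      exact (hS' s (hSK hs) ⟨Nat.prime_two, hs1, j, hj⟩).1
    haveI : Nontrivial (S : Subgroup X) :=
      (Subgroup.nontrivial_iff_ne_bot _).2 (S.ne_bot_of_dvd_card heven)
    haveI := S.2.center_nontrivial
    have hdvd : 2 ∣ Nat.card (center (S : Subgroup X)) := by
      obtain ⟨n, hn, hcard⟩ := (S.2.to_subgroup (center (S : Subgroup X))).nontrivial_iff_card.1
        inferInstance
      exact hcard ▸ dvd_pow_self 2 hn.ne'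
    obtain ⟨⟨⟨t, htS⟩, htc⟩, ht⟩ := exists_prime_orderOf_dvd_card' 2 hdvd
    rw [Subgroup.orderOf_mk, Subgroup.orderOf_mk] at ht
    have htpp : PP 2 t := ⟨Nat.prime_two, fun e => by simp [e] at ht, 1, by rw [ht, pow_one]⟩
    have htcent : ∀ c ∈ core V M, Commute t c := by
      intro c hc
      by_contra hcn
      obtain ⟨q, z, hz, hzc, hzn, -⟩ := exists_PP (U := centralizer ({t} : Set X)) (x := c)
        fun h' => hcn (mem_centralizer_singleton_iff.1 h').symm
      have hzK : z ∈ core V M := (zpowers_le.2 hc) hzc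
      refine hzn (mem_centralizer_singleton_iff.2 ?_)
      by_cases hq : q = 2
      · subst hq
        have hzS : z ∈ (S : Subgroup X) := hSS' ▸ (hS' z hzK hz).1
        exact congrArg Subtype.val (mem_center_iff.1 htc ⟨z, hzS⟩)
      · exact ((hS' t (hSK htS) htpp).2 q z hzK hz hq).symm.eq
    let D : Subgroup X :=
      { carrier := {u | u ∈ core V M ∧ u * u = 1 ∧ ∀ c ∈ core V M, Commute u c}
        one_mem' := ⟨one_mem _, one_mul 1, fun _ _ => Commute.one_left _⟩
        mul_mem' := fun {u w} hu hw => ⟨mul_mem hu.1 hw.1, by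
          rw [mul_assoc, ← mul_assoc w, (hw.2.2 u hu.1).eq, mul_assoc u w w, hw.2.1, mul_one, hu.2.1],
          fun c hc => (hu.2.2 c hc).mul_left (hw.2.2 c hc)⟩
        inv_mem' := fun {u} hu => ⟨inv_mem hu.1, by rw [← mul_inv_rev, hu.2.1, inv_one],
          fun c hc => (hu.2.2 c hc).inv_left⟩ }
    have hD : IsPGroup 2 D := fun u => ⟨1, Subtype.ext (by
      rw [pow_one, SubmonoidClass.coe_pow, pow_two]
      exact u.2.2.1)⟩
    have hhD : h ∈ normalizer (D : Set X) := CfsgLib.CoprimeAction.mem_normalizer_of_conj_mem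
      fun u hu => ⟨core_conj_mem hV hhM hu.1, by rw [conj_mul, hu.2.1, mul_one, mul_inv_cancel],
        fun c hc => by
          have h1 := hu.2.2 _ (core_conj_mem hV (inv_mem hhM) hc)
          have h2 := h1.map (MulAut.conj h).toMonoidHom
          simpa [mul_assoc] using h2⟩
    obtain ⟨v, hvD, hv, hv1⟩ := hV.acts 2 r Nat.prime_two hh.1
      (fun e => hns (e ▸ ⟨v0, hv0, hv01, hv0M⟩)) D hD h hhD hh.2.2
      ⟨t, ⟨hSK htS, by rw [← pow_two, ← ht, pow_orderOf_eq_one], htcent⟩,
        fun hc => no_mixed hV hnc hM htpp (hSK htS) hh hhM hns hc⟩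
    exact ⟨v, hv, hv1, hvD.2.1⟩

include hV hnc in
theorem false_of_valueSystem : False := by
  by_cases heven : 2 ∣ Nat.card X
  · haveI := Fact.mk Nat.prime_two
    obtain ⟨v, hv, hv1, hvv⟩ := exists_involution_value hV hnc heven
    have hvo : orderOf v = 2 := orderOf_eq_prime (by rw [pow_two, hvv]) hv1
    have hcore : Cfsg.pCore 2 X = ⊥ := by
      refine (inferInstance : (Cfsg.pCore 2 X).Normal).eq_bot_or_eq_top.resolve_right fun e => ?_
      exact ne_top_of_isPGroup hnc (CfsgLib.Cores.isPGroup_pCore 2 X) e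
    refine hv1 (mem_bot.1 (hcore ▸ CfsgLib.Subnormal.mem_pCore_of_forall_closure_pair fun g => ?_))
    set w := g * v * g⁻¹ with hw
    have hwo : orderOf w = 2 := by rw [hw, ← MulAut.conj_apply, MulEquiv.orderOf_eq, hvo]
    have hww : w * w = 1 := by rw [← pow_two, ← hwo, pow_orderOf_eq_one]
    obtain ⟨j, m, hm, hjm⟩ := Nat.exists_eq_pow_mul_and_not_dvd (orderOf_pos (v * w)).ne' 2 (by omega)
    refine CfsgLib.Involutions.isPGroup_closure_pair hvo hwo (k := j) ?_
    rw [orderOf_dvd_iff_pow_eq_one]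
    by_contra hne
    obtain ⟨r, z, hz, hzp, -, hrd⟩ := exists_PP (U := (⊥ : Subgroup X)) (x := (v * w) ^ 2 ^ j)
      (by simpa using hne)
    have hr2 : r ≠ 2 := by
      rintro rfl
      rw [orderOf_pow_of_dvd (pow_ne_zero _ (by omega)) (hjm ▸ dvd_mul_right _ _), hjm,
        Nat.mul_div_cancel_left _ (pow_pos (by omega) _)] at hrd
      exact hm hrd
    obtain ⟨e, rfl⟩ := mem_zpowers_iff.1 hzp
    set z := ((v * w) ^ 2 ^ j) ^ e with hzdef
    have hinv : v * z * v⁻¹ = z⁻¹ := by
      have h1 : v * (v * w) * v⁻¹ = (v * w)⁻¹ := by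
        rw [mul_inv_rev, inv_eq_of_mul_eq_one_right hvv, inv_eq_of_mul_eq_one_right hww,
          ← mul_assoc, hvv, one_mul]
      rw [hzdef, ← conj_zpow, ← conj_pow, h1, inv_pow, inv_zpow]
    have hn : v ∈ normalizer (zpowers z : Set X) :=
      CfsgLib.CoprimeAction.mem_normalizer_of_conj_mem fun u hu => by
        obtain ⟨i, rfl⟩ := mem_zpowers_iff.1 hu
        rw [← conj_zpow, hinv]
        exact zpow_mem (inv_mem (mem_zpowers z)) i
    haveI := Fact.mk hz.1
    have hc := mem_centralizer_iff.1 (hV.centralizes 2 r Nat.prime_two hz.1 hr2.symm v hv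
      (zpowers z) (zpowers_isPGroup hz) hn) z (mem_zpowers z)
    rw [← hc, mul_inv_cancel_right] at hinv
    have h2 : orderOf z ∣ 2 := orderOf_dvd_of_pow_eq_one (by
      rw [pow_two]
      nth_rw 1 [hinv]
      exact inv_mul_cancel z)
    obtain ⟨i, hi⟩ := hz.2.2
    rcases (Nat.dvd_prime Nat.prime_two).1 h2 with h3 | h3
    · exact hz.2.1 (orderOf_eq_one_iff.1 h3)
    · exact hr2 ((Nat.prime_dvd_prime_iff_eq Nat.prime_two hz.1).1
        (Nat.prime_two.dvd_of_dvd_pow (n := i) (by rw [← hi, h3]))).symm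
  · have hodd : Odd (Nat.card X) := Nat.not_even_iff_odd.1 fun he => heven (even_iff_two_dvd.1 he)
    haveI : Group.IsSolvable X := Cfsg.Agent.S0183.result hodd (isCNGroup hV hnc)
    have h := Group.IsSolvable.commutator_lt_top_of_nontrivial (G := X)
    rcases (inferInstance : (_root_.commutator X).Normal).eq_bot_or_eq_top with h' | h'
    · exact hnc ⟨⟨fun a b => commutatorElement_eq_one_iff_mul_comm.1
        (mem_bot.1 (h' ▸ commutator_mem_commutator (mem_top a) (mem_top b)))⟩⟩
    · exact h.ne h'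

end ValueSystem

theorem val_succ : ∀ {n : ℕ} {g : X}, Val (n + 1) g → Val n g
  | 0, _, _ => trivial
  | _ + 1, _, ⟨a, b, ha, he⟩ => ⟨a, b, val_succ ha, he⟩

/-- Acting prime-power elements produce values in a quotient. -/
theorem exists_value_lift [Finite X] (k : ℕ) (R : Subgroup X) [R.Normal] {p q : ℕ} (hp : p.Prime)
    (hq : q.Prime) (hpq : p ≠ q) {D : Subgroup (X ⧸ R)} (hD : IsPGroup p D) {h : X ⧸ R}
    (hn : h ∈ normalizer (D : Set (X ⧸ R))) (hh : ∃ j, orderOf h = q ^ j)
    (hb : ∃ b ∈ D, ¬ Commute b h) :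
    ∃ v : X, Val k v ∧ (∃ j, orderOf v = p ^ j) ∧ v ∉ R ∧ QuotientGroup.mk' R v ∈ D := by
  haveI := Fact.mk hp
  haveI := Fact.mk hq
  obtain ⟨b, hb, hbc⟩ := hb
  obtain ⟨j, hj⟩ := hh
  obtain ⟨S, u, hSp, hSmap, hun, ⟨ju, hju⟩, hue⟩ :=
    exists_lift_normalizer (q := q) R hD hn ⟨j, by rw [← hj, pow_orderOf_eq_one]⟩
  obtain ⟨s, hs, hse⟩ := hSmap.ge hb
  have hcop : (orderOf (QuotientGroup.mk' R u)).Coprime
      (Nat.card (S.map (QuotientGroup.mk' R))) := by
    obtain ⟨l, hl⟩ := IsPGroup.iff_card.1 hD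
    rw [hSmap, hl]
    exact Nat.Coprime.coprime_dvd_left (hju ▸ orderOf_map_dvd _ u)
      (Nat.Coprime.pow _ _ ((Nat.coprime_primes hq hp).2 hpq.symm))
  obtain ⟨v, hv, hvv, hvR⟩ := exists_val_of_acts k R hun hs hcop (by rw [hse, hue]; exact hbc)
  obtain ⟨l, hl⟩ := IsPGroup.iff_orderOf.1 hSp ⟨v, hv⟩
  rw [Subgroup.orderOf_mk] at hl
  exact ⟨v, hvv, ⟨l, hl⟩, hvR, hSmap.le (mem_map_of_mem _ hv)⟩

/-- In a simple nonabelian group an element of other order acts on a `p`-subgroup. -/
theorem exists_acting [Finite X] [IsSimpleGroup X] (hnc : ¬ IsMulCommutative X) {p : ℕ}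
    [Fact p.Prime] (hp : p ∣ Nat.card X) :
    ∃ (q : ℕ) (D : Subgroup X) (h : X), q.Prime ∧ p ≠ q ∧ IsPGroup p D ∧
      h ∈ normalizer (D : Set X) ∧ (∃ j, orderOf h = q ^ j) ∧ ∃ b ∈ D, ¬ Commute b h := by
  by_contra hno
  have hp' : p.Prime := Fact.out
  have hfc : CfsgLib.NormalPComplement.FrobeniusCondition p X := by
    intro Q hQ g hg hcop
    by_contra hgc
    obtain ⟨r, g', hg', hgg, hgn, hrd⟩ := exists_PP hgc
    obtain ⟨b, hb, hbc⟩ : ∃ b ∈ Q, ¬ Commute b g' := by
      by_contra hall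
      push Not at hall
      exact hgn (mem_centralizer_iff.2 fun b hb => (hall b hb).eq)
    have hrp : p ≠ r := by
      rintro rfl
      exact hp'.ne_one (Nat.eq_one_of_dvd_coprimes hcop hrd dvd_rfl)
    exact hno ⟨r, Q, g', hg'.1, hrp, hQ, (zpowers_le.2 hg) hgg, hg'.2.2, b, hb, hbc⟩
  obtain ⟨P, N, hN, hc⟩ := CfsgLib.NormalPComplement.hasNormalPComplement_of_frobeniusCondition hfc
  rcases hN.eq_bot_or_eq_top with rfl | rfl
  · exact ValueSystem.not_isPGroup hnc p (P.2.of_equiv ((MulEquiv.subgroupCongr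
      (isComplement'_bot_left.1 hc)).trans topEquiv))
  · exact P.ne_bot_of_dvd_card hp (isComplement'_top_left.1 hc)

/-- The values centralising property forces solvability. -/
theorem isSolvable_of_centralizes {k : ℕ} (G : Type u) [Group G] [Finite G]
    (h : Centralizes k G) : Group.IsSolvable G := by
  suffices hmain : ∀ n : ℕ, ∀ H : Subgroup G, Nat.card H = n → Group.IsSolvable H by
    haveI := hmain _ (⊤ : Subgroup G) rfl
    exact Group.isSolvable_of_surjective (f := (⊤ : Subgroup G).subtype) fun g => ⟨⟨g, mem_top g⟩, rfl⟩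
  intro n
  induction n using Nat.strong_induction_on with
  | _ n ih =>
  intro H hn
  subst hn
  by_contra hns
  have hprop : ∀ U : Subgroup H, U ≠ ⊤ → Group.IsSolvable U := by
    intro U hU
    haveI := ih _ (by
      rw [card_map_of_injective H.subtype_injective]
      exact lt_of_le_of_ne (card_le_card_group U) fun e => hU (eq_top_of_card_eq U e))
      (U.map H.subtype) rfl
    exact Group.isSolvable_of_isSolvable_injective
      (f := (U.equivMapOfInjective H.subtype H.subtype_injective).toMonoidHom) (MulEquiv.injective _)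
  have hH := h.subgroup H
  set R := frattini H with hR
  haveI hRnil : Group.IsNilpotent R := frattini_nilpotent
  have hproper : ∀ N : Subgroup H, N.Normal → N ≠ ⊤ → N ≤ R := by
    intro N hN hNt
    by_contra hNR
    obtain ⟨M, hM, hNM⟩ : ∃ M : Subgroup H, IsCoatom M ∧ ¬ N ≤ M := by
      by_contra hall
      push Not at hall
      exact hNR (le_iInf₂ fun M hM => hall M hM)
    haveI := hN
    have htop : N ⊔ M = ⊤ := hM.2 _ (lt_of_le_of_ne le_sup_right fun e => hNM (le_sup_left.trans e.ge))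
    haveI := hprop N hNt
    haveI := hprop M hM.1
    suffices hq : Group.IsSolvable (H ⧸ N) by
      exact hns (Group.isSolvable_of_ker_le_range N.subtype (QuotientGroup.mk' N) (by simp))
    refine Group.isSolvable_of_surjective (f := (QuotientGroup.mk' N).comp M.subtype) fun x => ?_
    obtain ⟨g, rfl⟩ := QuotientGroup.mk'_surjective N x
    obtain ⟨a, ha, m, hm, rfl⟩ := mem_sup_of_normal_left.1 (htop.ge (mem_top g))
    refine ⟨⟨m, hm⟩, ?_⟩
    show QuotientGroup.mk' N m = QuotientGroup.mk' N (a * m)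
    rw [map_mul, show QuotientGroup.mk' N a = 1 from (QuotientGroup.eq_one_iff a).2 ha, one_mul]
  have hRtop : R ≠ ⊤ := fun e => hns (by
    haveI : Group.IsNilpotent (⊤ : Subgroup H) := e ▸ hRnil
    exact Group.isSolvable_of_surjective (f := (⊤ : Subgroup H).subtype) fun g => ⟨⟨g, mem_top g⟩, rfl⟩)
  have hcomm : _root_.commutator H = ⊤ := by
    by_contra hc
    have hle := hproper _ inferInstance hc
    haveI := hprop R hRtop
    haveI : IsMulCommutative (H ⧸ R) :=
      ⟨⟨fun a b => by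
        obtain ⟨x, rfl⟩ := QuotientGroup.mk'_surjective R a
        obtain ⟨y, rfl⟩ := QuotientGroup.mk'_surjective R b
        rw [← commutatorElement_eq_one_iff_mul_comm, ← map_commutatorElement]
        exact (QuotientGroup.eq_one_iff _).2
          (hle (commutator_mem_commutator (mem_top x) (mem_top y)))⟩⟩
    haveI : Group.IsSolvable (H ⧸ R) :=
      Group.isSolvable_of_comm fun a b => (IsMulCommutative.is_comm.comm a b)
    exact hns (Group.isSolvable_of_ker_le_range R.subtype (QuotientGroup.mk' R) (by simp))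
  haveI : Nontrivial (H ⧸ R) := QuotientGroup.nontrivial_iff.2 hRtop
  set π := QuotientGroup.mk' R with hπdef
  have hπ : Function.Surjective π := QuotientGroup.mk'_surjective R
  haveI hsimple : IsSimpleGroup (H ⧸ R) := ⟨fun N hN => by
    by_cases hc : N.comap π = ⊤
    · right
      rw [← map_comap_eq_self_of_surjective hπ N, hc, map_top_of_surjective _ hπ]
    · left
      have hle := hproper _ (hN.comap π) hc
      rw [← map_comap_eq_self_of_surjective hπ N, eq_bot_iff]
      rintro _ ⟨g, hg, rfl⟩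
      exact mem_bot.2 ((QuotientGroup.eq_one_iff g).2 (hle hg))⟩
  have hnc : ¬ IsMulCommutative (H ⧸ R) := fun hc => hRtop (top_le_iff.1 (by
    rw [← hcomm, _root_.commutator_def, commutator_le]
    intro x _ y _
    refine (QuotientGroup.eq_one_iff _).1 (?_ : π ⁅x, y⁆ = 1)
    rw [map_commutatorElement, commutatorElement_eq_one_iff_mul_comm]
    exact hc.is_comm.comm _ _))
  -- the frattini subgroup is central
  have hRc : R ≤ center H := by
    intro x hx
    by_contra hxc
    obtain ⟨r, z, hz, hzx, hzc, -⟩ := exists_PP hxc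
    have hzR : z ∈ R := (zpowers_le.2 hx) hzx
    haveI := Fact.mk hz.1
    obtain ⟨j, hj⟩ := hz.2.2
    obtain ⟨T, hT⟩ := (IsPGroup.of_card (G := zpowers (⟨z, hzR⟩ : R)) (p := r) (n := j)
      (by rw [Nat.card_zpowers, Subgroup.orderOf_mk, hj])).exists_le_sylow
    haveI hTn : (T : Subgroup R).Normal :=
      Sylow.normal_of_normalizerCondition Group.normalizerCondition_of_isNilpotent T
    haveI := Sylow.characteristic_of_normal T hTn
    set W := (T : Subgroup R).map R.subtype
    have hWr : IsPGroup r W := T.2.map _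
    obtain ⟨p, hp, hpd, hpr⟩ : ∃ p : ℕ, p.Prime ∧ p ∣ Nat.card (H ⧸ R) ∧ p ≠ r := by
      by_contra hb
      push Not at hb
      exact ValueSystem.not_isPGroup hnc r (IsPGroup.of_card
        (Nat.eq_prime_pow_of_unique_prime_dvd Nat.card_pos.ne' fun {d} hd hdd => hb d hd hdd))
    haveI := Fact.mk hp
    obtain ⟨q, D, g, hq, hpq, hD, hg, hgo, hb⟩ := exists_acting hnc hpd
    obtain ⟨v, hv, ⟨i, hi⟩, hvR, -⟩ := exists_value_lift k R hp hq hpq hD hg hgo hb
    have hvW : v ∈ centralizer (W : Set H) := by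
      refine hH v W hv ((le_normalizer_of_normal : (⊤ : Subgroup H) ≤ _) (mem_top v)) ?_
      obtain ⟨l, hl⟩ := IsPGroup.iff_card.1 hWr
      rw [hi, hl]
      exact Nat.Coprime.pow _ _ ((Nat.coprime_primes hp hz.1).2 hpr)
    have htop : centralizer (W : Set H) = ⊤ := by
      by_contra hne
      exact hvR (hproper _ inferInstance hne hvW)
    refine hzc (mem_center_iff.2 fun g => ?_)
    exact (mem_centralizer_iff.1 (htop.ge (mem_top g)) z ⟨⟨z, hzR⟩, hT (mem_zpowers _), rfl⟩).symm
  let V : ℕ → Set (H ⧸ R) := fun p =>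
    {x | ∃ v : H, Val k v ∧ (∃ j, orderOf v = p ^ j) ∧ π v = x ∧ p.Prime}
  refine ValueSystem.false_of_valueSystem (k := k) (V := V) ⟨?_, ?_, ?_, ?_, ?_, ?_, ?_⟩ hnc
  · rintro p _ ⟨v, -, ⟨j, hj⟩, rfl, hp⟩
    obtain ⟨i, -, hi⟩ := (Nat.dvd_prime_pow hp).1 (hj ▸ orderOf_map_dvd π v)
    exact ⟨i, hi⟩
  · rintro p _ ⟨v, hv, ⟨j, hj⟩, rfl, hp⟩ g
    obtain ⟨g, rfl⟩ := hπ g
    exact ⟨g * v * g⁻¹, val_conj hv g, ⟨j, by rw [← MulAut.conj_apply, MulEquiv.orderOf_eq, hj]⟩,
      by simp, hp⟩
  · rintro p r hp hr hpr _ ⟨v, hv, ⟨j, hj⟩, rfl, -⟩ D hD hn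
    haveI := Fact.mk hr
    obtain ⟨S, hSp, hSmap, hS⟩ := exists_sylow_lift R hD
    obtain ⟨t, ht, hte⟩ := hS _ hn
    have hvn : v ∈ normalizer (S : Set H) := by
      have h1 : t⁻¹ * v ∈ R := (QuotientGroup.eq).1 hte
      rw [show v = t * (t⁻¹ * v) by group]
      refine mul_mem ht (centralizer_le_normalizer _ (mem_centralizer_iff.2 fun s _ => ?_))
      exact mem_center_iff.1 (hRc h1) s
    obtain ⟨l, hl⟩ := IsPGroup.iff_card.1 hSp
    have hc := hH v S hv hvn (by
      rw [hj, hl]; exact Nat.Coprime.pow _ _ ((Nat.coprime_primes hp hr).2 hpr))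
    refine mem_centralizer_iff.2 fun d hd => ?_
    obtain ⟨s, hs, rfl⟩ := hSmap.ge hd
    rw [← map_mul, ← map_mul, mem_centralizer_iff.1 hc s hs]
  · rintro p hp P hP x hxP ⟨v, hv, -, rfl, -⟩ b hb
    haveI := Fact.mk hp
    obtain ⟨S, hSp, hSmap, -⟩ := exists_sylow_lift R hP
    obtain ⟨s, hs, hse⟩ := hSmap.ge hxP
    obtain ⟨c, hc, rfl⟩ := hSmap.ge hb
    have hz : v⁻¹ * s ∈ center H := hRc ((QuotientGroup.eq).1 hse.symm)
    have e : ⁅v, c⁆ = ⁅s, c⁆ := by
      have h1 := mem_center_iff.1 hz c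
      calc ⁅v, c⁆ = v * (c * (v⁻¹ * s)) * s⁻¹ * c⁻¹ := by rw [commutatorElement_def]; group
        _ = v * ((v⁻¹ * s) * c) * s⁻¹ * c⁻¹ := by rw [h1]
        _ = ⁅s, c⁆ := by rw [commutatorElement_def]; group
    obtain ⟨l, hl⟩ := IsPGroup.iff_orderOf.1 hSp
      ⟨⁅s, c⁆, mul_mem (mul_mem (mul_mem hs hc) (inv_mem hs)) (inv_mem hc)⟩
    rw [Subgroup.orderOf_mk] at hl
    exact ⟨⁅v, c⁆, val_succ ⟨v, c, hv, rfl⟩, ⟨l, e ▸ hl⟩, map_commutatorElement π v c, hp⟩
  · intro p q hp hq hpq D hD g hg hgo hb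
    obtain ⟨v, hv, hvo, hvR, hvD⟩ := exists_value_lift k R hp hq hpq hD hg hgo hb
    exact ⟨_, hvD, ⟨v, hv, hvo, rfl, hp⟩, fun e => hvR ((QuotientGroup.eq_one_iff v).1 e)⟩
  · intro U hU
    set U1 := U.comap π
    haveI := hprop U1 fun e => hU (by
      rw [← map_comap_eq_self_of_surjective hπ U, show U.comap π = ⊤ from e, map_top_of_surjective _ hπ])
    have h1 := (term_le_closure_and_nilpotent (hH.subgroup U1)).2
    have he : U.lowerCentralSeries k =
        ((⊤ : Subgroup U1).lowerCentralSeries k).map (π.comp U1.subtype) := by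
      rw [map_lowerCentralSeries, ← map_map, ← MonoidHom.range_eq_map, range_subtype,
        map_comap_eq_self_of_surjective hπ]
    rw [he]
    haveI := h1
    exact CfsgLib.Cores.isNilpotent_map _ (π.comp U1.subtype)
  · intro U hU
    set U1 := U.comap π
    haveI := hprop U1 fun e => hU (by
      rw [← map_comap_eq_self_of_surjective hπ U, show U.comap π = ⊤ from e, map_top_of_surjective _ hπ])
    have h1 := (term_le_closure_and_nilpotent (hH.subgroup U1)).1
    have he : U.lowerCentralSeries k =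
        ((⊤ : Subgroup U1).lowerCentralSeries k).map (π.comp U1.subtype) := by
      rw [map_lowerCentralSeries, ← map_map, ← MonoidHom.range_eq_map, range_subtype,
        map_comap_eq_self_of_surjective hπ]
    rw [he]
    refine (map_mono h1).trans ?_
    rw [MonoidHom.map_closure, closure_le]
    rintro _ ⟨y, ⟨hy, p, hp, j, hj⟩, rfl⟩
    exact subset_closure ⟨y.2, p, hp, y, val_map U1.subtype hy, ⟨j, by rw [orderOf_coe, hj]⟩, rfl, hp⟩

end CfsgLib.HallClasses.Gamma
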