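import Cfsg.Agent.Lib.HallClasses.GammaValues
import Cfsg.Agent.Lib.Cores.Fitting

/-!
In a finite solvable group whose values centralise the coprime subgroups they normalise, the
series term is nilpotent.
-/

set_option autoImplicit false
set_option linter.style.haveILetI false

namespace CfsgLib.HallClasses.Gamma

open Subgroup
open scoped commutatorElement

universe u

variable {G : Type u} [Group G] [Finite G] {k : ℕ}

omit [Finite G] in
theorem normal_closure_of_conj {T : Set G} (hT : ∀ y ∈ T, ∀ g : G, g * y * g⁻¹ ∈ T) :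
    (closure T).Normal := by
  refine ⟨fun a ha g => ?_⟩
  have h1 : closure T ≤ (closure T).comap (MulAut.conj g).toMonoidHom :=
    (closure_le _).2 fun y hy => subset_closure (hT y hy g)
  exact h1 ha

theorem le_sylow_of_normal {G : Type*} [Group G] [Finite G] {p : ℕ} [Fact p.Prime] {W : Subgroup G}
    [W.Normal] (hW : IsPGroup p W) (S : Sylow p G) : W ≤ (S : Subgroup G) := by
  have h := (S.2.to_sup_of_normal_right hW)
  exact sup_eq_left.1 (S.is_maximal' h le_sup_left)

theorem mem_pCore_of_val [Group.IsSolvable G] (h : Centralizes k G) {p : ℕ} [Fact p.Prime] {y : G}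
    (hy : Val k y) (hp : ∃ j, orderOf y = p ^ j) : y ∈ Cfsg.pCore p G := by
  have hp' : p.Prime := Fact.out
  set P0 := Cfsg.pCore p G with hP0
  set π := QuotientGroup.mk' P0
  have hπ : Function.Surjective π := QuotientGroup.mk'_surjective P0
  obtain ⟨j, hj⟩ := hp
  have hcore : Cfsg.pCore p (G ⧸ P0) = ⊥ := CfsgLib.Cores.pCore_quotient_pCore p G
  have hr : ∀ r : ℕ, r.Prime → Cfsg.pCore r (G ⧸ P0) ≤ centralizer ({π y} : Set (G ⧸ P0)) := by
    intro r hr
    haveI := Fact.mk hr
    by_cases hrp : r = p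
    · rw [hrp, hcore]
      exact bot_le
    obtain ⟨S, hSp, hSmap, hS⟩ :=
      exists_sylow_lift P0 (CfsgLib.Cores.isPGroup_pCore r (G ⧸ P0))
    let f : normalizer (S : Set G) →* G ⧸ P0 := π.comp (normalizer (S : Set G)).subtype
    have hf : Function.Surjective f := fun g => by
      obtain ⟨t, ht, hte⟩ := hS g ((le_normalizer_of_normal : (⊤ : Subgroup (G ⧸ P0)) ≤ _) (mem_top g))
      exact ⟨⟨t, ht⟩, hte⟩
    obtain ⟨n, hn, hne⟩ := exists_val_lift f hf (val_map π hy)
    have hn1 : π (n : G) = π y := hne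
    have hval : Val k (n : G) := val_map (normalizer (S : Set G)).subtype hn
    have hmem : (n : G) ^ p ^ j ∈ P0 := (QuotientGroup.eq_one_iff _).1 (by
      show π ((n : G) ^ p ^ j) = 1
      rw [map_pow, hn1, ← map_pow, ← hj, pow_orderOf_eq_one, map_one])
    obtain ⟨i, hi⟩ := (CfsgLib.Cores.isPGroup_pCore p G) ⟨_, hmem⟩
    have hcop : (orderOf (n : G)).Coprime (Nat.card S) := by
      obtain ⟨l, hl⟩ := IsPGroup.iff_card.1 hSp
      have h1 : orderOf (n : G) ∣ p ^ (j + i) := orderOf_dvd_of_pow_eq_one (by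
        rw [pow_add, pow_mul]
        exact congrArg Subtype.val hi)
      rw [hl]
      exact Nat.Coprime.coprime_dvd_left h1 (Nat.Coprime.pow _ _ ((Nat.coprime_primes hp' hr).2 (Ne.symm hrp)))
    have hc := h (n : G) S hval n.2 hcop
    rw [← hSmap]
    rintro _ ⟨s, hs, rfl⟩
    rw [← hn1]
    exact mem_centralizer_singleton_iff.2 (by
      rw [← map_mul, ← map_mul, mem_centralizer_iff.1 hc s hs])
  set F := Cfsg.fittingSubgroup (G ⧸ P0) with hF
  have hFle : F ≤ centralizer ({π y} : Set (G ⧸ P0)) := by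
    rw [hF, CfsgLib.Cores.fittingSubgroup_eq_iSup_pCore]
    exact iSup_le fun r => hr r (Nat.prime_of_mem_primeFactors r.2)
  have hcent : π y ∈ centralizer (F : Set (G ⧸ P0)) :=
    mem_centralizer_iff.2 fun c hc => mem_centralizer_singleton_iff.1 (hFle hc)
  have hyF : π y ∈ F := CfsgLib.Cores.centralizer_fittingSubgroup_le hcent
  set A := F ⊓ centralizer (F : Set (G ⧸ P0))
  have hcomm : ∀ a ∈ A, ∀ b ∈ A, Commute a b := fun a ha b hb =>
    mem_centralizer_iff.1 hb.2 a ha.1
  let T : Subgroup (G ⧸ P0) :=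
    { carrier := {a | a ∈ A ∧ ∃ i, a ^ p ^ i = 1}
      one_mem' := ⟨A.one_mem, 0, one_pow _⟩
      mul_mem' := by
        rintro a b ⟨ha, i, hi⟩ ⟨hb, l, hl⟩
        refine ⟨A.mul_mem ha hb, i + l, ?_⟩
        rw [(hcomm a ha b hb).mul_pow]
        rw [pow_add, pow_mul a, hi, one_pow, one_mul, mul_comm, pow_mul, hl, one_pow]
      inv_mem' := by
        rintro a ⟨ha, i, hi⟩
        exact ⟨A.inv_mem ha, i, by rw [inv_pow, hi, inv_one]⟩ }
  haveI hTn : T.Normal := ⟨fun a ha g => ⟨(inferInstance : A.Normal).conj_mem a ha.1 g, by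
    obtain ⟨i, hi⟩ := ha.2
    exact ⟨i, by rw [conj_pow, hi, mul_one, mul_inv_cancel]⟩⟩⟩
  have hTp : IsPGroup p T := fun a => by
    obtain ⟨i, hi⟩ := a.2.2
    exact ⟨i, Subtype.ext hi⟩
  have hT : π y ∈ T := ⟨⟨hyF, hcent⟩, j, by rw [← map_pow, ← hj, pow_orderOf_eq_one, map_one]⟩
  have h1 := CfsgLib.Cores.le_pCore hTp hT
  rw [hcore, mem_bot] at h1
  exact (QuotientGroup.eq_one_iff y).1 h1

/-- A group whose quotients have all normal `p`-subgroups centralised by elements of other prime
orders is nilpotent, if it is solvable. -/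
theorem isNilpotent_of_section (G : Type u) [Group G] [Finite G] [Group.IsSolvable G]
    (E : Subgroup G) [E.Normal]
    (hE : ∀ E' : Subgroup G, ∀ [E'.Normal], E ≤ E' → ∀ (p q : ℕ), p.Prime → q.Prime → p ≠ q →
      ∀ D : Subgroup (G ⧸ E'), D.Normal → IsPGroup p D → ∀ h : G ⧸ E', (∃ j, h ^ q ^ j = 1) →
        h ∈ centralizer (D : Set (G ⧸ E'))) :
    Group.IsNilpotent (G ⧸ E) := by
  generalize hn : E.index = n
  induction n using Nat.strong_induction_on generalizing E with
  | _ n ih =>
    subst hn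
    by_cases htriv : E = ⊤
    · subst htriv
      haveI : Subsingleton (G ⧸ (⊤ : Subgroup G)) := QuotientGroup.subsingleton_quotient_top
      infer_instance
    haveI : Nontrivial (G ⧸ E) := QuotientGroup.nontrivial_iff.2 htriv
    -- a normal abelian subgroup
    have hFne : Cfsg.fittingSubgroup (G ⧸ E) ≠ ⊥ := fun e => by
      haveI : Group.IsSolvable (G ⧸ E) :=
        Group.isSolvable_of_surjective (QuotientGroup.mk'_surjective E)
      have := CfsgLib.Cores.centralizer_fittingSubgroup_le (G := G ⧸ E)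
      rw [e, coe_bot, show centralizer ({1} : Set (G ⧸ E)) = ⊤ from
        eq_top_iff.2 fun g _ => mem_centralizer_singleton_iff.2 (by simp), top_le_iff] at this
      exact top_ne_bot this.symm
    obtain ⟨p, hp, hpne⟩ : ∃ p : ℕ, p.Prime ∧ Cfsg.pCore p (G ⧸ E) ≠ ⊥ := by
      by_contra hcon
      push Not at hcon
      exact hFne (CfsgLib.Cores.fittingSubgroup_eq_bot_iff.2 hcon)
    haveI := Fact.mk hp
    set W := Cfsg.pCore p (G ⧸ E)
    set E' := W.comap (QuotientGroup.mk' E)
    have hEE' : E ≤ E' := fun e he => by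
      rw [mem_comap, show QuotientGroup.mk' E e = 1 from (QuotientGroup.eq_one_iff e).2 he]
      exact one_mem _
    have hlt : E'.index < E.index := by
      rw [index_comap_of_surjective W (QuotientGroup.mk'_surjective E), index_eq_card E,
        index_eq_card W, ← W.index_eq_card]
      have h1 := W.card_mul_index
      have h2 : 1 < Nat.card W := (one_lt_card_iff_ne_bot W).2 hpne
      have h3 : 0 < W.index := Nat.pos_of_ne_zero W.index_ne_zero_of_finite
      calc W.index < Nat.card W * W.index := lt_mul_of_one_lt_left h3 h2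
        _ = _ := h1
    have hnil := ih _ hlt E' (fun E'' _ hle => hE E'' (hEE'.trans hle)) rfl
    haveI : Group.IsNilpotent ((G ⧸ E) ⧸ W) := by
      let f : G ⧸ E' →* (G ⧸ E) ⧸ W := QuotientGroup.lift E'
        ((QuotientGroup.mk' W).comp (QuotientGroup.mk' E)) fun g hg =>
          (QuotientGroup.eq_one_iff _).2 hg
      exact Group.nilpotent_of_surjective f fun x => by
        obtain ⟨y, rfl⟩ := QuotientGroup.mk_surjective x
        obtain ⟨g, rfl⟩ := QuotientGroup.mk_surjective y
        exact ⟨QuotientGroup.mk g, rfl⟩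
    have hWp : IsPGroup p W := CfsgLib.Cores.isPGroup_pCore p (G ⧸ E)
    refine (Group.isNilpotent_of_finite_tfae.out 0 3).2 fun {q} hq S => ?_
    haveI := hq
    set π := QuotientGroup.mk' W
    have hnS : ((S : Subgroup (G ⧸ E)).map π).Normal :=
      Sylow.normal_of_normalizerCondition Group.normalizerCondition_of_isNilpotent
        (S.mapSurjective (QuotientGroup.mk'_surjective W))
    have hsup : ((S : Subgroup (G ⧸ E)) ⊔ W).Normal := by
      have h1 := hnS.comap π
      rwa [comap_map_eq, QuotientGroup.ker_mk'] at h1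
    by_cases hqp : q = p
    · subst hqp
      rwa [sup_eq_left.2 (le_sylow_of_normal hWp S)] at hsup
    · have hSc : (S : Subgroup (G ⧸ E)) ≤ centralizer (W : Set (G ⧸ E)) := fun s hs => by
        obtain ⟨l, hl⟩ := S.2 ⟨s, hs⟩
        exact hE E le_rfl p q hp hq.out (Ne.symm hqp) W inferInstance hWp s
          ⟨l, congrArg Subtype.val hl⟩
      refine normalizer_eq_top_iff.1 (top_le_iff.1 ?_)
      rw [← Sylow.normalizer_sup_eq_top' S (N := (S : Subgroup (G ⧸ E)) ⊔ W) le_sup_left]
      refine sup_le le_rfl (sup_le le_normalizer fun w hw => ?_)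
      refine centralizer_le_normalizer _ (mem_centralizer_iff.2 fun s hs => ?_)
      exact (mem_centralizer_iff.1 (hSc hs) w hw).symm

/-- In the solvable case the series term is nilpotent. -/
theorem term_le_closure_and_nilpotent [Group.IsSolvable G] (h : Centralizes k G) :
    (⊤ : Subgroup G).lowerCentralSeries k ≤
        Subgroup.closure {y | Val k y ∧ ∃ p : ℕ, p.Prime ∧ ∃ j, orderOf y = p ^ j} ∧
      Group.IsNilpotent ((⊤ : Subgroup G).lowerCentralSeries k) := by
  let T : Set G := {y | Val k y ∧ ∃ p : ℕ, p.Prime ∧ ∃ j, orderOf y = p ^ j}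
  set E := closure T with hE
  haveI : E.Normal := CfsgLib.HallClasses.Gamma.normal_closure_of_conj fun y hy g =>
    ⟨val_conj hy.1 g, hy.2.elim fun p hp => ⟨p, hp.1, hp.2.elim fun j hj =>
      ⟨j, by rw [← MulAut.conj_apply, MulEquiv.orderOf_eq, hj]⟩⟩⟩
  have hEF : E ≤ Cfsg.fittingSubgroup G := (closure_le _).2 fun y hy => by
    obtain ⟨hyv, p, hp, hj⟩ := hy
    haveI := Fact.mk hp
    exact CfsgLib.Cores.pCore_le_fittingSubgroup p (mem_pCore_of_val h hyv hj)
  haveI hnil : Group.IsNilpotent (G ⧸ E) := by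
    refine isNilpotent_of_section G E fun E' _ hle p q hp hq hpq D hD hDp b hb => ?_
    haveI := Fact.mk hp
    haveI := Fact.mk hq
    haveI := hD
    refine mem_centralizer_iff.2 fun d hd => by_contra fun hne => ?_
    obtain ⟨S, u, hSp, hSmap, hun, ⟨ju, hju⟩, hue⟩ :=
      exists_lift_normalizer E' hDp ((le_normalizer_of_normal : (⊤ : Subgroup (G ⧸ E')) ≤ _)
        (mem_top b)) hb
    obtain ⟨s, hs, hse⟩ := hSmap.ge hd
    have hcop : (orderOf (QuotientGroup.mk' E' u)).Coprime (Nat.card (S.map (QuotientGroup.mk' E'))) := by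
      obtain ⟨l, hl⟩ := IsPGroup.iff_card.1 hDp
      rw [hSmap, hl]
      refine Nat.Coprime.coprime_dvd_left (hju ▸ orderOf_map_dvd _ u) ?_
      exact Nat.Coprime.pow _ _ ((Nat.coprime_primes hq hp).2 hpq.symm)
    obtain ⟨v, hv, hvv, hvE⟩ := exists_val_of_acts k E' hun hs hcop (by
      rw [hse, hue]
      exact hne)
    obtain ⟨l, hl⟩ := IsPGroup.iff_orderOf.1 hSp ⟨v, hv⟩
    rw [Subgroup.orderOf_mk] at hl
    exact hvE (hle (subset_closure ⟨hvv, p, hp, l, hl⟩))
  have hterm : (⊤ : Subgroup G).lowerCentralSeries k ≤ E := by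
    have hbot : (⊤ : Subgroup (G ⧸ E)).lowerCentralSeries k = ⊥ := by
      obtain ⟨e⟩ := (Group.isNilpotent_of_finite_tfae.out 0 4).1 hnil
      refine lowerCentralSeries_eq_bot_of_val k _ fun g hg => e.symm.injective ?_
      rw [map_one]
      funext q P
      haveI := Fact.mk (Nat.prime_of_mem_primeFactors q.2)
      -- the Sylow subgroup is the image of a Sylow subgroup of `G`
      let φ : (G ⧸ E) →* P := ((Pi.evalMonoidHom _ P).comp (Pi.evalMonoidHom _ q)).comp
        e.symm.toMonoidHom
      let ψ : G →* P := φ.comp (QuotientGroup.mk' E)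
      have hψ : Function.Surjective ψ :=
        ((Function.surjective_eval P).comp ((Function.surjective_eval q).comp e.symm.surjective)).comp
          (QuotientGroup.mk'_surjective E)
      obtain ⟨S⟩ := (inferInstance : Nonempty (Sylow (q : ℕ) G))
      have hS : ((S : Subgroup G).map ψ) = ⊤ :=
        ((S.mapSurjective hψ).is_maximal' (P.2.to_subgroup ⊤) le_top).symm
      let ψS : S →* P := ψ.comp (S : Subgroup G).subtype
      have hψS : Function.Surjective ψS := fun z => by
        obtain ⟨s, hs, hse⟩ := hS.ge (mem_top z)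
        exact ⟨⟨s, hs⟩, hse⟩
      obtain ⟨v, hv, hve⟩ := exists_val_lift ψS hψS (val_map φ hg)
      obtain ⟨l, hl⟩ := IsPGroup.iff_orderOf.1 S.2 v
      have hvE : (v : G) ∈ E := subset_closure
        ⟨val_map (S : Subgroup G).subtype hv, q, Nat.prime_of_mem_primeFactors q.2, l,
          by rw [orderOf_coe, hl]⟩
      show φ g = 1
      rw [← hve]
      show φ (QuotientGroup.mk' E (v : G)) = 1
      rw [show QuotientGroup.mk' E (v : G) = 1 from (QuotientGroup.eq_one_iff _).2 hvE, map_one]
    rw [← map_top_of_surjective _ (QuotientGroup.mk'_surjective E),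
      ← map_lowerCentralSeries, Subgroup.map_eq_bot_iff, QuotientGroup.ker_mk'] at hbot
    exact hbot
  exact ⟨hterm,
    CfsgLib.Cores.isNilpotent_of_le CfsgLib.Cores.isNilpotent_fittingSubgroup (hterm.trans hEF)⟩

theorem isNilpotent_term [Group.IsSolvable G] (h : Centralizes k G) :
    Group.IsNilpotent ((⊤ : Subgroup G).lowerCentralSeries k) :=
  (term_le_closure_and_nilpotent h).2

end CfsgLib.HallClasses.Gamma
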