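import Cfsg.Agent.Lib.HallClasses.GammaSolvable
import Cfsg.Agent.Lib.HallClasses.MaximalCentralizers
import Cfsg.Agent.Lib.NormalPComplement.Frobenius

/-!
Prime-power values in a simple group: each nontrivial one lies in only one maximal subgroup.
-/

set_option autoImplicit false
set_option linter.style.haveILetI false
set_option linter.unusedSectionVars false

namespace CfsgLib.HallClasses.Gamma

open Subgroup
open scoped commutatorElement

variable {X : Type*} [Group X]

/-- The facts about prime-power values used for a simple group all whose proper subgroups have a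
nilpotent series term. -/
structure ValueSystem (k : ℕ) (V : ℕ → Set X) : Prop where
  pElem : ∀ (p : ℕ) (v : X), v ∈ V p → ∃ j, orderOf v = p ^ j
  conj_mem : ∀ (p : ℕ) (v : X), v ∈ V p → ∀ g : X, g * v * g⁻¹ ∈ V p
  centralizes : ∀ p r : ℕ, p.Prime → r.Prime → p ≠ r → ∀ v ∈ V p, ∀ D : Subgroup X,
    IsPGroup r D → v ∈ normalizer (D : Set X) → v ∈ centralizer (D : Set X)
  comm_mem : ∀ p : ℕ, p.Prime → ∀ P : Subgroup X, IsPGroup p P → ∀ v ∈ P, v ∈ V p → ∀ b ∈ P,
    ⁅v, b⁆ ∈ V p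
  acts : ∀ p q : ℕ, p.Prime → q.Prime → p ≠ q → ∀ D : Subgroup X, IsPGroup p D →
    ∀ h ∈ normalizer (D : Set X), (∃ j, orderOf h = q ^ j) → (∃ b ∈ D, ¬ Commute b h) →
      ∃ v ∈ D, v ∈ V p ∧ v ≠ 1
  term_nilpotent : ∀ H : Subgroup X, H ≠ ⊤ → Group.IsNilpotent (H.lowerCentralSeries k)
  term_le : ∀ H : Subgroup X, H ≠ ⊤ →
    H.lowerCentralSeries k ≤ closure {v | v ∈ H ∧ ∃ p : ℕ, p.Prime ∧ v ∈ V p}

namespace ValueSystem

variable [Finite X] {k : ℕ} {V : ℕ → Set X} (hV : ValueSystem k V)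

include hV in
/-- The values in a proper subgroup lie in its `p`-core. -/
theorem mem_pCore {H : Subgroup X} (hH : H ≠ ⊤) {p : ℕ} [Fact p.Prime] {v : X} (hvH : v ∈ H)
    (hv : v ∈ V p) : (⟨v, hvH⟩ : H) ∈ Cfsg.pCore p H := by
  have hp : p.Prime := Fact.out
  set Γ := (⊤ : Subgroup H).lowerCentralSeries k with hΓ
  have hΓn : Group.IsNilpotent Γ := by
    haveI := hV.term_nilpotent H hH
    rw [← top_subtype_lowerCentralSeries] at this
    exact Group.nilpotent_of_mulEquiv (Γ.equivMapOfInjective H.subtype H.subtype_injective).symm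
  obtain ⟨j, hj⟩ := hV.pElem p v hv
  obtain ⟨P, hP⟩ := (IsPGroup.of_card (G := zpowers (⟨v, hvH⟩ : H)) (p := p) (n := j) (by
    rw [Nat.card_zpowers, Subgroup.orderOf_mk, hj])).exists_le_sylow
  haveI : Group.IsNilpotent (H ⧸ Γ) := Subgroup.nilpotent_iff_lowerCentralSeries.2 ⟨k, by
    rw [← map_top_of_surjective _ (QuotientGroup.mk'_surjective Γ), ← map_lowerCentralSeries,
      Subgroup.map_eq_bot_iff, QuotientGroup.ker_mk']⟩
  set π := QuotientGroup.mk' Γ
  have hπ : Function.Surjective π := QuotientGroup.mk'_surjective Γ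
  have hPb : ((P : Subgroup H).map π).Normal :=
    Sylow.normal_of_normalizerCondition Group.normalizerCondition_of_isNilpotent
      (P.mapSurjective hπ)
  let T := ((P : Subgroup H).map π).comap π
  haveI : T.Normal := hPb.comap π
  -- the elements of `T` centralising the other primary parts of the Fitting subgroup
  let C : Subgroup H := T ⊓ ⨅ r : {r : ℕ // r.Prime ∧ r ≠ p},
    centralizer (Cfsg.pCore (r : ℕ) H : Set H)
  haveI : C.Normal := by
    haveI : (⨅ r : {r : ℕ // r.Prime ∧ r ≠ p},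
        centralizer (Cfsg.pCore (r : ℕ) H : Set H)).Normal :=
      normal_iInf_normal fun r => inferInstance
    infer_instance
  have hvC : (⟨v, hvH⟩ : H) ∈ C := by
    refine mem_inf.2 ⟨mem_map_of_mem π (hP (mem_zpowers _)), mem_iInf.2 fun r => ?_⟩
    haveI := Fact.mk r.2.1
    refine mem_centralizer_iff.2 fun d hd => Subtype.ext ?_
    refine mem_centralizer_iff.1 (hV.centralizes p r hp r.2.1 r.2.2.symm v hv
      ((Cfsg.pCore (r : ℕ) H).map H.subtype) ((CfsgLib.Cores.isPGroup_pCore _ H).map _) ?_)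
      d (mem_map_of_mem H.subtype hd)
    exact le_normalizer_map H.subtype
      ⟨⟨v, hvH⟩, (le_normalizer_of_normal : (⊤ : Subgroup H) ≤ _) (mem_top _), rfl⟩
  have hCnil : Group.IsNilpotent C := by
    have hq : IsPGroup p (C ⧸ center C) := by
      intro a
      obtain ⟨c, rfl⟩ := QuotientGroup.mk_surjective a
      obtain ⟨i, hi⟩ := (P.2.map π) ⟨π c, (mem_inf.1 c.2).1⟩
      have hiΓ : (c : H) ^ p ^ i ∈ Γ :=
        (QuotientGroup.eq_one_iff _).1 (by
          show π ((c : H) ^ p ^ i) = 1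
          rw [map_pow]
          exact congrArg Subtype.val hi)
      obtain ⟨a, m, hm, hcard⟩ := Nat.exists_eq_pow_mul_and_not_dvd (orderOf_pos c).ne' p hp.ne_one
      refine ⟨i + a, (QuotientGroup.eq_one_iff _).2 ?_⟩
      by_contra hc
      obtain ⟨r, l, z, hr, hz, hzo, hzn, hrd⟩ :=
        CfsgLib.HallClasses.MaxCent.exists_primePart_notMem hc
      have hrp : r ≠ p := by
        rintro rfl
        have h1 : orderOf (c ^ r ^ (i + a)) ∣ m := orderOf_dvd_of_pow_eq_one (by
          rw [← pow_mul, ← orderOf_dvd_iff_pow_eq_one, hcard, pow_add, mul_assoc]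
          exact dvd_mul_left _ _)
        exact hm (hrd.trans h1)
      have hzΓ : (z : H) ∈ Γ := by
        obtain ⟨e, rfl⟩ := mem_zpowers_iff.1 hz
        rw [SubgroupClass.coe_zpow, SubmonoidClass.coe_pow, pow_add, pow_mul]
        exact zpow_mem (pow_mem hiΓ _) _
      haveI := Fact.mk hr
      haveI := hΓn
      obtain ⟨R, hR⟩ := (IsPGroup.of_card (G := zpowers (⟨(z : H), hzΓ⟩ : Γ)) (p := r) (n := l) (by
        rw [Nat.card_zpowers, Subgroup.orderOf_mk, orderOf_coe, hzo])).exists_le_sylow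
      haveI hRn : (R : Subgroup Γ).Normal :=
        Sylow.normal_of_normalizerCondition Group.normalizerCondition_of_isNilpotent R
      haveI := Sylow.characteristic_of_normal R hRn
      have hzr : (z : H) ∈ Cfsg.pCore r H :=
        CfsgLib.Cores.le_pCore (R.2.map Γ.subtype) ⟨⟨(z : H), hzΓ⟩, hR (mem_zpowers _), rfl⟩
      refine hzn (mem_center_iff.2 fun d => Subtype.ext ?_)
      exact (mem_centralizer_iff.1
        (mem_iInf.1 (mem_inf.1 d.2).2 ⟨r, hr, hrp⟩) z hzr).symm
    exact Group.of_quotient_center_nilpotent hq.isNilpotent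
  obtain ⟨R, hR⟩ := (IsPGroup.of_card (G := zpowers (⟨_, hvC⟩ : C)) (p := p) (n := j) (by
    rw [Nat.card_zpowers, Subgroup.orderOf_mk, Subgroup.orderOf_mk, hj])).exists_le_sylow
  haveI hRn : (R : Subgroup C).Normal :=
    Sylow.normal_of_normalizerCondition Group.normalizerCondition_of_isNilpotent R
  haveI := Sylow.characteristic_of_normal R hRn
  exact CfsgLib.Cores.le_pCore (R.2.map C.subtype) ⟨⟨_, hvC⟩, hR (mem_zpowers _), rfl⟩

variable [IsSimpleGroup X] (hnc : ¬ IsMulCommutative X)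

include hnc in
theorem normalizer_ne_top {A : Subgroup X} (hA : A ≠ ⊥) (hA' : A ≠ ⊤) :
    normalizer (A : Set X) ≠ ⊤ := fun e => by
  rcases (normalizer_eq_top_iff.1 e).eq_bot_or_eq_top with h | h
  · exact hA h
  · exact hA' h

include hnc in
theorem not_isPGroup (p : ℕ) [Fact p.Prime] : ¬ IsPGroup p X := by
  intro h
  haveI := h.center_nontrivial
  rcases (inferInstance : (center X).Normal).eq_bot_or_eq_top with hz | hz
  · exact (nontrivial_iff_ne_bot _).1 inferInstance hz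
  · exact hnc ⟨⟨fun a b => mem_center_iff.1 (hz.ge (mem_top b)) a⟩⟩

include hnc in
theorem ne_top_of_isPGroup {p : ℕ} [Fact p.Prime] {A : Subgroup X} (hA : IsPGroup p A) : A ≠ ⊤ :=
  fun e => not_isPGroup hnc p (hA.of_equiv ((MulEquiv.subgroupCongr e).trans topEquiv))

include hV hnc in
/-- Every Sylow subgroup contains a nontrivial value. -/
theorem exists_value {p : ℕ} [Fact p.Prime] (hp : p ∣ Nat.card X) (S : Sylow p X) :
    ∃ v ∈ (S : Subgroup X), v ∈ V p ∧ v ≠ 1 := by
  have hp' : p.Prime := Fact.out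
  suffices h : ∃ v ∈ V p, v ≠ 1 by
    obtain ⟨v, hv, hv1⟩ := h
    obtain ⟨j, hj⟩ := hV.pElem p v hv
    obtain ⟨T, hT⟩ := (IsPGroup.of_card (G := zpowers v) (p := p) (n := j)
      (by rw [Nat.card_zpowers, hj])).exists_le_sylow
    obtain ⟨g, rfl⟩ := MulAction.exists_smul_eq X T S
    refine ⟨g * v * g⁻¹, ?_, hV.conj_mem p v hv g, fun e => hv1 (conj_eq_one_iff.1 e)⟩
    rw [Sylow.coe_subgroup_smul]
    exact ⟨v, hT (mem_zpowers v), rfl⟩
  by_contra hno
  push Not at hno
  have hfc : CfsgLib.NormalPComplement.FrobeniusCondition p X := by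
    intro Q hQ g hg hcop
    by_contra hgc
    obtain ⟨r, i, g', hr, hg', hgo, hgn, hrd⟩ :=
      CfsgLib.HallClasses.MaxCent.exists_primePart_notMem hgc
    obtain ⟨b, hb, hbc⟩ : ∃ b ∈ Q, ¬ Commute b g' := by
      by_contra hall
      push Not at hall
      exact hgn (mem_centralizer_iff.2 fun b hb => (hall b hb).eq)
    have hrp : p ≠ r := by
      rintro rfl
      exact hp'.ne_one (Nat.eq_one_of_dvd_coprimes hcop hrd dvd_rfl)
    obtain ⟨v, -, hv, hv1⟩ := hV.acts p r hp' hr hrp Q hQ g' ((zpowers_le.2 hg) hg') ⟨i, hgo⟩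
      ⟨b, hb, hbc⟩
    exact hv1 (hno v hv)
  obtain ⟨P, N, hN, hc⟩ := CfsgLib.NormalPComplement.hasNormalPComplement_of_frobeniusCondition hfc
  rcases hN.eq_bot_or_eq_top with rfl | rfl
  · exact not_isPGroup hnc p (P.2.of_equiv ((MulEquiv.subgroupCongr
      (isComplement'_bot_left.1 hc)).trans topEquiv))
  · exact P.ne_bot_of_dvd_card hp (isComplement'_top_left.1 hc)

include hV hnc in
/-- Every Sylow subgroup contains a nontrivial central value. -/
theorem exists_central_value {p : ℕ} [Fact p.Prime] (hp : p ∣ Nat.card X) (S : Sylow p X) :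
    ∃ z ∈ (S : Subgroup X), z ∈ V p ∧ z ≠ 1 ∧ ∀ b ∈ (S : Subgroup X), Commute z b := by
  by_contra hno
  push Not at hno
  have key : ∀ n : ℕ, ∃ v ∈ (S : Subgroup X).lowerCentralSeries n, v ∈ V p ∧ v ≠ 1 := by
    intro n
    induction n with
    | zero => exact exists_value hV hnc hp S
    | succ n ih =>
      obtain ⟨v, hvn, hv, hv1⟩ := ih
      have hvS : v ∈ (S : Subgroup X) := (S : Subgroup X).lowerCentralSeries_antitone (Nat.zero_le n) hvn
      obtain ⟨b, hb, hbc⟩ := hno v hvS hv hv1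
      exact ⟨⁅v, b⁆, commutator_mem_commutator hvn hb, hV.comm_mem p Fact.out _ S.2 v hvS hv b hb,
        fun e => hbc (commutatorElement_eq_one_iff_mul_comm.1 e)⟩
  obtain ⟨n, hn⟩ := (isNilpotent_iff_lowerCentralSeries _).1 S.2.isNilpotent
  obtain ⟨v, hvn, -, hv1⟩ := key n
  rw [hn, mem_bot] at hvn
  exact hv1 hvn

include hV hnc in
/-- A maximal subgroup with a nontrivial value contains a Sylow subgroup with the same values,
and is the normaliser of their closure. -/
theorem exists_sylow_of_value {M : Subgroup X} (hM : IsCoatom M) {p : ℕ} [Fact p.Prime] {v : X}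
    (hvM : v ∈ M) (hv : v ∈ V p) (hv1 : v ≠ 1) :
    ∃ S : Sylow p X, (S : Subgroup X) ≤ M ∧ (∀ u, u ∈ V p → (u ∈ M ↔ u ∈ (S : Subgroup X))) ∧
      M = normalizer (closure {u | u ∈ V p ∧ u ∈ (S : Subgroup X)} : Set X) := by
  obtain ⟨T⟩ := (inferInstance : Nonempty (Sylow p M))
  set A := closure {u | u ∈ V p ∧ u ∈ M} with hA
  have hcore : ∀ u, u ∈ V p → u ∈ M → u ∈ (Cfsg.pCore p M).map M.subtype := fun u hu huM =>
    ⟨⟨u, huM⟩, mem_pCore hV hM.1 huM hu, rfl⟩
  have hAcore : A ≤ (Cfsg.pCore p M).map M.subtype := (closure_le _).2 fun u hu => hcore u hu.1 hu.2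
  have hAne : A ≠ ⊥ := fun e => hv1 (mem_bot.1 (e ▸ subset_closure ⟨hv, hvM⟩))
  have hAp : IsPGroup p A := ((CfsgLib.Cores.isPGroup_pCore p M).map _).to_le hAcore
  have hAnorm : ∀ n : X, (∀ u, u ∈ V p → u ∈ M → n * u * n⁻¹ ∈ M) →
      n ∈ normalizer (A : Set X) := by
    intro n hn
    have hle : A.map (MulAut.conj n).toMonoidHom ≤ A := by
      rw [hA, MonoidHom.map_closure, closure_le]
      rintro _ ⟨u, ⟨hu, huM⟩, rfl⟩
      exact subset_closure ⟨hV.conj_mem p u hu n, hn u hu huM⟩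
    exact mem_normalizer_of_map_eq (eq_of_le_of_card_ge hle
      (by rw [card_map_of_injective (MulAut.conj n).injective]))
  have hMA : M = normalizer (A : Set X) := by
    have hle : M ≤ normalizer (A : Set X) := fun m hm =>
      hAnorm m fun u _ hu => mul_mem (mul_mem hm hu) (inv_mem hm)
    exact ((hM.le_iff.1 hle).resolve_left
      (normalizer_ne_top hnc hAne (ne_top_of_isPGroup hnc hAp))).symm
  set Ts := (T : Subgroup M).map M.subtype
  have hiff : ∀ u, u ∈ V p → (u ∈ M ↔ u ∈ Ts) := by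
    intro u hu
    refine ⟨fun huM => ?_, fun h => map_subtype_le _ h⟩
    exact map_mono (le_sylow_of_normal (CfsgLib.Cores.isPGroup_pCore p M) T) (hcore u hu huM)
  obtain ⟨S, hTS⟩ := (T.2.map M.subtype).exists_le_sylow
  have hTeq : Ts = (S : Subgroup X) := by
    refine CfsgLib.HallClasses.MaxCent.eq_of_self_normalizing S.2 hTS fun s hs hsn => ?_
    have hsM : s ∈ M := hMA ▸ hAnorm s fun u hu huM =>
      map_subtype_le _ ((mem_normalizer_iff.1 hsn u).1 ((hiff u hu).1 huM))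
    obtain ⟨T', hT', hle⟩ : ∃ T' : Sylow p M, (S : Subgroup X).subgroupOf M ≤ T' ∧
        (T : Subgroup M) ≤ (S : Subgroup X).subgroupOf M :=
      ((S.2.comap_of_injective M.subtype M.subtype_injective).exists_le_sylow).elim fun T' hT' =>
        ⟨T', hT', fun t ht => hTS ⟨t, ht, rfl⟩⟩
    have he := T.is_maximal' T'.2 (hle.trans hT')
    exact ⟨⟨s, hsM⟩, he ▸ hT' (mem_subgroupOf.2 hs), rfl⟩
  refine ⟨S, hTeq ▸ map_subtype_le _, fun u hu => hTeq ▸ hiff u hu, ?_⟩
  rw [show {u | u ∈ V p ∧ u ∈ (S : Subgroup X)} = {u | u ∈ V p ∧ u ∈ M} from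
    Set.ext fun u => and_congr_right fun hu => hTeq ▸ (hiff u hu).symm]
  exact hMA

include hV hnc in
/-- The value sets of two Sylow subgroups coincide or meet trivially. -/
theorem values_eq {p : ℕ} [Fact p.Prime] {S S' : Sylow p X} {v : X} (hv : v ∈ V p) (hv1 : v ≠ 1)
    (hvS : v ∈ (S : Subgroup X)) (hvS' : v ∈ (S' : Subgroup X)) :
    ∀ u, u ∈ V p → (u ∈ (S : Subgroup X) ↔ u ∈ (S' : Subgroup X)) := by
  classical
  set f : Sylow p X → Set X := fun T => {u | u ∈ V p ∧ u ∈ (T : Subgroup X)} with hf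
  suffices key : ∀ W : Set X, ∀ T T' : Sylow p X, W = f T ∩ f T' → (∃ u ∈ W, u ≠ 1) → f T = f T' by
    have h := key _ S S' rfl ⟨v, ⟨⟨hv, hvS⟩, hv, hvS'⟩, hv1⟩
    intro u hu
    have h' := congrArg (u ∈ ·) h
    simp only [hf, Set.mem_ofPred_eq, hu, true_and, eq_iff_iff] at h'
    exact h'
  intro W
  refine (Finite.wellFounded_of_trans_of_irrefl (α := Set X) (· > ·)).induction
    (C := fun W => ∀ T T' : Sylow p X, W = f T ∩ f T' → (∃ u ∈ W, u ≠ 1) → f T = f T') W ?_
  intro W ih T T' hW hne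
  by_contra hTT'
  set B := closure W with hB
  have hBne : B ≠ ⊥ := fun e => by
    obtain ⟨u, hu, hu1⟩ := hne
    exact hu1 (mem_bot.1 (e ▸ subset_closure hu))
  have hBT : B ≤ (T : Subgroup X) := (closure_le _).2 fun u hu => ((hW ▸ hu : u ∈ f T ∩ f T')).1.2
  have hBp : IsPGroup p B := T.2.to_le hBT
  obtain ⟨M, hM, hBM⟩ := (eq_top_or_exists_le_coatom (normalizer (B : Set X))).resolve_left
    (normalizer_ne_top hnc hBne (ne_top_of_isPGroup hnc hBp))
  obtain ⟨u0, hu0, hu01⟩ := hne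
  have hu0' : u0 ∈ f T ∩ f T' := hW ▸ hu0
  obtain ⟨S'', -, hiff, -⟩ := exists_sylow_of_value hV hnc hM
    (hBM (le_normalizer (subset_closure hu0))) hu0'.1.1 hu01
  -- a further value normalising `B`
  have hgrow : ∀ T₁ : Sylow p X, W ⊂ f T₁ → ∃ u ∈ f T₁, u ∉ W ∧ u ∈ normalizer (B : Set X) := by
    intro T₁ hlt
    by_contra hcon
    push Not at hcon
    have hBT1 : B ≤ (T₁ : Subgroup X) := (closure_le _).2 fun u hu => (hlt.1 hu).2
    set N1 := (T₁ : Subgroup X) ⊓ normalizer (B : Set X)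
    have hN1 : N1 = (T₁ : Subgroup X) := by
      refine CfsgLib.HallClasses.MaxCent.eq_of_self_normalizing T₁.2 inf_le_left fun s hs hsn => ?_
      have hle : B.map (MulAut.conj s).toMonoidHom ≤ B := by
        rw [hB, MonoidHom.map_closure, closure_le]
        rintro _ ⟨u, hu, rfl⟩
        have huN : u ∈ N1 := ⟨(hlt.1 hu).2, le_normalizer (subset_closure hu)⟩
        have h2 := (mem_normalizer_iff.1 hsn u).1 huN
        by_contra hc
        refine hcon _ ⟨hV.conj_mem p u (hlt.1 hu).1 s, h2.1⟩ (fun hW' => hc ?_) h2.2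
        exact subset_closure hW'
      exact ⟨hs, mem_normalizer_of_map_eq (eq_of_le_of_card_ge hle
        (by rw [card_map_of_injective (MulAut.conj s).injective]))⟩
    obtain ⟨u, hu, huW⟩ := Set.exists_of_ssubset hlt
    exact hcon u hu huW (hN1.ge hu.2).2
  have hstep : ∀ T₁ : Sylow p X, W ⊂ f T₁ → f T₁ = f S'' := by
    intro T₁ hlt
    obtain ⟨u, hu, huW, hun⟩ := hgrow T₁ hlt
    have hsub : W ⊆ f T₁ ∩ f S'' := fun w hw =>
      ⟨hlt.1 hw, (hlt.1 hw).1, (hiff w (hlt.1 hw).1).1 (hBM (le_normalizer (subset_closure hw)))⟩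
    have hlt' : W < f T₁ ∩ f S'' :=
      lt_of_le_of_ne hsub fun e => huW (e.ge ⟨hu, hu.1, (hiff u hu.1).1 (hBM hun)⟩)
    exact ih _ hlt' T₁ S'' rfl ⟨u0, hsub hu0, hu01⟩
  have hWT : W ⊆ f T := hW ▸ Set.inter_subset_left
  have hWT' : W ⊆ f T' := hW ▸ Set.inter_subset_right
  rcases hWT.ssubset_or_eq with h1 | h1
  · rcases hWT'.ssubset_or_eq with h2 | h2
    · exact hTT' ((hstep T h1).trans (hstep T' h2).symm)
    · -- `f T' = W ⊂ f T` is impossible by conjugacy
      obtain ⟨g, hg⟩ := MulAction.exists_smul_eq X T T'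
      have hsub : (fun u => g * u * g⁻¹) '' f T ⊆ f T' := by
        rintro _ ⟨u, hu, rfl⟩
        refine ⟨hV.conj_mem p u hu.1 g, ?_⟩
        rw [← hg, Sylow.coe_subgroup_smul]
        exact ⟨u, hu.2, rfl⟩
      have hcard := Set.ncard_le_ncard hsub (Set.toFinite _)
      rw [Set.ncard_image_of_injective _ (fun a b hab => by simpa using hab), ← h2] at hcard
      exact absurd hcard (not_le.2 (Set.ncard_lt_ncard h1 (Set.toFinite _)))
  · obtain ⟨g, hg⟩ := MulAction.exists_smul_eq X T' T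
    have hsub : (fun u => g * u * g⁻¹) '' f T' ⊆ f T := by
      rintro _ ⟨u, hu, rfl⟩
      refine ⟨hV.conj_mem p u hu.1 g, ?_⟩
      rw [← hg, Sylow.coe_subgroup_smul]
      exact ⟨u, hu.2, rfl⟩
    have hcard := Set.ncard_le_ncard hsub (Set.toFinite _)
    rw [Set.ncard_image_of_injective _ (fun a b hab => by simpa using hab)] at hcard
    exact hTT' (Set.eq_of_subset_of_ncard_le (h1 ▸ hWT') hcard (Set.toFinite _))

include hV hnc in
/-- A nontrivial value lies in only one maximal subgroup. -/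
theorem eq_of_value_mem {M M' : Subgroup X} (hM : IsCoatom M) (hM' : IsCoatom M') {p : ℕ}
    [Fact p.Prime] {v : X} (hv : v ∈ V p) (hv1 : v ≠ 1) (hvM : v ∈ M) (hvM' : v ∈ M') : M = M' := by
  obtain ⟨S, -, hiff, hS⟩ := exists_sylow_of_value hV hnc hM hvM hv hv1
  obtain ⟨S', -, hiff', hS'⟩ := exists_sylow_of_value hV hnc hM' hvM' hv hv1
  have h := values_eq hV hnc hv hv1 ((hiff v hv).1 hvM) ((hiff' v hv).1 hvM')
  rw [hS, hS', show {u | u ∈ V p ∧ u ∈ (S : Subgroup X)} = {u | u ∈ V p ∧ u ∈ (S' : Subgroup X)}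
    from Set.ext fun u => and_congr_right fun hu => h u hu]

end ValueSystem

end CfsgLib.HallClasses.Gamma
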