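import Mathlib
import Cfsg.Agent.Lib.HallClasses.MaximalCentralizersBasic

/-!
Values of left-normed commutators, and the consequence of the Baumslag–Wiegold condition for them.
-/

set_option autoImplicit false

namespace CfsgLib.HallClasses.Gamma

open Subgroup
open scoped commutatorElement

variable {G H : Type*} [Group G] [Group H]

/-- Values of the left-normed commutator word in `n + 1` variables. -/
def Val : ℕ → G → Prop
  | 0, _ => True
  | n + 1, g => ∃ a b : G, Val n a ∧ g = ⁅a, b⁆

theorem val_map (f : G →* H) : ∀ {n : ℕ} {g : G}, Val n g → Val n (f g)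
  | 0, _, _ => trivial
  | _ + 1, _, ⟨a, b, ha, he⟩ => ⟨f a, f b, val_map f ha, by rw [he, map_commutatorElement]⟩

theorem exists_val_lift (f : G →* H) (hf : Function.Surjective f) :
    ∀ {n : ℕ} {h : H}, Val n h → ∃ g : G, Val n g ∧ f g = h
  | 0, h, _ => (hf h).elim fun g hg => ⟨g, trivial, hg⟩
  | _ + 1, _, ⟨a, b, ha, he⟩ => by
      obtain ⟨a', ha', rfl⟩ := exists_val_lift f hf ha
      obtain ⟨b', rfl⟩ := hf b
      exact ⟨⁅a', b'⁆, ⟨a', b', ha', rfl⟩, by rw [he, map_commutatorElement]⟩

theorem val_conj {n : ℕ} {g : G} (hg : Val n g) (c : G) : Val n (c * g * c⁻¹) :=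
  val_map (MulAut.conj c).toMonoidHom hg

theorem Val.mem_lowerCentralSeries :
    ∀ {n : ℕ} {g : G}, Val n g → g ∈ (⊤ : Subgroup G).lowerCentralSeries n
  | 0, _, _ => mem_top _
  | _ + 1, _, ⟨_, _, ha, he⟩ => he ▸ commutator_mem_commutator (Val.mem_lowerCentralSeries ha) (mem_top _)

/-- A group without nontrivial values has trivial series term. -/
theorem lowerCentralSeries_eq_bot_of_val : ∀ (n : ℕ) (Q : Type*) [Group Q],
    (∀ g : Q, Val n g → g = 1) → (⊤ : Subgroup Q).lowerCentralSeries n = ⊥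
  | 0, Q, _, h => (Subgroup.eq_bot_iff_forall _).2 fun g _ => h g trivial
  | n + 1, Q, _, h => by
    have hc : ∀ g : Q, Val n g → g ∈ center Q := fun g hg => mem_center_iff.2 fun b =>
      (commutatorElement_eq_one_iff_mul_comm.1 (h _ ⟨g, b, hg, rfl⟩)).symm
    have h1 := lowerCentralSeries_eq_bot_of_val n (Q ⧸ center Q) fun g hg => by
      obtain ⟨g', hg', rfl⟩ := exists_val_lift (QuotientGroup.mk' _) (QuotientGroup.mk'_surjective _) hg
      exact (QuotientGroup.eq_one_iff g').2 (hc g' hg')
    rw [← map_top_of_surjective _ (QuotientGroup.mk'_surjective (center Q)),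
      ← map_lowerCentralSeries, Subgroup.map_eq_bot_iff, QuotientGroup.ker_mk'] at h1
    rw [Subgroup.lowerCentralSeries_succ, commutator_eq_bot_iff_le_centralizer]
    intro g hg
    exact mem_centralizer_iff.2 fun b _ => mem_center_iff.1 (h1 hg) b

/-- The values in terms of left folds. -/
theorem val_iff_foldl : ∀ (n : ℕ) (g : G), Val n g ↔ ∃ f : Fin (n + 1) → G,
    g = ((List.ofFn f).tail).foldl (fun a b => a * b * a⁻¹ * b⁻¹) (f 0)
  | 0, g => ⟨fun _ => ⟨fun _ => g, by simp⟩, fun _ => trivial⟩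
  | n + 1, g => by
    constructor
    · rintro ⟨a, b, ha, rfl⟩
      obtain ⟨f, rfl⟩ := (val_iff_foldl n a).1 ha
      refine ⟨Fin.snoc f b, ?_⟩
      rw [List.ofFn_succ' (f := Fin.snoc f b), List.concat_eq_append,
        List.tail_append_of_ne_nil (by simp), List.foldl_append]
      simp [commutatorElement_def]
    · rintro ⟨f, rfl⟩
      refine ⟨_, f (Fin.last _), (val_iff_foldl n _).2 ⟨fun i => f i.castSucc, rfl⟩, ?_⟩
      rw [List.ofFn_succ' (f := f), List.concat_eq_append,
        List.tail_append_of_ne_nil (by simp), List.foldl_append]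
      simp [commutatorElement_def]

/-- The iterated commutator with a fixed element. -/
def iter (y b : G) : ℕ → G
  | 0 => b
  | n + 1 => ⁅iter y b n, y⁆

theorem val_iter (y b : G) : ∀ n : ℕ, Val n (iter y b n)
  | 0 => trivial
  | n + 1 => ⟨_, y, val_iter y b n, rfl⟩

theorem mem_normalizer_of_map_eq {H : Subgroup G} {g : G}
    (h : H.map (MulAut.conj g).toMonoidHom = H) : g ∈ normalizer (H : Set G) := by
  refine mem_normalizer_iff.2 fun x => ⟨fun hx => h.le ⟨x, hx, rfl⟩, fun hx => ?_⟩
  obtain ⟨y, hy, he⟩ := h.ge hx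
  rwa [← (MulAut.conj g).injective (he : MulAut.conj g y = MulAut.conj g x)]

theorem val_iter_succ {k : ℕ} {y : G} (hy : Val k y) (b : G) :
    Val k (iter y b (max k 1)) := by
  rcases Nat.eq_zero_or_pos k with rfl | hk
  · trivial
  · rw [max_eq_left hk]
    exact val_iter y b k

theorem map_iter (f : G →* H) (y b : G) : ∀ n : ℕ, f (iter y b n) = iter (f y) (f b) n
  | 0 => rfl
  | n + 1 => by rw [iter, iter, map_commutatorElement, map_iter f y b n]

theorem commutator_mem_of_normalizer {D : Subgroup G} {y c : G} (hy : y ∈ normalizer (D : Set G))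
    (hc : c ∈ D) : ⁅c, y⁆ ∈ D := by
  rw [commutatorElement_def, mul_assoc, mul_assoc, ← mul_assoc y]
  exact mul_mem hc ((mem_normalizer_iff.1 hy _).1 (inv_mem hc))

theorem iter_mem {D : Subgroup G} {y b : G} (hy : y ∈ normalizer (D : Set G)) (hb : b ∈ D) :
    ∀ n : ℕ, iter y b n ∈ D
  | 0 => hb
  | n + 1 => commutator_mem_of_normalizer hy (iter_mem hy hb n)

theorem eq_one_of_commute_commutator {D : Subgroup G} [Finite G] {y c : G}
    (hy : y ∈ normalizer (D : Set G)) (hc : c ∈ D) (hcop : (orderOf y).Coprime (Nat.card D))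
    (h : Commute ⁅c, y⁆ y) : ⁅c, y⁆ = 1 := by
  have e : c * y * c⁻¹ = ⁅c, y⁆ * y := by simp [commutatorElement_def, mul_assoc]
  have h1 : ⁅c, y⁆ ^ orderOf y = 1 := by
    have := congrArg (· ^ orderOf y) e
    simp only [conj_pow, h.mul_pow, pow_orderOf_eq_one, mul_one, mul_inv_cancel] at this
    exact this.symm
  refine orderOf_eq_one_iff.1 (Nat.eq_one_of_dvd_coprimes hcop (orderOf_dvd_of_pow_eq_one h1) ?_)
  exact Subgroup.orderOf_dvd_natCard D (commutator_mem_of_normalizer hy hc)

/-- A vanishing iterated commutator with an element of coprime order gives a trivial action. -/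
theorem commute_of_iter [Finite G] {D : Subgroup G} {y b : G} (hy : y ∈ normalizer (D : Set G))
    (hb : b ∈ D) (hcop : (orderOf y).Coprime (Nat.card D)) :
    ∀ n : ℕ, iter y b (n + 1) = 1 → Commute b y
  | 0, h => commutatorElement_eq_one_iff_mul_comm.1 h
  | n + 1, h => commute_of_iter hy hb hcop n
      (eq_one_of_commute_commutator hy (iter_mem hy hb n) hcop
        (commutatorElement_eq_one_iff_mul_comm.1 h))

/-- The property of values used in the proof: they centralise the subgroups of coprime order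
which they normalise. -/
def Centralizes (k : ℕ) (G : Type*) [Group G] : Prop :=
  ∀ (v : G) (D : Subgroup G), Val k v → v ∈ normalizer (D : Set G) →
    (orderOf v).Coprime (Nat.card D) → v ∈ centralizer (D : Set G)

/-- The Baumslag–Wiegold condition on values. -/
def Cond (k : ℕ) (G : Type*) [Group G] : Prop :=
  ∀ x y : G, Val k x → Val k y → (orderOf x).Coprime (orderOf y) →
    (∀ r : ℕ, r.Prime → r ∣ orderOf x * orderOf y → r ∣ orderOf (x * y)) ∨
      orderOf x * orderOf y ≤ orderOf (x * y)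

theorem centralizes_of_cond [Finite G] {k : ℕ} (h : Cond k G) : Centralizes k G := by
  intro v D hv hn hcop
  refine mem_centralizer_iff.2 fun b hb => ?_
  obtain ⟨m, hm⟩ : ∃ m, max k 1 = m + 1 := ⟨max k 1 - 1, by omega⟩
  refine commute_of_iter hn hb hcop m ?_
  set x := iter v b (m + 1) with hx
  have hxD : x ∈ D := iter_mem hn hb _
  have hxv : orderOf (x * v) = orderOf v := by
    have e : x * v = MulAut.conj (iter v b m) v := by
      rw [hx, iter]
      simp [commutatorElement_def, mul_assoc]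
    rw [e, MulEquiv.orderOf_eq]
  have hc : (orderOf x).Coprime (orderOf v) :=
    (hcop.coprime_dvd_right (Subgroup.orderOf_dvd_natCard D hxD)).symm
  have hxval : Val k x := by
    rw [hx, ← hm]
    exact val_iter_succ hv b
  rcases h x v hxval hv hc with h1 | h1
  · rw [hxv] at h1
    by_contra hne
    obtain ⟨r, hr, hrd⟩ := Nat.exists_prime_and_dvd (n := orderOf x)
      fun e => hne (orderOf_eq_one_iff.1 e)
    exact hr.ne_one (Nat.eq_one_of_dvd_coprimes hc hrd (h1 r hr (dvd_mul_of_dvd_left hrd _)))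
  · rw [hxv] at h1
    have h2 : orderOf x ≤ 1 := Nat.le_of_mul_le_mul_right (by rwa [one_mul]) (orderOf_pos v)
    exact orderOf_eq_one_iff.1 (le_antisymm h2 (orderOf_pos x))

theorem Centralizes.subgroup {k : ℕ} (h : Centralizes k G) (S : Subgroup G) : Centralizes k S := by
  intro v D hv hn hcop
  have h1 := h (v : G) (D.map S.subtype) (val_map S.subtype hv)
    (le_normalizer_map S.subtype ⟨v, hn, rfl⟩)
    (by rwa [orderOf_coe, card_map_of_injective S.subtype_injective])
  refine mem_centralizer_iff.2 fun b hb => Subtype.ext ?_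
  exact mem_centralizer_iff.1 h1 b (mem_map_of_mem S.subtype hb)

/-- An element acting nontrivially, by coprime action, on a section produces a nontrivial value. -/
theorem exists_val_of_acts [Finite G] (k : ℕ) (R : Subgroup G) [R.Normal] {S : Subgroup G}
    {h b : G} (hh : h ∈ normalizer (S : Set G)) (hb : b ∈ S)
    (hcop : (orderOf (QuotientGroup.mk' R h)).Coprime
      (Nat.card (S.map (QuotientGroup.mk' R))))
    (hne : ¬ Commute (QuotientGroup.mk' R b) (QuotientGroup.mk' R h)) :
    ∃ v ∈ S, Val k v ∧ v ∉ R := by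
  obtain ⟨m, hm⟩ : ∃ m, max k 1 = m + 1 := ⟨max k 1 - 1, by omega⟩
  refine ⟨iter h b (max k 1), iter_mem hh hb _, ?_, fun hR => hne ?_⟩
  · rcases Nat.eq_zero_or_pos k with rfl | hk
    · trivial
    · rw [max_eq_left hk]
      exact val_iter h b k
  · refine commute_of_iter (le_normalizer_map _ ⟨h, hh, rfl⟩) (mem_map_of_mem _ hb) hcop m ?_
    rw [← map_iter, ← hm]
    exact (QuotientGroup.eq_one_iff _).2 hR

/-- A Sylow subgroup of the preimage of a `p`-subgroup, and the Frattini argument. -/
theorem exists_sylow_lift [Finite G] {p : ℕ} [Fact p.Prime] (R : Subgroup G) [R.Normal]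
    {Db : Subgroup (G ⧸ R)} (hD : IsPGroup p Db) :
    ∃ S : Subgroup G, IsPGroup p S ∧ S.map (QuotientGroup.mk' R) = Db ∧
      ∀ hb ∈ normalizer (Db : Set (G ⧸ R)),
        ∃ t ∈ normalizer (S : Set G), QuotientGroup.mk' R t = hb := by
  set π := QuotientGroup.mk' R
  have hπ : Function.Surjective π := QuotientGroup.mk'_surjective R
  set D := Db.comap π with hDdef
  have hRD : R ≤ D := fun r hr => by
    rw [hDdef, mem_comap, show π r = 1 from (QuotientGroup.eq_one_iff r).2 hr]
    exact one_mem _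
  obtain ⟨P⟩ := (inferInstance : Nonempty (Sylow p D))
  set S := (P : Subgroup D).map D.subtype with hS
  have hSp : IsPGroup p S := P.2.map _
  have hSD : S ≤ D := map_subtype_le _
  have hSmap : S.map π = Db := by
    let f : D →* Db := π.subgroupComap Db
    have hf : Function.Surjective f := π.subgroupComap_surjective_of_surjective Db hπ
    have : ((P : Subgroup D).map f : Subgroup Db) = ⊤ := ((P.mapSurjective hf).is_maximal' (hD.to_subgroup ⊤) le_top).symm
    refine le_antisymm ?_ fun t ht => ?_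
    · exact (map_mono hSD).trans (map_comap_le _ _)
    · have h1 : (⟨t, ht⟩ : Db) ∈ (P : Subgroup D).map f := this.ge (mem_top _)
      obtain ⟨d, hd, hde⟩ := h1
      exact ⟨d, ⟨d, hd, rfl⟩, congrArg Subtype.val hde⟩
  refine ⟨S, hSp, hSmap, fun hb hn => ?_⟩
  obtain ⟨g, rfl⟩ := hπ hb
  have hgD : g ∈ normalizer (D : Set G) := by
    refine mem_normalizer_iff.2 fun a => ?_
    simp only [hDdef, mem_comap, map_mul, map_inv]
    exact mem_normalizer_iff.1 hn (π a)
  obtain ⟨a, ha, c, hc, hac⟩ : ∃ a ∈ D, ∃ c ∈ normalizer (S : Set G), g = a * c := by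
    -- the Frattini argument
    let φ : D ≃* D :=
      { toFun := fun d => ⟨g * d * g⁻¹, (mem_normalizer_iff.1 hgD d).1 d.2⟩
        invFun := fun d => ⟨g⁻¹ * d * g, (mem_normalizer_iff''.1 hgD d).1 d.2⟩
        left_inv := fun d => Subtype.ext (by simp [mul_assoc])
        right_inv := fun d => Subtype.ext (by simp [mul_assoc])
        map_mul' := fun d e => Subtype.ext (by simp [mul_assoc]) }
    obtain ⟨d, hd⟩ := MulAction.exists_smul_eq D (P.mapSurjective (f := φ.toMonoidHom) φ.surjective) P
    refine ⟨(d : G)⁻¹, inv_mem d.2, (d : G) * g, ?_, by group⟩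
    refine mem_normalizer_of_map_eq (H := S) ?_
    have h1 := congrArg (fun Q : Sylow p D => (Q : Subgroup D).map D.subtype) hd
    simp only [Sylow.coe_subgroup_smul] at h1
    rw [hS]
    conv_rhs => rw [← h1]
    ext z
    simp only [Subgroup.mem_map, Subgroup.mem_pointwise_smul_iff_inv_smul_mem]
    constructor
    · rintro ⟨_, ⟨x, hx, rfl⟩, rfl⟩
      refine ⟨d * φ x * d⁻¹, ?_, ?_⟩
      · refine ⟨x, hx, ?_⟩
        simp [MulAut.smul_def, φ]
        group
      · simp [φ, mul_assoc]
    · rintro ⟨w, ⟨x, hx, hxw⟩, rfl⟩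
      refine ⟨x, ⟨x, hx, rfl⟩, ?_⟩
      have : w = d * φ x * d⁻¹ := by
        simp only [MulAut.smul_def, ← map_inv, MulAut.conj_apply, inv_inv] at hxw
        rw [show φ.toMonoidHom x = φ x from rfl] at hxw
        rw [hxw]
        group
      rw [this]
      simp [φ, mul_assoc]
  obtain ⟨s, hs, hse⟩ : π a ∈ S.map π := hSmap.ge ha
  exact ⟨s * c, mul_mem (le_normalizer hs) hc, by rw [map_mul, hse, ← map_mul, hac]⟩

/-- Lifting a prime-power element into the normaliser of a Sylow subgroup. -/
theorem exists_lift_normalizer [Finite G] {p q : ℕ} [Fact p.Prime] [Fact q.Prime] (R : Subgroup G)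
    [R.Normal] {Db : Subgroup (G ⧸ R)} (hD : IsPGroup p Db) {hb : G ⧸ R}
    (hn : hb ∈ normalizer (Db : Set (G ⧸ R))) (hq : ∃ j, hb ^ q ^ j = 1) :
    ∃ (S : Subgroup G) (h : G), IsPGroup p S ∧ S.map (QuotientGroup.mk' R) = Db ∧
      h ∈ normalizer (S : Set G) ∧ (∃ j, orderOf h = q ^ j) ∧ QuotientGroup.mk' R h = hb := by
  obtain ⟨S, hSp, hSmap, hS⟩ := exists_sylow_lift R hD
  obtain ⟨t, htn, rfl⟩ := hS hb hn
  set π := QuotientGroup.mk' R
  obtain ⟨j, hj⟩ := hq
  obtain ⟨u, hu, hup, z, hz, he⟩ := CfsgLib.HallClasses.MaxCent.exists_lift_pElement (p := q) R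
    (g := t) (j := j) ((QuotientGroup.eq_one_iff _).1 (by
      show π (t ^ q ^ j) = 1
      rw [map_pow, hj]))
  refine ⟨S, u, hSp, hSmap, (zpowers_le.2 htn) hu, hup, ?_⟩
  rw [he, map_mul, show π z = 1 from (QuotientGroup.eq_one_iff z).2 hz, mul_one]

end CfsgLib.HallClasses.Gamma
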