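import Cfsg.Agent.Lib.HallClasses.MaximalCentralizers
import Cfsg.Agent.Lib.Frobenius.Kernel

/-!
The Frobenius structure of `N / Z(N)` when all noncentral elements of `N` have maximal centralisers.
-/

set_option autoImplicit false
set_option linter.unusedSectionVars false
set_option linter.style.haveILetI false

namespace CfsgLib.HallClasses.MaxCent

open Subgroup

universe u

variable {G : Type u} [Group G] [Finite G] {N : Subgroup G} [N.Normal]

/-- The structure of `N / Z(N)` in the non-`p`-group case. -/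
theorem exists_structure (h : Hyp N) (hnp : ∀ p : ℕ, p.Prime → ¬ IsPGroup p (N.map (pr N))) :
    ∃ (p q : ℕ) (K Q : Subgroup (G ⧸ zn N)), p.Prime ∧ q.Prime ∧ p ≠ q ∧ K.Normal ∧
      K ≤ N.map (pr N) ∧ Q ≤ N.map (pr N) ∧ Cfsg.IsElementaryAbelian p K ∧ K ≠ ⊥ ∧
      Nat.card Q = q ∧ K ⊓ Q = ⊥ ∧ N.map (pr N) ≤ K ⊔ Q ∧
      (∀ t ∈ Q, t ≠ 1 → ∀ k ∈ K, t * k = k * t → k = 1) ∧
      (∀ B : Subgroup (G ⧸ zn N), B.Normal → B ≤ K → B = ⊥ ∨ B = K) := by
  obtain ⟨x, hx, hab, hself⟩ := exists_abelian h hnp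
  set M := nc N x with hMdef
  set Mb := M.map (pr N) with hMb
  set Nb := N.map (pr N) with hNb
  have hxM : x ∈ M := hx.mem_nc
  -- every noncentral element of `M` has `M` as centraliser in `N`
  have hu : ∀ u ∈ M, Nonc N u → nc N u = M := by
    intro u hu hun
    have hle : M ≤ nc N u := fun m hm =>
      ⟨mem_cent_iff.2 (congrArg Subtype.val (hab.is_comm.comm ⟨u, hu⟩ ⟨m, hm⟩)), hm.2⟩
    refine le_antisymm ?_ hle
    by_contra hne
    have hna : ¬ IsMulCommutative (nc N u) := fun hc => hne fun m hm =>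
      ⟨mem_cent_iff.2 (congrArg Subtype.val (hc.is_comm.comm ⟨x, hle hxM⟩ ⟨m, hm⟩)), hm.2⟩
    obtain ⟨p, hp, hp'⟩ := exists_prime_of_not_comm h hun hna
    haveI := Fact.mk hp
    have heq := eq_of_self_normalizing (isPGroup_map_of_parts inf_le_right hp') (map_mono hle)
      fun s hs hsn => by
        obtain ⟨n, hn, rfl⟩ := hs
        exact mem_map_of_mem _ (mem_nc_of_normalizer hself hx.1 hn.2 hsn)
    exact hne fun m hm => mem_of_pr_mem (zn_le_nc hx.1) (heq.ge (mem_map_of_mem _ hm))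
  have hMN : Mb ≤ Nb := nc_map_le x
  set H := Mb.subgroupOf Nb with hH
  have hxb : pr N x ∈ Mb := mem_map_of_mem _ hxM
  have hF : Cfsg.IsFrobeniusComplement H := by
    refine ⟨fun e => hx.pr_ne_one ?_, fun e => nc_ne hx ?_, fun g hg => ?_⟩
    · have h1 : (⟨_, hMN hxb⟩ : Nb) ∈ H := hxb
      rw [e, mem_bot] at h1
      exact congrArg Subtype.val h1
    · refine le_antisymm inf_le_right fun n hn => mem_of_pr_mem (zn_le_nc hx.1) ?_
      exact (e.ge (mem_top (⟨_, mem_map_of_mem (pr N) hn⟩ : Nb)) :)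
    refine (eq_bot_iff_forall _).2 fun t ht => ?_
    obtain ⟨ht1, ht2⟩ := mem_inf.1 ht
    rw [CfsgLib.Frobenius.mem_conj_smul] at ht2
    obtain ⟨n, hn, hne⟩ := g.2
    obtain ⟨u, hu1, hue⟩ := (ht1 : (t : G ⧸ zn N) ∈ Mb)
    replace hue : pr N u = (t : G ⧸ zn N) := hue
    by_contra htne
    have hun : Nonc N u := notMem_centralizer_of_notMem hu1.2 fun hz =>
      htne (Subtype.ext (hue ▸ pr_eq_one.2 hz))
    have hu2 : n⁻¹ * u * n ∈ M := by
      refine mem_of_pr_mem (zn_le_nc hx.1) ?_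
      have h2 : ((g⁻¹ * t * g : Nb) : G ⧸ zn N) ∈ Mb := ht2
      simp only [Subgroup.coe_mul, Subgroup.coe_inv, ← hne, ← hue] at h2
      rw [map_mul, map_mul, map_inv]
      exact h2
    have hun' : Nonc N (n⁻¹ * u * n) := by
      refine notMem_centralizer_of_notMem hu2.2 fun hz => htne (Subtype.ext ?_)
      have h3 := pr_eq_one.2 hz
      rw [map_mul, map_mul, map_inv, mul_eq_one_iff_eq_inv, inv_mul_eq_iff_eq_mul] at h3
      rw [← hue, h3]
      simp
    have hnM : n ∈ nc N x := by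
      refine ⟨hself ▸ CfsgLib.CoprimeAction.mem_normalizer_of_conj_mem (g := n) ?_, hn⟩
      intro m hm
      have hmu : Commute (n⁻¹ * u * n) m :=
        mem_cent_iff.1 ((hu _ hu2 hun').ge hm).1
      refine (hu u hu1 hun).le ⟨mem_cent_iff.2 ?_, Normal.conj_mem inferInstance m hm.2 n⟩
      show u * (n * m * n⁻¹) = n * m * n⁻¹ * u
      calc u * (n * m * n⁻¹) = n * ((n⁻¹ * u * n) * m) * n⁻¹ := by group
        _ = n * (m * (n⁻¹ * u * n)) * n⁻¹ := by rw [hmu.eq]
        _ = n * m * n⁻¹ * u := by group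
    exact hg (show (g : G ⧸ zn N) ∈ Mb from hne ▸ mem_map_of_mem _ hnM)
  obtain ⟨K0, hK0e, hK0, hc⟩ := CfsgLib.Frobenius.exists_kernel hF
  haveI := hK0
  have hnil : Group.IsNilpotent K0 :=
    CfsgLib.NormalPComplement.isNilpotent_frobeniusKernel hF K0 hK0e
  have hcopHK : (Nat.card H).Coprime (Nat.card K0) := by
    rw [← hc.index_eq_card]
    exact CfsgLib.Frobenius.coprime_card_index hF
  set K := K0.map Nb.subtype with hKdef
  haveI hNbn : Nb.Normal := Normal.map inferInstance _ (QuotientGroup.mk'_surjective _)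
  haveI hKn : K.Normal := by
    refine ⟨?_⟩
    rintro _ ⟨k, hk, rfl⟩ g
    let t : Nb := ⟨g * k * g⁻¹, hNbn.conj_mem _ k.2 g⟩
    refine ⟨t, ?_, rfl⟩
    have hto : orderOf t ∣ Nat.card K0 := by
      have : orderOf t = orderOf k := by
        rw [← orderOf_coe, ← orderOf_coe k]
        exact MulEquiv.orderOf_eq (MulAut.conj g) (k : G ⧸ zn N)
      rw [this]
      exact orderOf_dvd_natCard K0 hk
    have h1 := K0.pow_index_mem t
    rw [hc.symm.index_eq_card] at h1
    exact (zpowers_le.2 h1) (mem_zpowers_pow_iff.2 (hcopHK.coprime_dvd_right hto))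
  have hdis : ∀ t ∈ K, t ∈ Mb → t = 1 := by
    rintro _ ⟨k, hk, rfl⟩ hm
    exact congrArg Subtype.val (disjoint_def.1 hc.disjoint hk (hm : k ∈ H))
  have hKne : K0 ≠ ⊥ := by
    intro e
    have := hc.symm.index_eq_card
    rw [e, index_bot] at this
    have h2 := CfsgLib.Frobenius.one_lt_index hF
    rw [hc.index_eq_card, e, card_bot] at h2
    omega
  have hKb : K ≠ ⊥ := fun e => hKne ((map_eq_bot_iff_of_injective _ Nb.subtype_injective).1 e)
  have hfpf0 := (CfsgLib.Frobenius.isFrobeniusComplement_iff_fpf K0 H hc hKne hF.1).1 hF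
  have hfpf : ∀ t ∈ Mb, t ≠ 1 → ∀ k ∈ K, t * k = k * t → k = 1 := by
    rintro t ht ht1 _ ⟨k, hk, rfl⟩ he
    exact congrArg Subtype.val (hfpf0 ⟨t, hMN ht⟩ ht (fun e => ht1 (congrArg Subtype.val e)) k hk
      (Subtype.ext he))
  have hKN : K ≤ Nb := map_subtype_le _
  have hsupN : ∀ t ∈ Nb, ∃ k ∈ K, ∃ m ∈ Mb, t = k * m := by
    intro t ht
    obtain ⟨k, hk, m, hm, he⟩ := CfsgLib.Frobenius.exists_eq_mul_of_sup_eq_top K0 H hc.sup_eq_top
      (⟨t, ht⟩ : Nb)
    exact ⟨k, ⟨k, hk, rfl⟩, m, hm, congrArg Subtype.val he⟩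
  have hAN : ∀ W : Subgroup (G ⧸ zn N), W ≤ Nb → W.comap (pr N) ≤ N := by
    intro W hW g hg
    exact mem_of_pr_mem inf_le_left (hW hg)
  have hncx : ∀ W : Subgroup (G ⧸ zn N), W ≤ K → W ≠ ⊥ →
      ¬ W.comap (pr N) ≤ centralizer ({x} : Set G) := by
    intro W hW hne hle
    refine hne ((eq_bot_iff_forall _).2 fun t ht => ?_)
    obtain ⟨g, rfl⟩ := QuotientGroup.mk'_surjective (zn N) t
    exact hdis _ (hW ht) (mem_map_of_mem (pr N) ⟨hle ht, hAN W (hW.trans hKN) ht⟩)
  have hmin : ∀ B : Subgroup (G ⧸ zn N), B.Normal → B ≤ K → B = ⊥ ∨ B = K := by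
    intro B hB hBK
    refine or_iff_not_imp_left.2 fun hne => le_antisymm hBK fun k hk => ?_
    haveI := hB
    obtain ⟨n, hn, rfl⟩ := hKN hk
    obtain ⟨a, ha, l, hl, rfl⟩ := exists_eq_mul (hAN B (hBK.trans hKN)) hx (hncx B hBK hne) h hn
    have h1 : pr N l = 1 := by
      refine hdis _ ?_ (mem_map_of_mem _ hl)
      have := K.mul_mem (K.inv_mem (hBK ha)) hk
      rwa [← map_inv, ← map_mul, inv_mul_cancel_left] at this
    rw [map_mul, h1, mul_one]
    exact ha
  -- the kernel is elementary abelian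
  obtain ⟨p, hp, hpd⟩ := Nat.exists_prime_and_dvd (n := Nat.card K0)
    fun e => hKne (card_eq_one.1 e)
  haveI := Fact.mk hp
  obtain ⟨S⟩ := (inferInstance : Nonempty (Sylow p K0))
  haveI hSn : (S : Subgroup K0).Normal :=
    Sylow.normal_of_normalizerCondition Group.normalizerCondition_of_isNilpotent S
  haveI := Sylow.characteristic_of_normal S hSn
  let e0 : K0 ≃* K := K0.equivMapOfInjective Nb.subtype Nb.subtype_injective
  have hpK : IsPGroup p K := by
    let SK : Sylow p K := S.comapOfInjective e0.symm.toMonoidHom e0.symm.injective (by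
      rw [MonoidHom.range_eq_top.2 e0.symm.surjective]; exact le_top)
    haveI : (SK : Subgroup K).Normal := by
      show ((S : Subgroup K0).comap e0.symm.toMonoidHom).Normal
      infer_instance
    haveI := Sylow.characteristic_of_normal SK inferInstance
    have hne : (SK : Subgroup K).map K.subtype ≠ ⊥ := fun e =>
      SK.ne_bot_of_dvd_card (Nat.card_congr e0.toEquiv ▸ hpd)
        ((map_eq_bot_iff_of_injective _ K.subtype_injective).1 e)
    have hle := (hmin _ inferInstance (map_subtype_le _)).resolve_left hne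
    exact (SK.2.map K.subtype).to_le hle.ge
  have helem := CfsgLib.HallClasses.isElementaryAbelian_of_minimal hp hpK hKb hmin
  have hKcomm : ∀ a ∈ K, ∀ b ∈ K, a * b = b * a := fun a ha b hb =>
    congrArg Subtype.val (helem.1.is_comm.comm ⟨a, ha⟩ ⟨b, hb⟩)
  -- the complement has prime order
  haveI hMbc : IsMulCommutative Mb := Subgroup.map_isMulCommutative M (pr N)
  obtain ⟨r, hr, hrd⟩ := Nat.exists_prime_and_dvd (n := Nat.card Mb)
    fun e => hx.pr_ne_one (mem_bot.1 (card_eq_one.1 e ▸ hxb))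
  haveI := Fact.mk hr
  have hMcomm : ∀ a ∈ Mb, ∀ b ∈ Mb, Commute a b := fun a ha b hb =>
    congrArg Subtype.val (hMbc.is_comm.comm ⟨a, ha⟩ ⟨b, hb⟩)
  let T : Subgroup (G ⧸ zn N) :=
    { carrier := {t | t ∈ Mb ∧ t ^ r = 1}
      one_mem' := ⟨Mb.one_mem, one_pow _⟩
      mul_mem' := fun {a b} ha hb => ⟨Mb.mul_mem ha.1 hb.1, by
        rw [(hMcomm a ha.1 b hb.1).mul_pow, ha.2, hb.2, one_mul]⟩
      inv_mem' := fun {a} ha => ⟨Mb.inv_mem ha.1, by rw [inv_pow, ha.2, inv_one]⟩ }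
  haveI hXn : (K ⊔ T).Normal := by
    refine normalizer_eq_top_iff.1 (top_le_iff.1 fun g _ => ?_)
    obtain ⟨g, rfl⟩ := QuotientGroup.mk'_surjective (zn N) g
    have htop : K.comap (pr N) ⊔ centralizer ({x} : Set G) = ⊤ :=
      (h x hx.1 hx.2).2 _ (lt_of_le_of_ne le_sup_right fun e =>
        hncx K le_rfl hKb (le_sup_left.trans e.ge))
    obtain ⟨a, ha, c, hc', rfl⟩ := mem_sup_of_normal_left.1 (htop.ge (mem_top g))
    rw [map_mul]
    refine mul_mem (le_normalizer (le_sup_left (b := T) ha)) ?_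
    refine CfsgLib.CoprimeAction.mem_normalizer_of_conj_mem fun t ht => ?_
    obtain ⟨k, hk, s, hs, rfl⟩ := mem_sup_of_normal_left.1 ht
    rw [← conj_mul]
    refine mul_mem (le_sup_left (b := T) (hKn.conj_mem k hk _)) (le_sup_right (a := K) ⟨?_, ?_⟩)
    · obtain ⟨m, hm, rfl⟩ := hs.1
      rw [← map_inv, ← map_mul, ← map_mul]
      exact mem_map_of_mem _ ((mem_normalizer_iff.1 (hself ▸ hc') m).1 hm)
    · rw [conj_pow, hs.2, mul_one, mul_inv_cancel]
  have hXN : K ⊔ T ≤ Nb := sup_le hKN fun t ht => hMN ht.1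
  obtain ⟨w, hw⟩ := exists_prime_orderOf_dvd_card' r hrd
  have hwT : (w : G ⧸ zn N) ∈ T := ⟨w.2, by
    rw [← hw, ← orderOf_coe, pow_orderOf_eq_one]⟩
  have hw1 : (w : G ⧸ zn N) ≠ 1 := fun e => by
    rw [← orderOf_coe, e, orderOf_one] at hw
    exact hr.ne_one hw.symm
  obtain ⟨k0, hk0, hk01⟩ := K.bot_or_exists_ne_one.resolve_left hKb
  obtain ⟨v, hv, rfl⟩ := hKN hk0
  have hvn : Nonc N v := notMem_centralizer_of_notMem hv fun hz => hk01 (pr_eq_one.2 hz)
  obtain ⟨u, hu', hue⟩ := w.2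
  have hnv : ¬ (K ⊔ T).comap (pr N) ≤ centralizer ({v} : Set G) := fun hle => hk01 (by
    refine hfpf _ w.2 hw1 _ hk0 ?_
    have h1 := mem_cent_iff.1 (hle (show u ∈ (K ⊔ T).comap (pr N) from
      le_sup_right (a := K) (hue ▸ hwT : pr N u ∈ T)))
    rw [← hue]
    exact (h1.map (pr N)).symm.eq)
  have hMT : Mb ≤ T := by
    rintro _ ⟨m, hm, rfl⟩
    obtain ⟨a, ha, l, hl, rfl⟩ := exists_eq_mul (hAN _ hXN) hvn hnv h hm.2
    have hlK : pr N l ∈ K := by
      have hl' : Commute (pr N v) (pr N l) := (mem_cent_iff.1 hl.1).map (pr N)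
      obtain ⟨k, hk, s, hs, he⟩ := hsupN _ (mem_map_of_mem (pr N) hl.2)
      by_cases hs1 : s = 1
      · rwa [he, hs1, mul_one]
      refine absurd (hfpf s hs hs1 _ hk0 ?_) hk01
      have e1 : k * s * pr N v = pr N v * (k * s) := by rw [← he]; exact hl'.symm.eq
      rw [← mul_assoc, ← hKcomm k hk _ hk0, mul_assoc, mul_assoc] at e1
      exact mul_left_cancel e1
    have hmX : pr N (a * l) ∈ K ⊔ T := by
      rw [map_mul]
      exact mul_mem ha (le_sup_left (b := T) hlK)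
    obtain ⟨k, hk, s, hs, he⟩ := mem_sup_of_normal_left.1 hmX
    have hk1 : k = 1 := by
      refine hdis k hk ?_
      have := Mb.mul_mem (mem_map_of_mem (pr N) hm) (Mb.inv_mem hs.1)
      rwa [← he, mul_inv_cancel_right] at this
    rw [← he, hk1, one_mul]
    exact hs
  have hcyc : IsCyclic Mb := CfsgLib.Cores.isCyclic_of_fpf hKb le_normalizer_of_normal fun t ht ht1 =>
    (CfsgLib.Frobenius.centralizer_inf_iff K Mb).2 hfpf t ht ht1
  obtain ⟨c, hcg⟩ := hcyc.exists_generator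
  have hcard : Nat.card Mb = r := by
    rw [← orderOf_eq_card_of_forall_mem_zpowers hcg]
    refine orderOf_eq_prime (Subtype.ext (hMT c.2).2) fun e => ?_
    subst e
    have := hcg w
    rw [zpowers_one_eq_bot, mem_bot] at this
    exact hw1 (by rw [this]; rfl)
  refine ⟨p, r, K, Mb, hp, hr, ?_, hKn, hKN, hMN, helem, hKb, hcard,
    (eq_bot_iff_forall _).2 fun t ht => hdis t ht.1 ht.2, fun t ht => ?_, hfpf, hmin⟩
  · rintro rfl
    have h1 : Nat.card H = p := by
      rw [← hcard]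
      exact Nat.card_congr (subgroupOfEquivOfLe hMN).toEquiv
    rw [h1] at hcopHK
    exact hp.coprime_iff_not_dvd.1 hcopHK hpd
  · obtain ⟨k, hk, m, hm, rfl⟩ := hsupN t ht
    exact mul_mem (le_sup_left (b := Mb) hk) (le_sup_right (a := K) hm)

end CfsgLib.HallClasses.MaxCent
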