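import Cfsg.Agent.Lib.HallClasses.MaximalCentralizersFrobenius

/-!
Transfer of the structure theorem to the quotient `N ⧸ Z(N)`.
-/

set_option autoImplicit false
set_option linter.unusedSectionVars false

namespace CfsgLib.HallClasses.MaxCent

open Subgroup

universe u

variable {G : Type u} [Group G] [Finite G] (N : Subgroup G) [N.Normal]

theorem mem_center_iff_mem_zn (n : N) : n ∈ center N ↔ (n : G) ∈ zn N := by
  rw [mem_center_iff, mem_inf, mem_centralizer_iff]
  exact ⟨fun h => ⟨n.2, fun g hg => congrArg Subtype.val (h ⟨g, hg⟩)⟩,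
    fun h g => Subtype.ext (h.2 g g.2)⟩

/-- The embedding of `N ⧸ Z(N)` into `G ⧸ Z(N)`. -/
def quotientHom : N ⧸ center N →* G ⧸ zn N :=
  QuotientGroup.lift (center N) ((pr N).comp N.subtype) fun n hn =>
    pr_eq_one.2 ((mem_center_iff_mem_zn N n).1 hn)

theorem quotientHom_injective : Function.Injective (quotientHom N) := by
  refine (injective_iff_map_eq_one _).2 fun a ha => ?_
  obtain ⟨n, rfl⟩ := QuotientGroup.mk_surjective a
  exact (QuotientGroup.eq_one_iff n).2 ((mem_center_iff_mem_zn N n).2 (pr_eq_one.1 ha))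

theorem quotientHom_range : (quotientHom N).range = N.map (pr N) := by
  ext t
  constructor
  · rintro ⟨a, rfl⟩
    obtain ⟨n, rfl⟩ := QuotientGroup.mk_surjective a
    exact ⟨n, n.2, rfl⟩
  · rintro ⟨n, hn, rfl⟩
    exact ⟨QuotientGroup.mk ⟨n, hn⟩, rfl⟩

theorem isElementaryAbelian_comap {H K : Type*} [Group H] [Group K] (f : H →* K)
    (hf : Function.Injective f) {p : ℕ} {A : Subgroup K} (hA : Cfsg.IsElementaryAbelian p A) :
    Cfsg.IsElementaryAbelian p (A.comap f) := by
  refine ⟨⟨⟨fun a b => Subtype.ext (hf ?_)⟩⟩, fun a ha => hf (by rw [map_pow, map_one]; exact hA.2 _ ha)⟩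
  simp only [Subgroup.coe_mul, map_mul]
  exact congrArg Subtype.val (hA.1.is_comm.comm ⟨f a, a.2⟩ ⟨f b, b.2⟩)

/-- The structure theorem for `N ⧸ Z(N)`. -/
theorem quotient_structure (h : Hyp N) :
    (∃ p : ℕ, p.Prime ∧ Cfsg.IsElementaryAbelian p (⊤ : Subgroup (N ⧸ center N))) ∨
    ∃ (p q : ℕ) (K Q : Subgroup (N ⧸ center N)), p.Prime ∧ q.Prime ∧ p ≠ q ∧ K.Normal ∧
      Cfsg.IsElementaryAbelian p K ∧ K ≠ ⊥ ∧ Nat.card Q = q ∧ K.IsComplement' Q ∧
      (∀ t ∈ Q, t ≠ 1 → ∀ k ∈ K, t * k = k * t → k = 1) ∧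
      (∀ B : Subgroup (G ⧸ zn N), B.Normal → B ≤ K.map (quotientHom N) →
        B = ⊥ ∨ B = K.map (quotientHom N)) := by
  set f := quotientHom N
  have hf := quotientHom_injective N
  have hr := quotientHom_range N
  by_cases hp : ∃ p : ℕ, p.Prime ∧ IsPGroup p (N.map (pr N))
  · obtain ⟨p, hp, hpg⟩ := hp
    haveI := Fact.mk hp
    have hall := elementary_of_isPGroup h hpg
    refine Or.inl ⟨p, hp, ⟨⟨fun a b => Subtype.ext ?_⟩⟩, fun a _ => ?_⟩
    · obtain ⟨m, hm⟩ := QuotientGroup.mk_surjective (a : N ⧸ center N)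
      obtain ⟨n, hn⟩ := QuotientGroup.mk_surjective (b : N ⧸ center N)
      show (a : N ⧸ center N) * b = b * a
      rw [← hm, ← hn]
      apply hf
      show pr N m * pr N n = pr N n * pr N m
      rw [← mul_inv_eq_one, ← map_mul, ← map_mul, ← map_inv, ← map_mul, pr_eq_one]
      simpa [mul_assoc] using (hall m m.2 n n.2).1
    · obtain ⟨m, rfl⟩ := QuotientGroup.mk_surjective a
      exact (QuotientGroup.eq_one_iff _).2 ((mem_center_iff_mem_zn N _).2
        (by simpa using (hall m m.2 m m.2).2))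
  · push Not at hp
    obtain ⟨p, q, K, Q, hp', hq, hpq, hK, hKN, hQN, hel, hKb, hcard, hinf, hsup, hfpf, hmin⟩ :=
      exists_structure h hp
    have hKe : (K.comap f).map f = K := map_comap_eq_self (by rw [hr]; exact hKN)
    have hQe : (Q.comap f).map f = Q := map_comap_eq_self (by rw [hr]; exact hQN)
    refine Or.inr ⟨p, q, K.comap f, Q.comap f, hp', hq, hpq, hK.comap f,
      isElementaryAbelian_comap f hf hel, fun e => hKb ?_, ?_, ?_, ?_, by rwa [hKe]⟩
    · rw [← hKe, e, Subgroup.map_bot]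
    · rw [← card_map_of_injective hf, hQe, hcard]
    · haveI := hK.comap f
      refine isComplement'_of_disjoint_and_mul_eq_univ ?_ ?_
      · rw [disjoint_def]
        intro a haK haQ
        refine hf ?_
        rw [map_one]
        exact (Subgroup.eq_bot_iff_forall _).1 hinf _ ⟨haK, haQ⟩
      · rw [← normal_mul, coe_eq_univ, eq_top_iff]
        intro a _
        have ha : f a ∈ (K.comap f ⊔ Q.comap f).map f := by
          rw [Subgroup.map_sup, hKe, hQe]
          exact hsup (hr.le ⟨a, rfl⟩)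
        obtain ⟨b, hb, hbe⟩ := ha
        exact hf hbe ▸ hb
    · intro t ht ht1 k hk he
      exact hf (by
        rw [map_one]
        exact hfpf _ ht (fun e => ht1 (hf (e.trans (map_one f).symm))) _ hk
          (by rw [← map_mul, ← map_mul, he]))

end CfsgLib.HallClasses.MaxCent
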