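import Mathlib
import Cfsg.Agent.S0713

/-!
For primes `q < p` a subgroup of the symmetric group of degree `p ^ a` (large enough) of index prime to
`p` and to `q` contains the alternating group.
-/

set_option autoImplicit false

namespace CfsgLib.HallClasses.SymmetricNoHall

open Equiv
open scoped Pointwise

theorem exists_conj_le {G : Type*} [Group G] [Finite G] {p : ℕ} [Fact p.Prime] {H K : Subgroup G}
    (hH : ¬ p ∣ H.index) (hK : IsPGroup p K) :
    ∃ g : G, ∀ k ∈ K, g * k * g⁻¹ ∈ H := by
  obtain ⟨R, hR⟩ := hK.exists_le_sylow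
  let S : Sylow p H := default
  obtain ⟨Q, hQ⟩ := ((S.2.map H.subtype)).exists_le_sylow
  have hQS : (Q : Subgroup G) = (S : Subgroup H).map H.subtype := by
    refine (Subgroup.eq_of_le_of_card_ge hQ (le_of_eq ?_)).symm
    rw [Subgroup.card_map_of_injective H.subtype_injective, Q.card_eq_multiplicity,
      S.card_eq_multiplicity, ← H.card_mul_index,
      Nat.factorization_mul Nat.card_pos.ne' Subgroup.index_ne_zero_of_finite, Finsupp.add_apply,
      Nat.factorization_eq_zero_of_not_dvd hH, add_zero]
  obtain ⟨g, hg⟩ := MulAction.exists_smul_eq G R Q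
  refine ⟨g, fun k hk => ?_⟩
  have h1 : g * k * g⁻¹ ∈ (Q : Subgroup G) := by
    rw [← hg]
    exact ⟨k, hR hk, rfl⟩
  rw [hQS] at h1
  exact Subgroup.map_subtype_le _ h1

variable {α : Type} [Fintype α] [DecidableEq α] {m q : ℕ}

/-- Independent rotations on `Fin m × ZMod q`. -/
def rot (m q : ℕ) : (Fin m → Multiplicative (ZMod q)) →* Perm (Fin m × ZMod q) where
  toFun f :=
    { toFun := fun u => (u.1, u.2 + Multiplicative.toAdd (f u.1))
      invFun := fun u => (u.1, u.2 - Multiplicative.toAdd (f u.1))
      left_inv := fun u => by ext <;> simp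
      right_inv := fun u => by ext <;> simp }
  map_one' := by ext u <;> simp
  map_mul' f g := by ext u <;> simp [add_assoc, add_comm, add_left_comm]

/-- The rotation by `t` of the `i`-th part. -/
noncomputable def shift (j : Fin m × ZMod q ↪ α) (i : Fin m) (t : ZMod q) : Perm α :=
  (rot m q (Pi.mulSingle i (Multiplicative.ofAdd t))).viaEmbedding j

omit [Fintype α] [DecidableEq α] in
theorem shift_apply_self (j : Fin m × ZMod q ↪ α) (i : Fin m) (t x : ZMod q) :
    shift j i t (j (i, x)) = j (i, x + t) := by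
  rw [shift, Perm.viaEmbedding_apply]
  simp [rot]

omit [Fintype α] [DecidableEq α] in
theorem shift_apply_of_ne (j : Fin m × ZMod q ↪ α) (i : Fin m) (t : ZMod q) {y : α}
    (hy : ∀ x, y ≠ j (i, x)) : shift j i t y = y := by
  by_cases h : y ∈ Set.range j
  · obtain ⟨⟨i', x⟩, rfl⟩ := h
    have hne : i' ≠ i := fun e => hy x (by rw [e])
    rw [shift, Perm.viaEmbedding_apply]
    simp [rot, Pi.mulSingle_eq_of_ne hne]
  · exact Perm.viaEmbedding_apply_of_notMem _ _ _ h

omit [Fintype α] [DecidableEq α] in
theorem shift_nsmul (j : Fin m × ZMod q ↪ α) (i : Fin m) (t : ZMod q) (k : ℕ) :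
    shift j i t ^ k = shift j i (k • t) := by
  show (Perm.viaEmbeddingHom j) _ ^ k = (Perm.viaEmbeddingHom j) _
  rw [← map_pow, ← map_pow]
  congr 2
  exact (Pi.mulSingle_pow i _ k).symm

/-- A subgroup containing a transitive family of rotations is primitive. -/
theorem isPreprimitive_of_rotations [Fact q.Prime] {p a : ℕ} (hp : p.Prime) (hqp : q < p)
    (hcard : Fintype.card α = p ^ a) (j : Fin m × ZMod q ↪ α)
    (hout : Fintype.card α < (m + 1) * q) (H : Subgroup (Perm α))
    [MulAction.IsPretransitive H α] (hj : ∀ i t, shift j i t ∈ H) :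
    MulAction.IsPreprimitive H α := by
  refine { isTrivialBlock_of_isBlock := fun {B} hB => ?_ }
  by_contra hnt
  rw [MulAction.IsTrivialBlock] at hnt
  push Not at hnt
  obtain ⟨hB1, hBu⟩ := hnt
  have hBne : B.Nonempty := hB1.nonempty
  have hq : q.Prime := Fact.out
  have hmul := hB.ncard_block_mul_ncard_orbit_eq hBne
  rw [Nat.card_eq_fintype_card, hcard] at hmul
  have hc : p ≤ Set.ncard (MulAction.orbit H B) := by
    obtain ⟨k, -, hk⟩ := (Nat.dvd_prime_pow hp).1 (Dvd.intro_left _ hmul)
    rw [hk]
    refine Nat.le_self_pow ?_ p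
    rintro rfl
    rw [hk, pow_zero, mul_one, ← hcard, ← Nat.card_eq_fintype_card] at hmul
    exact hBu ((Set.eq_univ_iff_ncard B).2 hmul)
  -- every translate has a point outside the support
  have hpt : ∀ D ∈ MulAction.orbit H B, ∃ x ∈ D, x ∉ Set.range j := by
    rintro D ⟨h, rfl⟩
    have hD : MulAction.IsBlock H (h • B) := hB.translate h
    have hDc : Set.ncard (h • B) = Set.ncard B :=
      Set.ncard_image_of_injective B (MulAction.injective h)
    by_contra hall
    push Not at hall
    -- a part meeting the translate is inside it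
    have hpart : ∀ i x, j (i, x) ∈ h • B → ∀ y, j (i, y) ∈ h • B := by
      intro i x hx y
      by_cases hz : ∃ z ∈ h • B, ∀ u, z ≠ j (i, u)
      · obtain ⟨z, hz, hz'⟩ := hz
        let g : H := ⟨shift j i (y - x), hj _ _⟩
        have hgz : g • z = z := shift_apply_of_ne j i _ hz'
        have hg : g • (h • B) = h • B := by
          refine (hD.smul_eq_or_disjoint g).resolve_right fun hd => ?_
          exact Set.disjoint_left.1 hd (hgz ▸ Set.smul_mem_smul_set hz) hz
        have := Set.smul_mem_smul_set (a := g) hx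
        rw [hg] at this
        have he : g • j (i, x) = j (i, y) := by
          show shift j i (y - x) (j (i, x)) = _
          rw [shift_apply_self, add_sub_cancel]
        rwa [he] at this
      · push Not at hz
        -- the translate lies inside one part
        obtain ⟨u, hu, hux⟩ : ∃ u, j (i, u) ∈ h • B ∧ u ≠ x := by
          have h2 : 1 < Set.ncard (h • B) := hDc ▸ (Set.one_lt_ncard_iff_nontrivial).2 hB1
          obtain ⟨d, hd, hdx⟩ := Set.exists_ne_of_one_lt_ncard h2 (j (i, x))
          obtain ⟨u, rfl⟩ := hz d hd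
          exact ⟨u, hd, fun e => hdx (by rw [e])⟩
        let g : H := ⟨shift j i (u - x), hj _ _⟩
        have hgx : g • j (i, x) = j (i, u) := by
          show shift j i (u - x) (j (i, x)) = _
          rw [shift_apply_self, add_sub_cancel]
        have hg : g • (h • B) = h • B := by
          refine (hD.smul_eq_or_disjoint g).resolve_right fun hd => ?_
          exact Set.disjoint_left.1 hd (hgx ▸ Set.smul_mem_smul_set hx) hu
        have hgk : ∀ k : ℕ, g ^ k • (h • B) = h • B := by
          intro k
          induction k with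
          | zero => simp
          | succ k ih => rw [pow_succ, mul_smul, hg, ih]
        have hne : u - x ≠ 0 := sub_ne_zero.2 hux
        have hmem := Set.smul_mem_smul_set (a := g ^ ((y - x) * (u - x)⁻¹).val) hx
        rw [hgk] at hmem
        have he : g ^ ((y - x) * (u - x)⁻¹).val • j (i, x) = j (i, y) := by
          show ((g ^ ((y - x) * (u - x)⁻¹).val : H) : Perm α) (j (i, x)) = _
          rw [SubmonoidClass.coe_pow, shift_nsmul, shift_apply_self, nsmul_eq_mul,
            ZMod.natCast_zmod_val, inv_mul_cancel_right₀ hne, add_sub_cancel]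
        rwa [he] at hmem
    have hset : h • B = j '' ({i | ∃ x, j (i, x) ∈ h • B} ×ˢ (Set.univ : Set (ZMod q))) := by
      ext z
      constructor
      · intro hz
        obtain ⟨⟨i, x⟩, rfl⟩ := hall z hz
        exact ⟨(i, x), ⟨⟨x, hz⟩, trivial⟩, rfl⟩
      · rintro ⟨⟨i, x⟩, ⟨⟨x', hx'⟩, -⟩, rfl⟩
        exact hpart i x' hx' x
    have hdvd : q ∣ Set.ncard B := by
      rw [← hDc, hset, Set.ncard_image_of_injective _ j.injective, Set.ncard_prod, Set.ncard_univ,
        Nat.card_zmod]
      exact dvd_mul_left _ _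
    exact hqp.ne ((Nat.prime_dvd_prime_iff_eq hq hp).1
      (hq.dvd_of_dvd_pow (hdvd.trans (Dvd.intro _ hmul))))
  choose f hf hf' using hpt
  have hle : Set.ncard (MulAction.orbit H B) ≤ Set.ncard (Set.range j)ᶜ := by
    rw [← Nat.card_coe_set_eq, ← Nat.card_coe_set_eq]
    refine Nat.card_le_card_of_injective
      (fun D : MulAction.orbit H B => (⟨f D D.2, hf' D D.2⟩ : ((Set.range j)ᶜ : Set α))) ?_
    rintro ⟨D, g, rfl⟩ ⟨D', g', rfl⟩ e
    refine Subtype.ext ((hB.smul_eq_smul_or_disjoint g g').resolve_right fun hd => ?_)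
    have e' := congrArg Subtype.val e
    refine Set.disjoint_left.1 hd (hf _ ⟨g, rfl⟩) ?_
    rw [show f (g • B) ⟨g, rfl⟩ = f (g' • B) ⟨g', rfl⟩ from e']
    exact hf _ ⟨g', rfl⟩
  have hrange : Set.ncard (Set.range j) = m * q := by
    rw [← Set.image_univ, Set.ncard_image_of_injective _ j.injective, Set.ncard_univ, Nat.card_prod,
      Nat.card_fin, Nat.card_zmod]
  have htot := Set.ncard_add_ncard_compl (Set.range j)
  rw [hrange, Nat.card_eq_fintype_card] at htot
  rw [add_one_mul] at hout
  omega

/-- No subgroup of index prime to `p` and `q` avoids the alternating group. -/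
theorem alternatingGroup_le {p q a : ℕ} (hp : p.Prime) (hq : q.Prime) (hqp : q < p) (ha : a ≠ 0)
    (hbig : q + 3 ≤ p ^ a) [NeZero (p ^ a)] (H : Subgroup (Perm (ZMod (p ^ a))))
    (hHp : ¬ p ∣ H.index) (hHq : ¬ q ∣ H.index) : alternatingGroup (ZMod (p ^ a)) ≤ H := by
  haveI := Fact.mk hp
  haveI := Fact.mk hq
  haveI : MulAction.IsPretransitive H (ZMod (p ^ a)) := by
    let T : Multiplicative (ZMod (p ^ a)) →* Perm (ZMod (p ^ a)) :=
      { toFun := fun t => Equiv.addRight (Multiplicative.toAdd t)
        map_one' := by ext x; simp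
        map_mul' := fun s t => by ext x; simp [add_comm, add_left_comm] }
    have hT : IsPGroup p T.range :=
      (IsPGroup.of_card (G := Multiplicative (ZMod (p ^ a))) (n := a)
        (by rw [Nat.card_congr Multiplicative.toAdd, Nat.card_zmod])).of_surjective T.rangeRestrict
        T.rangeRestrict_surjective
    obtain ⟨c, hc⟩ := exists_conj_le hHp hT
    refine ⟨fun x y => ⟨⟨_, hc _ ⟨Multiplicative.ofAdd (c⁻¹ y - c⁻¹ x), rfl⟩⟩, ?_⟩⟩
    show c (c⁻¹ x + (c⁻¹ y - c⁻¹ x)) = y
    rw [add_sub_cancel]
    exact c.apply_symm_apply y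
  set m := p ^ a / q with hm
  obtain ⟨j⟩ : Nonempty (Fin m × ZMod q ↪ ZMod (p ^ a)) := by
    refine Function.Embedding.nonempty_of_card_le ?_
    rw [Fintype.card_prod, Fintype.card_fin, ZMod.card, ZMod.card]
    exact Nat.div_mul_le_self _ _
  have hR : IsPGroup q ((Perm.viaEmbeddingHom j).comp (rot m q)).range := by
    refine (IsPGroup.of_card (G := Fin m → Multiplicative (ZMod q)) (n := m) ?_).of_surjective _
      (MonoidHom.rangeRestrict_surjective _)
    rw [Nat.card_fun, Nat.card_congr Multiplicative.toAdd, Nat.card_zmod, Nat.card_fin]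
  obtain ⟨c, hc⟩ := exists_conj_le hHq hR
  have hconj : ∀ i t, shift (j.trans c.toEmbedding) i t = c * shift j i t * c⁻¹ := by
    intro i t
    ext z
    obtain ⟨w, rfl⟩ := c.surjective z
    show _ = c (shift j i t (c⁻¹ (c w)))
    rw [show c⁻¹ (c w) = w from c.symm_apply_apply w]
    by_cases h : ∃ x, w = j (i, x)
    · obtain ⟨x, rfl⟩ := h
      rw [show c (j (i, x)) = (j.trans c.toEmbedding) (i, x) from rfl, shift_apply_self, shift_apply_self]
      rfl
    · push Not at h
      rw [shift_apply_of_ne _ _ _ fun x e => h x (c.injective e), shift_apply_of_ne _ _ _ h]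
  have hj : ∀ i t, shift (j.trans c.toEmbedding) i t ∈ H := fun i t => by
    rw [hconj]
    exact hc _ ⟨_, rfl⟩
  have hprim := isPreprimitive_of_rotations hp hqp (ZMod.card _) (j.trans c.toEmbedding)
    (by
      rw [ZMod.card, hm, add_one_mul]
      exact Nat.lt_div_mul_add hq.pos) H hj
  have hm0 : 0 < m := Nat.div_pos (by omega) hq.pos
  set j' := j.trans c.toEmbedding
  set g := shift j' ⟨0, hm0⟩ 1 with hg
  have hgq : g ^ q = 1 := by
    rw [hg, shift_nsmul, nsmul_one, ZMod.natCast_self]
    ext z
    by_cases h : ∃ x, z = j' (⟨0, hm0⟩, x)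
    · obtain ⟨x, rfl⟩ := h
      rw [shift_apply_self, add_zero]; rfl
    · push Not at h
      rw [shift_apply_of_ne _ _ _ h]; rfl
  have hg1 : g ≠ 1 := by
    intro e
    have := congrArg (fun s : Perm (ZMod (p ^ a)) => s (j' (⟨0, hm0⟩, 0))) e
    simp only [hg, shift_apply_self, Perm.coe_one, id_eq] at this
    have := j'.injective this
    simp at this
  have ho : orderOf g = q := orderOf_eq_prime hgq hg1
  have hsupp : g.support.card ≤ q := by
    refine le_trans (Finset.card_le_card (t := Finset.univ.image fun x => j' (⟨0, hm0⟩, x)) ?_)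
      (Finset.card_image_le.trans (le_of_eq (by simp [ZMod.card])))
    intro z hz
    rw [Perm.mem_support] at hz
    by_contra hne
    refine hz (shift_apply_of_ne _ _ _ fun x e => hne ?_)
    rw [e]
    exact Finset.mem_image_of_mem _ (Finset.mem_univ x)
  have hcyc : g.IsCycle := Perm.isCycle_of_prime_order (ho.symm ▸ hq) (by have := hq.pos; omega)
  refine Cfsg.Agent.S0713.result H hprim hq (by have := hq.two_le; rw [ZMod.card]; omega)
    (by rw [ZMod.card]; exact hbig) hcyc (by rw [← hcyc.orderOf, ho]) (hj _ _)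

end CfsgLib.HallClasses.SymmetricNoHall
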